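import Cfsg.Agent.Sigma.NonSigma
import Cfsg.Agent.PLengthComm.Main
import Cfsg.Agent.Hall.InvariantHall

/-!
Proper subgroups of a minimal simple group of odd order have `p`-length one.
-/

set_option autoImplicit false
set_option linter.unusedSectionVars false
set_option linter.style.haveILetI false

namespace CfsgLib.SigmaGroups

open CfsgLib.BenderUnique CfsgLib.Uniq CfsgLib.PLengthProduct

universe u

variable {p : ℕ} [hp : Fact p.Prime]

section General

variable {X : Type u} [Group X] [Finite X]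

theorem pLength_subgroup {k : ℕ} (H : Subgroup X) (h : Cfsg.PLengthLE p k X) : Cfsg.PLengthLE p k ↥H := by
  have key : ∀ n, (Cfsg.upperPSeries p X n).1.subgroupOf H ≤ (Cfsg.upperPSeries p ↥H n).1 := by
    intro n
    induction n with
    | zero => exact fun x hx => Subgroup.mem_bot.2 (Subtype.ext (Subgroup.mem_bot.1 hx))
    | succ n ih =>
      haveI : (Cfsg.upperPSeries p X (n + 1)).1.Normal := (Cfsg.upperPSeries p X (n + 1)).2
      refine le_upper_succ inferInstance fun x hx => ?_
      obtain ⟨m, hm, h1, h2⟩ := pow_mem_of_succ (Subgroup.mem_subgroupOf.1 hx)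
      exact ⟨m, ih (show (x ^ m : H) ∈ _ from hm), h1, h2⟩
  refine top_le_iff.1 ((le_of_eq ?_).trans (key (2 * k + 1)))
  rw [show (Cfsg.upperPSeries p X (2 * k + 1)).1 = ⊤ from h, Subgroup.top_subgroupOf]

theorem pLength_of_pPrimePCore (hi : ¬ p ∣ (Cfsg.pPrimePCore p X).index) : Cfsg.PLengthLE p 1 X := by
  haveI := PCore.pPrimePCore_normal p X
  refine top_le_iff.1 (le_upper_succ (n := 2) inferInstance fun x _ => ?_)
  refine ⟨(Cfsg.pPrimePCore p X).index, ?_, fun _ => PCore.coprime_of_not_dvd hi, fun h => absurd even_two h⟩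
  refine le_upper_succ (n := 1) (PCore.pPrimePCore_normal p X) (fun y hy => ?_)
    (Subgroup.pow_index_mem _ x)
  obtain ⟨k, hk⟩ := PCore.isPGroup_pCore p (X ⧸ Cfsg.pPrimeCore p X) ⟨_, PCore.mem_pPrimePCore.1 hy⟩
  refine ⟨p ^ k, ?_, fun h => absurd h (by decide), fun _ => ⟨k, rfl⟩⟩
  rw [PLocalBasics.upperPSeries_one]
  have h1 : (QuotientGroup.mk' (Cfsg.pPrimeCore p X) y) ^ p ^ k = 1 := congrArg Subtype.val hk
  rw [← map_pow] at h1
  exact (QuotientGroup.eq_one_iff _).1 h1

theorem pLength_of_not_dvd (h : ¬ p ∣ Nat.card X) : Cfsg.PLengthLE p 1 X :=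
  pLength_of_pPrimePCore fun hd => h (hd.trans (Subgroup.index_dvd_card _))

theorem pLength_of_normal (N : Subgroup X) [N.Normal] (hi : ¬ p ∣ N.index) (h : Cfsg.PLengthLE p 1 ↥N) :
    Cfsg.PLengthLE p 1 X := by
  have hN : N ≤ (Cfsg.upperPSeries p X (2 * 1 + 1)).1 := by
    intro x hx
    exact map_upper_le N (2 * 1 + 1) ⟨⟨x, hx⟩, by
      rw [show (Cfsg.upperPSeries p ↥N (2 * 1 + 1)).1 = ⊤ from h]; trivial, rfl⟩
  exact top_le_iff.1 (le_upper_of_coprime_pow (a := 1) inferInstance fun x _ =>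
    ⟨N.index, PCore.coprime_of_not_dvd hi, hN (N.pow_index_mem x)⟩)

end General

variable {G : Type u} [Group G] [Finite G]

/-- A prime dividing the order of a maximal subgroup outside `σ`. -/
theorem exists_nonsigma_prime (hG : Cfsg.IsMinSimpleOddOrder G) {M : Subgroup G} (hM : IsCoatom M)
    (hne : M ≠ ⊥) : ∃ q : ℕ, q.Prime ∧ q ∣ Nat.card M ∧ q ∉ Cfsg.sigma M := by
  haveI := isSolvable_of_ne_top hG hM.1
  haveI : Nontrivial M := (Subgroup.nontrivial_iff_ne_bot M).2 hne
  have hlt := Group.IsSolvable.commutator_lt_top_of_nontrivial (G := M)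
  obtain ⟨q, hq, hd⟩ := Nat.exists_prime_and_dvd (fun e => hlt.ne (Subgroup.index_eq_one.1 e) : (commutator M).index ≠ 1)
  haveI := Fact.mk hq
  refine ⟨q, hq, hd.trans (Subgroup.index_dvd_card _), fun hs => ?_⟩
  obtain ⟨S⟩ : Nonempty (Sylow q M) := inferInstance
  exact S.not_dvd_index (hd.trans (Subgroup.index_dvd_of_le (sylow_le_commutator hG hM hs S)))

theorem piCore_alpha_le_commutator (hG : Cfsg.IsMinSimpleOddOrder G) {M : Subgroup G} (hM : IsCoatom M) :
    Cfsg.piCore (Cfsg.alpha M) M ≤ commutator M := by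
  rw [← Subgroup.relIndex_eq_one]
  refine Nat.eq_one_iff_not_exists_prime_dvd.2 fun q hq hd => ?_
  haveI := Fact.mk hq
  have ha := Hall.isPiSubgroup_piCore q hq (hd.trans (Subgroup.index_dvd_card _))
  obtain ⟨S⟩ : Nonempty (Sylow q M) := inferInstance
  exact S.not_dvd_index ((hd.trans (Subgroup.relIndex_dvd_index_of_normal _ _)).trans
    (Subgroup.index_dvd_of_le (sylow_le_commutator hG hM (mem_sigma_of_alpha hG hM ha) S)))

theorem pLength_of_alpha (hG : Cfsg.IsMinSimpleOddOrder G) {M : Subgroup G} (hM : IsCoatom M)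
    (ha : p ∈ Cfsg.alpha M) : Cfsg.PLengthLE p 1 M := by
  have hpM : p ∣ Nat.card M := dvd_card_of_alpha ha
  have hne : M ≠ ⊥ := by
    rintro rfl
    rw [Subgroup.card_bot] at hpM
    exact hp.out.one_lt.ne' (Nat.dvd_one.1 hpM)
  haveI := isSolvable_of_ne_top hG hM.1
  obtain ⟨q, hq, hqM, hqs⟩ := exists_nonsigma_prime hG hM hne
  haveI := Fact.mk hq
  obtain ⟨P⟩ : Nonempty (Sylow q M) := inferInstance
  obtain ⟨x, hxZ, hxo, hZ, -⟩ := exists_central_element hG hM hqM hqs P
  obtain ⟨y, -, rfl⟩ := hxZ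
  rw [Subgroup.subtype_apply, Subgroup.orderOf_coe] at hxo
  set N := Cfsg.piCore (Cfsg.alpha M) M with hN
  haveI : N.Normal := inferInstance
  have hqα : q ∉ Cfsg.alpha M := fun h => hqs (alpha_subset_sigma hG hM h)
  set π : Set ℕ := (Cfsg.alpha M)ᶜ with hπ
  haveI : Group.IsSolvable (⊤ : Subgroup M) := inferInstance
  obtain ⟨R, hR, -, hyR⟩ := (Hall.coprime_invariant_hall (⊥ : Subgroup M) ⊤ bot_le
    (by rw [Subgroup.card_bot]; exact Nat.coprime_one_left _) inferInstance π).2.2 (Subgroup.zpowers y) le_top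
    bot_le (fun r hr hd => by
      rw [Nat.card_zpowers, hxo, Nat.prime_dvd_prime_iff_eq hr hq] at hd
      exact hd ▸ hqα)
  have hNi : ∀ r : ℕ, r.Prime → r ∈ Cfsg.alpha M → ¬ r ∣ N.index := fun r hr hra => by
    have := (alphaCore_hallOf hG hM).2.2 r hr hra
    rwa [Cfsg.alphaCore, Subgroup.relIndex, Subgroup.subgroupOf,
      Subgroup.comap_map_eq_self_of_injective M.subtype_injective] at this
  have hcop : (Nat.card N).Coprime (Nat.card R) :=
    Nat.coprime_of_dvd fun r hr h1 h2 => hR.2.1 r hr h2 (Hall.isPiSubgroup_piCore r hr h1)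
  have hcompl : Subgroup.IsComplement' N R := by
    refine Subgroup.isComplement'_of_coprime ?_ hcop
    have hRi : ∀ r : ℕ, r.Prime → r ∉ Cfsg.alpha M → ¬ r ∣ R.index := fun r hr hra => by
      have := hR.2.2 r hr hra
      rwa [Subgroup.relIndex_top_right] at this
    refine Nat.dvd_antisymm ((Nat.Coprime.mul_dvd_of_dvd_of_dvd hcop (Subgroup.card_subgroup_dvd_card N)
      (Subgroup.card_subgroup_dvd_card R))) ?_
    have h1 : (N.index).Coprime R.index :=
      Nat.coprime_of_dvd fun r hr h1 h2 => by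
        by_cases hra : r ∈ Cfsg.alpha M
        · exact hNi r hr hra h1
        · exact hRi r hr hra h2
    have h2 : N.index ∣ Nat.card R := by
      refine h1.dvd_of_dvd_mul_right ?_
      rw [Subgroup.card_mul_index]
      exact Subgroup.index_dvd_card N
    calc Nat.card M = Nat.card N * N.index := (Subgroup.card_mul_index N).symm
      _ ∣ Nat.card N * Nat.card R := Nat.mul_dvd_mul_left _ h2
  have hyp : PLengthComm.Hyp N R (Subgroup.zpowers y) := by
    refine ⟨by rw [Subgroup.normalizer_eq_top]; exact le_top, hcop, hyR, by rw [Nat.card_zpowers, hxo]; exact hq, ?_⟩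
    haveI := hZ
    have hle : ((N ⊓ Subgroup.centralizer ((Subgroup.zpowers y : Subgroup M) : Set M)).map M.subtype) ≤
        Cfsg.alphaCore M ⊓ Subgroup.centralizer ({(M.subtype y)} : Set G) := by
      rintro _ ⟨z, hz, rfl⟩
      refine Subgroup.mem_inf.2 ⟨⟨z, hz.1, rfl⟩, Subgroup.mem_centralizer_singleton_iff.2 ?_⟩
      have h1 := congrArg M.subtype (Subgroup.mem_centralizer_iff.1 hz.2 y (Subgroup.mem_zpowers y))
      simp only [map_mul] at h1
      exact h1.symm
    haveI : IsZGroup ↥((N ⊓ Subgroup.centralizer ((Subgroup.zpowers y : Subgroup M) : Set M)).map M.subtype) :=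
      IsZGroup.of_injective (Subgroup.inclusion_injective hle)
    exact IsZGroup.of_injective (f := (Subgroup.equivMapOfInjective _ _ M.subtype_injective).toMonoidHom)
      (MulEquiv.injective _)
  have h := PLengthComm.main (p := p) (odd_card hG M) hyp
  have hcop' : (Nat.card N).Coprime N.index := by
    rw [hcompl.symm.index_eq_card]; exact hcop
  rw [← ((Cfsg.Agent.S1459.result (G := M)).1 N R inferInstance hcop' hcompl
    (piCore_alpha_le_commutator hG hM)).1] at h
  exact pLength_of_normal N (hNi p hp.out ha) h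

theorem pLength_proper (hG : Cfsg.IsMinSimpleOddOrder G) {H : Subgroup G} (hH : H ≠ ⊤) :
    Cfsg.PLengthLE p 1 H := by
  obtain ⟨M, hM, hle⟩ := exists_coatom_ge hH
  haveI := isSolvable_of_ne_top hG hM.1
  have hPM : Cfsg.PLengthLE p 1 M := by
    by_cases hpM : p ∣ Nat.card M
    · by_cases hr : Cfsg.PRankLE p 2 M
      · obtain ⟨-, -, -, -, -, hidx⟩ := Cfsg.Agent.S1450.result (odd_card hG M) p hpM hr
        exact pLength_of_pPrimePCore fun hd => hp.out.coprime_iff_not_dvd.1 hidx.symm hd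
      · exact pLength_of_alpha hG hM ⟨hp.out, hr⟩
    · exact pLength_of_not_dvd hpM
  exact PLengthComm.pLength_of_surjective (pLength_subgroup (H.subgroupOf M) hPM)
    (Subgroup.subgroupOfEquivOfLe hle).toMonoidHom (MulEquiv.surjective _)

end CfsgLib.SigmaGroups
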