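import Cfsg.Agent.Sigma.PLengthOne
import Cfsg.Agent.S1461
import Cfsg.Agent.S1448
import Cfsg.Agent.H10.QdPrime

/-!
The normalizer of a Sylow subgroup controls fusion, and the shape of a Sylow subgroup of rank two.
-/

set_option autoImplicit false
set_option linter.unusedSectionVars false
set_option linter.style.haveILetI false

namespace CfsgLib.SigmaGroups

open CfsgLib.BenderUnique CfsgLib.Uniq
open scoped commutatorElement

universe u

variable {G : Type u} [Group G] [Finite G] {p : ℕ} [hp : Fact p.Prime]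

theorem sylow_bot_of_two (hG : Cfsg.IsMinSimpleOddOrder G) (P : Sylow p G) (h : (P : Subgroup G) ≠ ⊥) : p ≠ 2 :=
  ne_two hG ((dvd_card_of_ne_bot P.isPGroup' h).trans (Subgroup.card_subgroup_dvd_card _))

theorem zNormalizer_ne_top (hG : Cfsg.IsMinSimpleOddOrder G) (P : Sylow p G) (h : (P : Subgroup G) ≠ ⊥) :
    Subgroup.normalizer (ZJCenter.Z p (P : Subgroup G) : Set G) ≠ ⊤ :=
  normalizer_ne_top hG (ZJCenter.Z_ne_bot P.isPGroup' h)
    (fun e => pgroup_ne_top hG P.isPGroup' (top_unique (e.symm.le.trans (ZJCenter.Z_le (P : Subgroup G)))))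

theorem map_normalizer_subgroupOf {X P : Subgroup G} (hPX : P ≤ X)
    (hNX : Subgroup.normalizer (P : Set G) ≤ X) :
    (Subgroup.normalizer ((P.subgroupOf X : Subgroup X) : Set X)).map X.subtype = Subgroup.normalizer (P : Set G) := by
  rw [← Subgroup.subgroupOf_normalizer_eq hPX, Subgroup.map_subgroupOf_eq_of_le hNX]

/-- The focal subgroup theorem for `N_G(P)`. -/
theorem sylow_le_derived_normalizer (hG : Cfsg.IsMinSimpleOddOrder G) (P : Sylow p G) :
    (P : Subgroup G) ≤ ⁅Subgroup.normalizer ((P : Subgroup G) : Set G),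
      Subgroup.normalizer ((P : Subgroup G) : Set G)⁆ := by
  by_cases hP1 : (P : Subgroup G) = ⊥
  · rw [hP1]; exact bot_le
  set X := Subgroup.normalizer (ZJCenter.Z p (P : Subgroup G) : Set G)
  have hX := zNormalizer_ne_top hG P hP1
  have hNX : Subgroup.normalizer ((P : Subgroup G) : Set G) ≤ X := normalizer_le_normalizer_Z _
  have hPX : (P : Subgroup G) ≤ X := Subgroup.le_normalizer.trans hNX
  have hder := sylow_le_derived hG P (sylow_bot_of_two hG P hP1)
  haveI := isSolvable_of_ne_top hG hX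
  obtain ⟨h1, -, -⟩ := Cfsg.Agent.S1461.result (G := X) p (pLength_proper hG hX) (P.subtype hPX)
  have h2 : (P.subtype hPX : Subgroup X) ≤ commutator X := by
    rw [← Subgroup.map_subtype_le_map_subtype, Subgroup.map_subtype_commutator, Sylow.coe_subtype,
      Subgroup.map_subgroupOf_eq_of_le hPX]
    exact hder
  have h3 := Subgroup.map_mono (f := X.subtype) (h1 h2)
  rw [Subgroup.map_commutator, Sylow.coe_subtype, Subgroup.map_subgroupOf_eq_of_le hPX,
    map_normalizer_subgroupOf hPX hNX] at h3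
  exact h3

theorem sylow_eq_commutator (hG : Cfsg.IsMinSimpleOddOrder G) (P : Sylow p G) (V : Subgroup G)
    (hV : Cfsg.IsComplIn (P : Subgroup G) V (Subgroup.normalizer ((P : Subgroup G) : Set G))) :
    (P : Subgroup G) = ⁅(P : Subgroup G), V⁆ := by
  by_cases hP1 : (P : Subgroup G) = ⊥
  · rw [hP1, Subgroup.commutator_bot_left]
  obtain ⟨hPN, hVN, hdisj, hmul⟩ := hV
  set N := Subgroup.normalizer ((P : Subgroup G) : Set G) with hN
  have hNtop : N ≠ ⊤ := normalizer_ne_top hG hP1 (pgroup_ne_top hG P.isPGroup')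
  haveI := isSolvable_of_ne_top hG hNtop
  haveI : ((P : Subgroup G).subgroupOf N).Normal := Subgroup.normal_in_normalizer
  have hcompl : Subgroup.IsComplement' ((P : Subgroup G).subgroupOf N) (V.subgroupOf N) := by
    refine Subgroup.isComplement'_of_disjoint_and_mul_eq_univ ?_ (Set.eq_univ_of_forall fun t => ?_)
    · rw [disjoint_iff, eq_bot_iff]
      rintro z ⟨hz1, hz2⟩
      have h4 : (z : G) ∈ (⊥ : Subgroup G) := hdisj ▸ Subgroup.mem_inf.2 ⟨hz1, hz2⟩
      exact Subgroup.mem_bot.2 (Subtype.ext (Subgroup.mem_bot.1 h4))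
    · obtain ⟨a, ha, b, hb, he⟩ := hmul t t.2
      exact ⟨⟨a, hPN ha⟩, ha, ⟨b, hVN hb⟩, hb, Subtype.ext he.symm⟩
  have hcop : (Nat.card ((P : Subgroup G).subgroupOf N)).Coprime ((P : Subgroup G).subgroupOf N).index :=
    (P.subtype hPN).card_coprime_index
  have hle : (P : Subgroup G).subgroupOf N ≤ commutator N := by
    rw [← Subgroup.map_subtype_le_map_subtype, Subgroup.map_subtype_commutator,
      Subgroup.map_subgroupOf_eq_of_le hPN]
    exact sylow_le_derived_normalizer hG P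
  have h := congrArg (Subgroup.map N.subtype)
    ((Cfsg.Agent.S1459.result (G := N)).1 _ _ inferInstance hcop hcompl hle).1
  rwa [Subgroup.map_commutator, Subgroup.map_subgroupOf_eq_of_le hPN, Subgroup.map_subgroupOf_eq_of_le hVN] at h

/-- Conjugation inside `P` is realized in `N_G(P)`. -/
theorem exists_normalizer_conj (hG : Cfsg.IsMinSimpleOddOrder G) (P : Sylow p G) {Q : Subgroup G} {x : G}
    (hQ : Q ≤ (P : Subgroup G)) (hx : Q.map (MulAut.conj x).toMonoidHom ≤ (P : Subgroup G)) :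
    ∃ y ∈ Subgroup.normalizer ((P : Subgroup G) : Set G),
      Q.map (MulAut.conj x).toMonoidHom = Q.map (MulAut.conj y).toMonoidHom := by
  have hagree : ∀ a b : G, (∀ q ∈ Q, a * q * a⁻¹ = b * q * b⁻¹) →
      Q.map (MulAut.conj a).toMonoidHom = Q.map (MulAut.conj b).toMonoidHom := fun a b h => by
    refine le_antisymm ?_ ?_ <;> rintro _ ⟨q, hq, rfl⟩
    · exact ⟨q, hq, (h q hq).symm⟩
    · exact ⟨q, hq, h q hq⟩
  by_cases hP1 : (P : Subgroup G) = ⊥
  · refine ⟨1, one_mem _, hagree x 1 fun q hq => ?_⟩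
    have h1 : q ∈ (⊥ : Subgroup G) := hP1 ▸ hQ hq
    rw [Subgroup.mem_bot.1 h1]
    simp
  set X := Subgroup.normalizer (ZJCenter.Z p (P : Subgroup G) : Set G)
  have hX := zNormalizer_ne_top hG P hP1
  have hNX : Subgroup.normalizer ((P : Subgroup G) : Set G) ≤ X := normalizer_le_normalizer_Z _
  have hPX : (P : Subgroup G) ≤ X := Subgroup.le_normalizer.trans hNX
  have hp2 := sylow_bot_of_two hG P hP1
  have hnorm := ZJCenter.isNormal_Z_of_stable hp2 P.isPGroup' (Fusion.isSaturated_group P)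
    (StableQuot.stable_group (QdFree.isNormalizerPStable_of_odd hG.1 hp2) P.isPGroup')
  obtain ⟨-, h⟩ := QdFree.controlsStrongFusionOf_of_isNormal hnorm (Q : Set G) hQ
  obtain ⟨n, hn, hne⟩ := h x (by
    rintro _ ⟨q, hq, rfl⟩
    exact hx ⟨q, hq, rfl⟩)
  haveI := isSolvable_of_ne_top hG hX
  obtain ⟨-, h2, -⟩ := Cfsg.Agent.S1461.result (G := X) p (pLength_proper hG hX) (P.subtype hPX)
  obtain ⟨g, hg, c, hc, hgc⟩ := h2 (Q.subgroupOf X : Set X) ⟨n, hn⟩
    (fun q hq => show q ∈ (P : Subgroup G).subgroupOf X from hQ hq) (by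
      rintro _ ⟨q, hq, rfl⟩
      show (n * (q : G) * n⁻¹) ∈ (P : Subgroup G)
      rw [← hne (q : G) hq]
      exact hx ⟨(q : G), hq, rfl⟩)
  refine ⟨(g : G), ?_, hagree x g fun q hq => ?_⟩
  · have h3 : (g : G) ∈ (Subgroup.normalizer ((P.subtype hPX : Subgroup X) : Set X)).map X.subtype := ⟨g, hg, rfl⟩
    rwa [Sylow.coe_subtype, map_normalizer_subgroupOf hPX hNX] at h3
  · have hqX : q ∈ X := hPX (hQ hq)
    have hc' : q * (c : G) = (c : G) * q :=
      congrArg Subtype.val (Subgroup.mem_centralizer_iff.1 hc ⟨q, hqX⟩ hq)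
    have hgc' : (g : G) * c = n := congrArg Subtype.val hgc
    rw [hne q hq, ← hgc']
    calc (g : G) * c * q * ((g : G) * c)⁻¹ = (g : G) * ((c : G) * q) * (c : G)⁻¹ * (g : G)⁻¹ := by group
      _ = (g : G) * (q * (c : G)) * (c : G)⁻¹ * (g : G)⁻¹ := by rw [hc']
      _ = (g : G) * q * (g : G)⁻¹ := by group

/-- `N_P(Q)` is a Sylow subgroup of `N_G(Q)`. -/
theorem not_dvd_relIndex (hG : Cfsg.IsMinSimpleOddOrder G) (P : Sylow p G) {Q : Subgroup G}
    (hQ : Q ≤ (P : Subgroup G)) :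
    ¬ p ∣ ((P : Subgroup G) ⊓ Subgroup.normalizer (Q : Set G)).relIndex (Subgroup.normalizer (Q : Set G)) := by
  set N := Subgroup.normalizer (Q : Set G) with hN
  set W := (P : Subgroup G) ⊓ N with hW
  obtain ⟨S, hS⟩ := exists_max_ge (P.isPGroup'.to_le inf_le_left) (inf_le_right : W ≤ N)
  set T := (S : Subgroup N).map N.subtype with hT
  have hTN : T ≤ N := Subgroup.map_subtype_le _
  obtain ⟨P₁, hP₁⟩ := IsPGroup.exists_le_sylow (S.isPGroup'.map N.subtype : IsPGroup p T)
  obtain ⟨g, hg⟩ := MulAction.exists_smul_eq G P₁ P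
  have hTg : T.map (MulAut.conj g).toMonoidHom ≤ (P : Subgroup G) := by
    rw [← hg]; exact Subgroup.map_mono hP₁
  have hQT : Q ≤ T := (le_inf hQ Subgroup.le_normalizer : Q ≤ W).trans hS
  obtain ⟨y, hy, hye⟩ := exists_normalizer_conj hG P hQ ((Subgroup.map_mono hQT).trans hTg)
  set U := T.map (MulAut.conj (y⁻¹ * g)).toMonoidHom with hU
  have hUP : U ≤ (P : Subgroup G) := by
    rw [hU, ← map_conj_map]
    exact (Subgroup.map_mono hTg).trans (map_conj_eq_of_normalizer (Subgroup.inv_mem _ hy)).le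
  have hUN : U ≤ N := by
    have hQe : Q.map (MulAut.conj (y⁻¹ * g)).toMonoidHom = Q := by
      rw [← map_conj_map, hye, map_conj_map, inv_mul_cancel, map_conj_one]
    have hn : y⁻¹ * g ∈ N := Subgroup.mem_normalizer_iff_map_conj_eq.2 hQe
    exact (Subgroup.map_mono hTN).trans (map_conj_le_of_mem hn)
  have hcard : Nat.card T ≤ Nat.card W := by
    rw [← card_map_conj T (y⁻¹ * g)]
    exact Subgroup.card_le_of_le (le_inf hUP hUN)
  have hWT : W = T := Subgroup.eq_of_le_of_card_ge hS hcard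
  rw [hWT, hT, Subgroup.relIndex, Subgroup.subgroupOf, Subgroup.comap_map_eq_self_of_injective N.subtype_injective]
  exact S.not_dvd_index

/-- Subgroups of `P` normal in `N_G(P)` are weakly closed. -/
theorem normalizer_le_of_weakly_closed (hG : Cfsg.IsMinSimpleOddOrder G) (P : Sylow p G) {R Q : Subgroup G}
    (hR : IsPGroup p R) (hQ : Q ≤ (P : Subgroup G) ⊓ R)
    (hPQ : Subgroup.normalizer ((P : Subgroup G) : Set G) ≤ Subgroup.normalizer (Q : Set G)) :
    Subgroup.normalizer (R : Set G) ≤ Subgroup.normalizer (Q : Set G) := by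
  have hclosed : ∀ x : G, Q.map (MulAut.conj x).toMonoidHom ≤ (P : Subgroup G) →
      Q.map (MulAut.conj x).toMonoidHom = Q := fun x hx => by
    obtain ⟨y, hy, he⟩ := exists_normalizer_conj hG P (hQ.trans inf_le_left) hx
    rw [he]
    exact map_conj_eq_of_normalizer (hPQ hy)
  obtain ⟨P₁, hP₁⟩ := hR.exists_le_sylow
  obtain ⟨g, hg⟩ := MulAction.exists_smul_eq G P₁ P
  have hRg : R.map (MulAut.conj g).toMonoidHom ≤ (P : Subgroup G) := by
    rw [← hg]; exact Subgroup.map_mono hP₁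
  have hQg := hclosed g ((Subgroup.map_mono (hQ.trans inf_le_right)).trans hRg)
  intro n hn
  have h1 := hclosed (g * n) (by
    rw [← map_conj_map]
    exact (Subgroup.map_mono ((Subgroup.map_mono (hQ.trans inf_le_right)).trans
      (map_conj_eq_of_normalizer hn).le)).trans hRg)
  rw [← map_conj_map] at h1
  refine Subgroup.mem_normalizer_iff_map_conj_eq.2 ?_
  refine Subgroup.map_injective (f := (MulAut.conj g).toMonoidHom) (MulAut.conj g).injective ?_
  exact h1.trans hQg.symm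

/-- B&G 10.7(b). -/
theorem rank_two_structure (hG : Cfsg.IsMinSimpleOddOrder G) (P : Sylow p G)
    (hr : Cfsg.PRankLE p 2 (P : Subgroup G)) :
    IsMulCommutative (P : Subgroup G) ∨ ∃ P₁ P₂ : Subgroup G, P₁ ⊔ P₂ = (P : Subgroup G) ∧
        (∀ a ∈ P₁, ∀ b ∈ P₂, a * b = b * a) ∧
        ¬ IsMulCommutative P₁ ∧ Nat.card P₁ = p ^ 3 ∧ Monoid.exponent P₁ = p ∧ IsCyclic P₂ ∧
        Subgroup.closure {x : G | x ∈ P₂ ∧ x ^ p = 1} = P₁ ⊓ Subgroup.centralizer (P₁ : Set G) := by
  by_cases hP1 : (P : Subgroup G) = ⊥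
  · left; rw [hP1]; infer_instance
  set N := Subgroup.normalizer ((P : Subgroup G) : Set G) with hN
  haveI : ((P : Subgroup G).subgroupOf N).Normal := Subgroup.normal_in_normalizer
  have hPN : (P : Subgroup G) ≤ N := Subgroup.le_normalizer
  obtain ⟨V', hV'⟩ := Subgroup.exists_right_complement'_of_coprime
    (N := (P : Subgroup G).subgroupOf N) (P.subtype hPN).card_coprime_index
  set V := V'.map N.subtype with hV
  have hVN : V ≤ N := Subgroup.map_subtype_le _
  have hcomp : Cfsg.IsComplIn (P : Subgroup G) V N := by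
    refine ⟨hPN, hVN, ?_, fun m hm => ?_⟩
    · rw [eq_bot_iff]
      rintro _ ⟨hz1, z, hz2, rfl⟩
      have h4 : z ∈ (⊥ : Subgroup N) := hV'.disjoint.le_bot ⟨hz1, hz2⟩
      rw [Subgroup.mem_bot.1 h4, map_one]; exact one_mem _
    · obtain ⟨⟨a, b⟩, hab⟩ := hV'.2 (⟨m, hm⟩ : N)
      exact ⟨_, a.2, _, ⟨b, b.2, rfl⟩, (congrArg Subtype.val hab).symm⟩
  have hcop : (Nat.card V).Coprime p := by
    rw [hV, Subgroup.card_map_of_injective N.subtype_injective, ← hV'.symm.index_eq_card]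
    exact PCore.coprime_of_not_dvd (P.subtype hPN).not_dvd_index
  obtain ⟨-, h | ⟨R₁, R₂, hsup, hcomm, hnc, hcard, hexp, hcyc, hcl⟩⟩ := Cfsg.Agent.S1448.result p
    (sylow_bot_of_two hG P hP1) (P : Subgroup G) V P.isPGroup' hP1 hr hVN hcop (odd_card hG V)
    (sylow_eq_commutator hG P V hcomp).symm
  · exact Or.inl h
  refine Or.inr ⟨R₁, R₂, hsup, hcomm, hnc, hcard, hexp, hcyc, hcl.trans ?_⟩
  obtain ⟨⟨hsp, hZ⟩, -⟩ := QdOver.extraspecial_cube (IsPGroup.of_card hcard) hcard (fun x => by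
    rw [← hexp]; exact Monoid.pow_exponent_eq_one x) (fun h => hnc ⟨⟨h⟩⟩)
  have h1 : (Subgroup.center R₁).map R₁.subtype = R₁ ⊓ Subgroup.centralizer (R₁ : Set G) := by
    ext z
    constructor
    · rintro ⟨w, hw, rfl⟩
      exact ⟨w.2, Subgroup.mem_centralizer_iff.2 fun t ht =>
        congrArg Subtype.val (Subgroup.mem_center_iff.1 hw ⟨t, ht⟩)⟩
    · rintro ⟨hz1, hz2⟩
      exact ⟨⟨z, hz1⟩, Subgroup.mem_center_iff.2 fun t =>
        Subtype.ext (Subgroup.mem_centralizer_iff.1 hz2 t t.2), rfl⟩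
  rw [← h1, ← hsp.2.2, Subgroup.map_subtype_commutator]

end CfsgLib.SigmaGroups
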