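import Cfsg.Agent.Sigma.PLengthOne
import Cfsg.Agent.S1455
import Cfsg.Agent.Transfer.Residual

/-!
The core at the ideal primes, and the normal complements at the other primes.
-/

set_option autoImplicit false
set_option linter.unusedSectionVars false
set_option linter.style.haveILetI false

namespace CfsgLib.SigmaGroups

open CfsgLib.BenderUnique CfsgLib.Uniq

universe u

variable {G : Type u} [Group G] [Finite G] {p : ℕ} [hp : Fact p.Prime]

theorem isNarrow_sylow (hG : Cfsg.IsMinSimpleOddOrder G) {M : Subgroup G} (hM : IsCoatom M)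
    (hpM : p ∣ Nat.card M) (hb : p ∉ Cfsg.beta M) (S : Sylow p M) : Cfsg.IsNarrow p ↥(S : Subgroup M) := by
  have hp2 : p ≠ 2 := ne_two hG (hpM.trans (Subgroup.card_subgroup_dvd_card M))
  set ι : ↥(S : Subgroup M) →* G := M.subtype.comp (S : Subgroup M).subtype with hι
  have hinj : Function.Injective ι := M.subtype_injective.comp (S : Subgroup M).subtype_injective
  set T := (S : Subgroup M).map M.subtype with hT
  have hTr : ι.range = T := by rw [hι, MonoidHom.range_comp, Subgroup.range_subtype]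
  have hcomap : ∀ A : Subgroup G, A ≤ T → Cfsg.IsElementaryAbelian p A →
      Cfsg.IsElementaryAbelian p (A.comap ι) ∧ Nat.card (A.comap ι) = Nat.card A := fun A hAT hA => by
    refine ⟨⟨⟨⟨fun a b => Subtype.ext (hinj ?_)⟩⟩, fun a ha => hinj ?_⟩, ?_⟩
    · simp only [Subgroup.coe_mul, map_mul]
      exact NormalEl.commute_of_elementary hA a.2 b.2
    · rw [map_pow, map_one]
      exact hA.2 _ ha
    · rw [← Subgroup.card_map_of_injective hinj (K := A.comap ι),
        Subgroup.map_comap_eq_self (hTr.symm ▸ hAT : A ≤ ι.range)]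
  by_cases hr : Cfsg.PRankLE p 2 M
  · refine Or.inl fun A hA hAe => ?_
    haveI := hA
    rw [← Subgroup.card_map_of_injective (S : Subgroup M).subtype_injective (K := A)]
    refine hr _ inferInstance ?_
    rintro _ ⟨a, ha, rfl⟩
    rw [← map_pow, hAe a ha, map_one]
  have ha : p ∈ Cfsg.alpha M := ⟨hp.out, hr⟩
  have hs := mem_sigma_of_alpha hG hM ha
  have hTp : IsPGroup p T := S.isPGroup'.map _
  let P₀ : Sylow p G :=
    { toSubgroup := T
      isPGroup' := hTp
      is_maximal' := fun {U} hU hle => sylow_of_sigma hs S U hU hle }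
  have hr' : ¬ Cfsg.PRankLE p 2 ↥T := fun h => hr (prankLE_of_sylow hTp (Subgroup.map_subtype_le _)
    (sylow_map_max S) h)
  have hrS : ¬ Cfsg.PRankLE p 2 ↥(S : Subgroup M) := fun h => by
    obtain ⟨E, hET, hE, hEc⟩ := exists_elem_of_not_prank hr'
    obtain ⟨h1, h2⟩ := hcomap E hET hE
    have := h _ h1.1 h1.2
    rw [h2, hEc] at this
    exact absurd this (not_le.2 (Nat.pow_lt_pow_right hp.out.one_lt (by norm_num)))
  have hrG : ¬ Cfsg.PRankLE p 2 G := fun h => by
    obtain ⟨E, -, hE, hEc⟩ := exists_elem_of_not_prank hr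
    have := h _ hE.1 hE.2
    rw [hEc] at this
    exact absurd this (not_le.2 (Nat.pow_lt_pow_right hp.out.one_lt (by norm_num)))
  obtain ⟨P, A, hAP, hA, hAc, hmax⟩ : ∃ (P : Sylow p G) (A : Subgroup G), A ≤ (P : Subgroup G) ∧
      Cfsg.IsElementaryAbelian p A ∧ Nat.card A = p ^ 2 ∧
      ∀ B : Subgroup G, B ≤ (P : Subgroup G) → Cfsg.IsElementaryAbelian p B → ¬ A < B := by
    by_contra hno
    push Not at hno
    exact hb ⟨ha, hp.out, hrG, fun P A h1 h2 h3 => hno P A h1 h2 h3⟩
  obtain ⟨g, hg⟩ := MulAction.exists_smul_eq G P P₀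
  have hPg : (P : Subgroup G).map (MulAut.conj g).toMonoidHom = T := congrArg Sylow.toSubgroup hg
  set A' := A.map (MulAut.conj g).toMonoidHom with hA'
  have hmapE : ∀ {B : Subgroup G} {f : G →* G}, Cfsg.IsElementaryAbelian p B →
      Cfsg.IsElementaryAbelian p (B.map f) := fun {B f} hB => by
    haveI := hB.1
    refine ⟨inferInstance, ?_⟩
    rintro _ ⟨b, hb', rfl⟩
    rw [← map_pow, hB.2 b hb', map_one]
  have hA'T : A' ≤ T := hPg ▸ Subgroup.map_mono hAP
  obtain ⟨hE, hEc⟩ := hcomap A' hA'T (hmapE hA)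
  rw [card_map_conj, hAc] at hEc
  refine isNarrow_of_maximal hp2 S.isPGroup' hrS hE hEc fun B hB hEB => ?_
  have hBι : Cfsg.IsElementaryAbelian p (B.map ι) := by
    haveI := hB.1
    refine ⟨inferInstance, ?_⟩
    rintro _ ⟨b, hb', rfl⟩
    rw [← map_pow, hB.2 b hb', map_one]
  have hA'B : A' ≤ B.map ι := by
    have := Subgroup.map_mono (f := ι) hEB
    rwa [Subgroup.map_comap_eq_self (hTr.symm ▸ hA'T : A' ≤ ι.range)] at this
  have hBP : (B.map ι).map (MulAut.conj g⁻¹).toMonoidHom ≤ (P : Subgroup G) := by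
    have h1 : B.map ι ≤ T := hTr ▸ Subgroup.map_le_range ι B
    refine (Subgroup.map_mono h1).trans (le_of_eq ?_)
    rw [← hPg, map_conj_map, inv_mul_cancel, map_conj_one]
  have hAB : A ≤ (B.map ι).map (MulAut.conj g⁻¹).toMonoidHom := by
    refine le_trans (le_of_eq ?_) (Subgroup.map_mono hA'B)
    rw [hA', map_conj_map, inv_mul_cancel, map_conj_one]
  have heq : A = (B.map ι).map (MulAut.conj g⁻¹).toMonoidHom :=
    eq_of_le_of_not_lt hAB (hmax _ hBP (hmapE hBι))
  refine (Subgroup.eq_of_le_of_card_ge hEB (le_of_eq ?_)).symm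
  rw [hEc, ← hAc, heq, card_map_conj, Subgroup.card_map_of_injective hinj]

/-- The conclusions of S1455 for a prime outside `β(M)`. -/
theorem structure_of_not_beta (hG : Cfsg.IsMinSimpleOddOrder G) {M : Subgroup G} (hM : IsCoatom M)
    (hpM : p ∣ Nat.card M) (hb : p ∉ Cfsg.beta M) :
    (∀ q : ℕ, q.Prime → q ∣ (Cfsg.pPrimeCore p M).index → q ≤ p) ∧
      Cfsg.HasNormalPComplement p ↥(commutator M) ∧
      ∀ L : Subgroup ↥(commutator M), (Nat.card L).Coprime p → L ≤ Cfsg.pPrimeCore p ↥(commutator M) := by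
  haveI := isSolvable_of_ne_top hG hM.1
  obtain ⟨S⟩ : Nonempty (Sylow p M) := inferInstance
  obtain ⟨h1, -, h3, h4, -, -⟩ := Cfsg.Agent.S1455.result (odd_card hG M) p hpM S
    (isNarrow_sylow hG hM hpM hb S) (fun _ => pLength_proper hG hM.1)
  exact ⟨h1, h3, h4⟩

theorem piCore_le_commutator (hG : Cfsg.IsMinSimpleOddOrder G) {M : Subgroup G} (hM : IsCoatom M)
    {π : Set ℕ} (hπ : π ⊆ Cfsg.sigma M) : Cfsg.piCore π M ≤ commutator M := by
  rw [← Subgroup.relIndex_eq_one]
  refine Nat.eq_one_iff_not_exists_prime_dvd.2 fun q hq hd => ?_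
  haveI := Fact.mk hq
  have ha := Hall.isPiSubgroup_piCore q hq (hd.trans (Subgroup.index_dvd_card _))
  obtain ⟨S⟩ : Nonempty (Sylow q M) := inferInstance
  exact S.not_dvd_index ((hd.trans (Subgroup.relIndex_dvd_index_of_normal _ _)).trans
    (Subgroup.index_dvd_of_le (sylow_le_commutator hG hM (hπ ha) S)))

theorem complement_derived (hG : Cfsg.IsMinSimpleOddOrder G) {M : Subgroup G} (hM : IsCoatom M)
    (hpM : p ∣ Nat.card M) (hb : p ∉ Cfsg.beta M) : Cfsg.HasNormalPComplement p ↥⁅M, M⁆ :=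
  (Transfer.hasNormalPComplement_congr ((Subgroup.equivMapOfInjective _ _ M.subtype_injective).trans
    (MulEquiv.subgroupCongr (Subgroup.map_subtype_commutator M)))).1 (structure_of_not_beta hG hM hpM hb).2.1

theorem complement_sigmaCore (hG : Cfsg.IsMinSimpleOddOrder G) {M : Subgroup G} (hM : IsCoatom M)
    (hpM : p ∣ Nat.card M) (hb : p ∉ Cfsg.beta M) : Cfsg.HasNormalPComplement p ↥(Cfsg.sigmaCore M) :=
  (Transfer.hasNormalPComplement_congr (Subgroup.equivMapOfInjective _ _ M.subtype_injective)).1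
    (Transfer.hasNormalPComplement_of_injective _
      (Subgroup.inclusion_injective (piCore_le_commutator hG hM (subset_refl (Cfsg.sigma M))))
      (structure_of_not_beta hG hM hpM hb).2.1)

/-- A group with normal `p`-complements for all its primes is nilpotent. -/
theorem nilpotent_of_complements {X : Type u} [Group X] [Finite X]
    (h : ∀ q : ℕ, q.Prime → q ∣ Nat.card X → Cfsg.HasNormalPComplement q X) : Group.IsNilpotent X := by
  refine ((Group.isNilpotent_of_finite_tfae (G := X)).out 0 3).2 fun q hq S => ?_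
  haveI : Fact q.Prime := hq
  set s := (Nat.card X).primeFactors.erase q with hs
  set D : Subgroup X := ⨅ r ∈ s, Cfsg.pPrimeCore r X with hD
  haveI hDn : D.Normal := Subgroup.normal_iInf_normal fun r => Subgroup.normal_iInf_normal fun _ => inferInstance
  have hSD : (S : Subgroup X) ≤ D := by
    refine le_iInf fun r => le_iInf fun hr => fun x hx => ?_
    rw [hs, Finset.mem_erase] at hr
    obtain ⟨hrq, hr'⟩ := hr
    have hrp := Nat.prime_of_mem_primeFactors hr'
    haveI := Fact.mk hrp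
    obtain ⟨P, N, hN, hc⟩ := h r hrp (Nat.dvd_of_mem_primeFactors hr')
    have hNi : N.index = Nat.card P := hc.symm.index_eq_card
    have hNc : (Nat.card N).Coprime r := by
      rw [← hc.index_eq_card]
      exact PCore.coprime_of_not_dvd P.not_dvd_index
    refine PCore.le_pPrimeCore hN hNc ?_
    obtain ⟨a, ha⟩ := S.isPGroup' ⟨x, hx⟩
    obtain ⟨b, hb⟩ := P.isPGroup'.exists_card_eq
    refine OddFitting.mem_of_coprime_pow (H := N) (Nat.Coprime.pow a b ((Nat.coprime_primes hq.out hrp).2 (Ne.symm hrq)))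
      (show x ^ q ^ a = 1 from congrArg Subtype.val ha) ?_
    rw [← hb, ← hNi]
    exact N.pow_index_mem x
  have hDp : IsPGroup q D := by
    refine PCore.isPGroup_of_forall_coprime D fun x hx hxo => ?_
    by_contra hx1
    obtain ⟨r, hr, hrd⟩ := Nat.exists_prime_and_dvd (fun e => hx1 (orderOf_eq_one_iff.1 e))
    have hrq : r ≠ q := fun e => by
      subst e
      exact (Nat.Prime.coprime_iff_not_dvd hr).1 hxo.symm hrd
    haveI := Fact.mk hr
    have hrs : r ∈ s := by
      rw [hs, Finset.mem_erase, Nat.mem_primeFactors]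
      exact ⟨hrq, hr, hrd.trans (orderOf_dvd_natCard x), Nat.card_pos.ne'⟩
    have hle : D ≤ Cfsg.pPrimeCore r X := iInf₂_le r hrs
    have hxr : x ∈ Cfsg.pPrimeCore r X := hle hx
    exact PCore.not_dvd_card_pPrimeCore r X (hrd.trans (Subgroup.orderOf_dvd_natCard _ hxr))
  rw [← S.is_maximal' hDp hSD]
  exact hDn

theorem exists_nilpotent_hall {M D : Subgroup G} (hD : D ≠ ⊤) (hG : Cfsg.IsMinSimpleOddOrder G)
    (h : ∀ q : ℕ, q.Prime → q ∣ Nat.card D → q ∉ Cfsg.beta M → Cfsg.HasNormalPComplement q ↥D) :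
    ∃ H : Subgroup G, Cfsg.IsPiHallOf {q | q.Prime ∧ q ∉ Cfsg.beta M} H D ∧ Group.IsNilpotent H := by
  haveI := isSolvable_of_ne_top hG hD
  obtain ⟨⟨H, hH, -⟩, -, -⟩ := Hall.coprime_invariant_hall (⊥ : Subgroup G) D bot_le
    (by rw [Subgroup.card_bot]; exact Nat.coprime_one_left _) inferInstance {q | q.Prime ∧ q ∉ Cfsg.beta M}
  refine ⟨H, hH, nilpotent_of_complements fun q hq hd => ?_⟩
  haveI := Fact.mk hq
  exact Transfer.hasNormalPComplement_of_injective _ (Subgroup.inclusion_injective hH.1)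
    (h q hq (hd.trans (Subgroup.card_dvd_of_le hH.1)) (hH.2.1 q hq hd).2)

theorem betaCore_hallOf (hG : Cfsg.IsMinSimpleOddOrder G) {M : Subgroup G} (hM : IsCoatom M) :
    Cfsg.IsPiHallOf (Cfsg.beta M) (Cfsg.piCoreOf (Cfsg.beta M) M) M := by
  classical
  refine piCore_hallOf fun q hq hb => ?_
  haveI := Fact.mk hq
  obtain ⟨S⟩ : Nonempty (Sylow q M) := inferInstance
  refine not_dvd_index_of_sylow_le ⟨S, ?_⟩
  set s := (Nat.card M).primeFactors.filter fun r => r ∉ Cfsg.beta M with hs
  set N : Subgroup M := commutator M ⊓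
    ⨅ r ∈ s, (Cfsg.pPrimeCore r ↥(commutator M)).map (commutator M).subtype with hN
  haveI : N.Normal := by
    haveI : (⨅ r ∈ s, (Cfsg.pPrimeCore r ↥(commutator M)).map (commutator M).subtype).Normal :=
      Subgroup.normal_iInf_normal fun r => Subgroup.normal_iInf_normal fun _ => by
        haveI := PCore.pPrimeCore_characteristic r ↥(commutator M)
        infer_instance
    exact inferInstance
  have hSd := sylow_le_commutator hG hM (alpha_subset_sigma hG hM hb.1) S
  refine le_trans (le_inf hSd (le_iInf fun r => le_iInf fun hr => ?_)) (Hall.le_piCore (N := N) ?_)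
  · rw [hs, Finset.mem_filter, Nat.mem_primeFactors] at hr
    obtain ⟨⟨hrp, hrM, -⟩, hrb⟩ := hr
    haveI := Fact.mk hrp
    rw [← Subgroup.map_subgroupOf_eq_of_le hSd]
    refine Subgroup.map_mono ((structure_of_not_beta hG hM hrM hrb).2.2 _ ?_)
    obtain ⟨a, ha⟩ := S.isPGroup'.exists_card_eq
    rw [Nat.card_congr (Subgroup.subgroupOfEquivOfLe hSd).toEquiv, ha]
    exact Nat.Coprime.pow_left a ((Nat.coprime_primes hq hrp).2 fun e => hrb (e ▸ hb))
  · intro r hr hd
    by_contra hrb
    haveI := Fact.mk hr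
    have hrs : r ∈ s := by
      rw [hs, Finset.mem_filter, Nat.mem_primeFactors]
      exact ⟨⟨hr, hd.trans (Subgroup.card_subgroup_dvd_card N), Nat.card_pos.ne'⟩, hrb⟩
    have hle : N ≤ (Cfsg.pPrimeCore r ↥(commutator M)).map (commutator M).subtype :=
      inf_le_right.trans (iInf₂_le r hrs)
    have h1 := hd.trans (Subgroup.card_dvd_of_le hle)
    rw [Subgroup.card_map_of_injective (commutator M).subtype_injective] at h1
    exact PCore.not_dvd_card_pPrimeCore r _ h1

end CfsgLib.SigmaGroups
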