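import Cfsg.Agent.Sigma.BetaElement
import Cfsg.Agent.TypeP.Basic
import Mathlib.GroupTheory.SpecificGroups.ZGroup

/-!
B&G 12.1: complements of `M_σ` in a maximal subgroup `M`.
-/

set_option autoImplicit false
set_option linter.unusedSectionVars false
set_option linter.style.haveILetI false

namespace CfsgLib.SigmaGroups

open CfsgLib.BenderUnique CfsgLib.Uniq
open scoped commutatorElement

universe u

variable {G : Type u} [Group G] [Finite G] {p : ℕ} [hp : Fact p.Prime] {M E : Subgroup G}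

theorem not_dvd_card_complement (hG : Cfsg.IsMinSimpleOddOrder G) (hM : IsCoatom M)
    (hE : Cfsg.IsComplIn E (Cfsg.sigmaCore M) M) {t : ℕ} (ht : t.Prime) (hts : t ∈ Cfsg.sigma M) :
    ¬ t ∣ Nat.card E := by
  rw [← (TypeP.relIndex_eq_of_isComplIn hE).2]
  exact (sigmaCore_hallOf hG hM).2.2 t ht hts

theorem rankLE_complement (hG : Cfsg.IsMinSimpleOddOrder G) (hM : IsCoatom M)
    (hE : Cfsg.IsComplIn E (Cfsg.sigmaCore M) M) : Cfsg.RankLE 2 ↥E := by
  intro t ht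
  by_contra h
  haveI := Fact.mk ht
  obtain ⟨B, hBE, hB, hBc⟩ := exists_elem_of_not_prank h
  have ha : t ∈ Cfsg.alpha M := ⟨ht, not_prank_of_elem (hBE.trans hE.1) hB (pow_lt_card hBc)⟩
  refine not_dvd_card_complement hG hM hE ht (alpha_subset_sigma hG hM ha) ?_
  exact (hBc ▸ dvd_pow_self t (Nat.succ_ne_zero 2) : t ∣ Nat.card B).trans (Subgroup.card_dvd_of_le hBE)

theorem derived_nilpotent_complement (hG : Cfsg.IsMinSimpleOddOrder G) (hM : IsCoatom M)
    (hE : Cfsg.IsComplIn E (Cfsg.sigmaCore M) M) : Group.IsNilpotent ↥⁅E, E⁆ := by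
  have hne : E ≠ ⊤ := fun h => hM.1 (top_le_iff.1 (h ▸ hE.1))
  haveI := isSolvable_of_ne_top hG hne
  haveI := (Cfsg.Agent.S1451.result (odd_card hG E) (Or.inl (rankLE_complement hG hM hE))).1
  rw [← Subgroup.map_subtype_commutator]
  exact Group.nilpotent_of_mulEquiv (Subgroup.equivMapOfInjective (commutator ↥E) _ E.subtype_injective)

/-- `M' ≤ E' M_σ`. -/
theorem commutator_le_sup (hE : Cfsg.IsComplIn E (Cfsg.sigmaCore M) M) :
    ⁅M, M⁆ ≤ ⁅E, E⁆ ⊔ Cfsg.sigmaCore M := by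
  set S := Cfsg.sigmaCore M
  have hSn : ∀ g ∈ M, ∀ x ∈ S, g * x * g⁻¹ ∈ S := fun g hg x hx =>
    (Subgroup.mem_normalizer_iff.1 (le_normalizer_sigmaCore M hg) x).1 hx
  rw [Subgroup.commutator_le]
  intro a ha b hb
  obtain ⟨e, he, n, hn, rfl⟩ := hE.2.2.2 a ha
  obtain ⟨f, hf, m, hm, rfl⟩ := hE.2.2.2 b hb
  have hS : S ≤ ⁅E, E⁆ ⊔ S := le_sup_right
  have h1 : e * (n * ((f * m) * n⁻¹ * (f * m)⁻¹)) * e⁻¹ ∈ S :=
    hSn e (hE.1 he) _ (mul_mem hn (hSn _ hb _ (inv_mem hn)))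
  have h2 : f * ((e * m * e⁻¹) * m⁻¹) * f⁻¹ ∈ S :=
    hSn f (hE.1 hf) _ (mul_mem (hSn e (hE.1 he) m hm) (inv_mem hm))
  have h3 : ⁅e * n, f * m⁆ = (e * (n * ((f * m) * n⁻¹ * (f * m)⁻¹)) * e⁻¹) * ⁅e, f⁆ *
      (f * ((e * m * e⁻¹) * m⁻¹) * f⁻¹) := by
    simp only [commutatorElement_def]
    group
  rw [h3]
  exact mul_mem (mul_mem (hS h1) (Subgroup.mem_sup_left (Subgroup.commutator_mem_commutator he hf))) (hS h2)

theorem dvd_card_derived_complement (hE : Cfsg.IsComplIn E (Cfsg.sigmaCore M) M) {t : ℕ} (ht : t.Prime)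
    (hts : t ∉ Cfsg.sigma M) (hd : t ∣ Nat.card ↥⁅M, M⁆) : t ∣ Nat.card ↥⁅E, E⁆ := by
  have h := ZJ.card_sup_mul_card_inf_of_le_normalizer
    ((Subgroup.commutator_le_self E).trans (hE.1.trans (le_normalizer_sigmaCore M)))
  have h1 : t ∣ Nat.card ↥⁅E, E⁆ * Nat.card ↥(Cfsg.sigmaCore M) :=
    (hd.trans (Subgroup.card_dvd_of_le (commutator_le_sup hE))).trans (h ▸ dvd_mul_right _ _)
  exact (ht.dvd_mul.1 h1).resolve_right fun h => hts (mem_sigma_of_dvd M ht h)

theorem isCyclic_of_prank_one (hG : Cfsg.IsMinSimpleOddOrder G) (hr : Cfsg.PRankLE p 1 ↥M) {P : Subgroup G}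
    (hPM : P ≤ M) (hP : IsPGroup p P) : IsCyclic P := by
  by_cases h1 : P = ⊥
  · rw [h1]; exact isCyclic_of_subsingleton
  by_contra hc
  obtain ⟨B, hBP, hB, hBc⟩ := exists_elem_sq
    (ne_two hG ((dvd_card_of_ne_bot hP h1).trans (Subgroup.card_subgroup_dvd_card P))) hP hc
  exact not_prank_of_elem (hBP.trans hPM) hB
    (by rw [hBc, pow_one]; exact lt_self_pow₀ hp.out.one_lt one_lt_two) hr

/-- A nilpotent subgroup containing a subgroup with no `p` in the index takes the `p`-subgroups there. -/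
theorem le_of_not_dvd_relIndex {D X T : Subgroup G} (hD : Group.IsNilpotent D)
    (hi : ¬ p ∣ X.relIndex D) (hT : IsPGroup p T) (hTD : T ≤ D) : T ≤ X := by
  set X' := X.subgroupOf D with hX'
  obtain ⟨S⟩ : Nonempty (Sylow p X') := inferInstance
  have hS : ¬ p ∣ ((S : Subgroup X').map X'.subtype).index := by
    rw [Subgroup.index_map_subtype]
    exact fun h => (hp.out.dvd_mul.1 h).elim S.not_dvd_index hi
  let S' : Sylow p D := IsPGroup.toSylow (S.isPGroup'.map X'.subtype) hS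
  have hiff := (Group.isNilpotent_of_finite_tfae (G := ↥D)).out 0 3
  have hn : (S' : Subgroup D).Normal := hiff.1 hD p inferInstance S'
  letI := Sylow.unique_of_normal S' hn
  obtain ⟨V, hV⟩ := IsPGroup.exists_le_sylow (hT.of_equiv (Subgroup.subgroupOfEquivOfLe hTD).symm)
  rw [Subsingleton.elim V S'] at hV
  intro x hx
  exact Subgroup.mem_subgroupOf.1 (Subgroup.map_subtype_le _ (hV (Subgroup.mem_subgroupOf.2 hx : (⟨x, hTD hx⟩ : D) ∈ T.subgroupOf D)))

theorem le_commutator_of_cyclic (hG : Cfsg.IsMinSimpleOddOrder G) (hr : Cfsg.PRankLE p 1 ↥M) (hEM : E ≤ M)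
    (hd : p ∣ Nat.card ↥⁅E, E⁆) {T : Subgroup G} (hT : IsPGroup p T) (hTE : T ≤ E) : T ≤ ⁅E, E⁆ := by
  obtain ⟨S, hS⟩ := IsPGroup.exists_le_sylow (hT.of_equiv (Subgroup.subgroupOfEquivOfLe hTE).symm)
  haveI : IsCyclic ↥(S : Subgroup E) := by
    haveI := isCyclic_of_prank_one hG hr ((Subgroup.map_subtype_le _).trans hEM) (S.isPGroup'.map E.subtype)
    exact isCyclic_of_surjective _ (Subgroup.equivMapOfInjective (S : Subgroup E) _ E.subtype_injective).symm.surjective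
  have hi : ¬ p ∣ (commutator ↥E).index :=
    (Sylow.not_dvd_card_commutator_or_not_dvd_index_commutator S).resolve_left fun h => h (by
      rw [← Subgroup.map_subtype_commutator, Subgroup.card_map_of_injective E.subtype_injective] at hd
      exact hd)
  rw [← Subgroup.map_subtype_commutator, ← Subgroup.map_subgroupOf_eq_of_le hTE]
  refine Subgroup.map_mono fun x hx => ?_
  obtain ⟨k, hk⟩ := S.isPGroup' ⟨x, hS hx⟩
  exact OddFitting.mem_of_coprime_pow (H := commutator ↥E) ((PCore.coprime_of_not_dvd hi).symm.pow_left k)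
    (show x ^ p ^ k = 1 from congrArg Subtype.val hk) ((commutator ↥E).pow_index_mem x)

end CfsgLib.SigmaGroups
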