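import Cfsg.Agent.Sigma.TauTwo
import Cfsg.Agent.Sigma.Fusion
import Cfsg.Agent.PReduced.Hom
import Cfsg.Agent.Hall.Schmidt

/-!
B&G 12.4: elementary abelian subgroups of order `p ^ 2` in a maximal subgroup.
-/

set_option autoImplicit false
set_option linter.unusedSectionVars false
set_option linter.style.haveILetI false

namespace CfsgLib.SigmaGroups

open CfsgLib.BenderUnique CfsgLib.Uniq
open scoped commutatorElement

universe u

variable {G : Type u} [Group G] [Finite G] {p : ℕ} [hp : Fact p.Prime] {M A : Subgroup G}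

/-- `M` is not the only maximal subgroup containing the normalizer of a line of `A`. -/
def NoUniqueLine (p : ℕ) (M A : Subgroup G) : Prop :=
  ∀ A₀ : Subgroup G, A₀ ≤ A → Nat.card A₀ = p →
    ¬ (Subgroup.normalizer (A₀ : Set G) ≤ M ∧ ∀ L : Subgroup G, IsCoatom L → Subgroup.normalizer (A₀ : Set G) ≤ L → L = M)

theorem exists_elem_pow {P : Subgroup G} (hP : IsPGroup p P) (h1 : P ≠ ⊥) :
    ∃ z : G, z ∈ P ∧ orderOf z = p ∧ ∀ t ∈ P, t * z = z * t := by
  haveI : Nontrivial P := (Subgroup.nontrivial_iff_ne_bot _).2 h1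
  haveI := hP.center_nontrivial
  obtain ⟨n, hn, hc⟩ := (hP.to_subgroup (Subgroup.center P)).nontrivial_iff_card.1 inferInstance
  obtain ⟨z, hz⟩ := exists_prime_orderOf_dvd_card' p (hc ▸ dvd_pow_self p hn.ne' : p ∣ Nat.card (Subgroup.center P))
  exact ⟨((z : P) : G), (z : P).2, by rw [Subgroup.orderOf_coe, Subgroup.orderOf_coe, hz],
    fun t ht => congrArg Subtype.val (Subgroup.mem_center_iff.1 z.2 ⟨t, ht⟩)⟩

theorem normalizer_zpowers_ne_top (hG : Cfsg.IsMinSimpleOddOrder G) {x : G} (hx : x ≠ 1) :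
    Subgroup.normalizer (Subgroup.zpowers x : Set G) ≠ ⊤ :=
  normalizer_ne_top hG (mt Subgroup.zpowers_eq_bot.1 hx) (zpowers_ne_top hG x)

theorem centralizer_zpowers (x : G) :
    Subgroup.centralizer (Subgroup.zpowers x : Set G) = Subgroup.centralizer ({x} : Set G) := by
  rw [Subgroup.zpowers_eq_closure, Subgroup.centralizer_closure]

theorem le_centralizer_singleton_of {X : Subgroup G} {t a : G} (ht : t ∈ Subgroup.centralizer (X : Set G))
    (ha : a ∈ X) : t ∈ Subgroup.centralizer ({a} : Set G) :=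
  Subgroup.mem_centralizer_singleton_iff.2 (Subgroup.mem_centralizer_iff.1 ht a ha).symm

section facts

variable (hG : Cfsg.IsMinSimpleOddOrder G) (hM : IsCoatom M) (hA : Cfsg.IsElementaryAbelian p A)
  (hnu : NoUniqueLine p M A)

include hG hM hA hnu

theorem card_zpowers_elem {a : G} (ha : a ∈ A) (ha1 : a ≠ 1) : Nat.card (Subgroup.zpowers a) = p := by
  rw [Nat.card_zpowers, orderOf_eq_prime (hA.2 a ha) ha1]

/-- Nothing inside `M ∩ N_G(A₀)` lies only in `M`. -/
theorem false_of_unique_line {a : G} (ha : a ∈ A) (ha1 : a ≠ 1) {X : Subgroup G} (hX : Cfsg.InUniqueMaximal X)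
    (hXM : X ≤ M) (hXN : X ≤ Subgroup.normalizer (Subgroup.zpowers a : Set G)) : False := by
  refine hnu _ (Subgroup.zpowers_le.2 ha) (card_zpowers_elem hG hM hA hnu ha ha1) ⟨?_, fun L hL hle => ?_⟩
  · exact le_of_unique hX hM hXM (normalizer_zpowers_ne_top hG ha1) hXN
  · exact eq_of_unique hX hM hXM hL (hXN.trans hle)

theorem exists_other_max {a : G} (ha : a ∈ A) (ha1 : a ≠ 1) :
    ∃ H : Subgroup G, IsCoatom H ∧ H ≠ M ∧ Subgroup.normalizer (Subgroup.zpowers a : Set G) ≤ H := by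
  have h := hnu _ (Subgroup.zpowers_le.2 ha) (card_zpowers_elem hG hM hA hnu ha ha1)
  by_cases hle : Subgroup.normalizer (Subgroup.zpowers a : Set G) ≤ M
  · push Not at h
    obtain ⟨L, hL, hLe, hne⟩ := h hle
    exact ⟨L, hL, hne, hLe⟩
  · obtain ⟨L, hL, hLe⟩ := exists_coatom_ge (normalizer_zpowers_ne_top hG ha1)
    exact ⟨L, hL, fun e => hle (e ▸ hLe), hLe⟩

theorem not_mem_alpha (hAM : A ≤ M) (hAc : Nat.card A = p ^ 2) : p ∉ Cfsg.alpha M := by
  intro ha
  have hs := mem_sigma_of_alpha hG hM ha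
  obtain ⟨P, hAP, hPM, -⟩ := exists_sylow hs (isPGroup_of_elementary hA) hAM
  obtain ⟨B, -, hB, hBc⟩ := exists_elem_of_not_prank ha.2
  have hA1 : A ≠ ⊥ := fun h => by
    rw [h, Subgroup.card_bot] at hAc
    exact (Nat.one_lt_pow two_ne_zero hp.out.one_lt).ne hAc
  obtain ⟨y, hyP, hyo, hyc⟩ := exists_elem_pow P.isPGroup' fun h => hA1 (le_bot_iff.1 (hAP.trans h.le))
  by_cases hyA : y ∈ A
  · have hy1 : y ≠ 1 := fun h => hp.out.one_lt.ne (by rw [← hyo, h, orderOf_one])
    obtain ⟨P', hP'⟩ := IsPGroup.exists_le_sylow (isPGroup_of_elementary hB)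
    obtain ⟨g, hg⟩ := MulAction.exists_smul_eq G P' P
    have hle : B.map (MulAut.conj g).toMonoidHom ≤ (P : Subgroup G) :=
      (Subgroup.map_mono hP').trans (le_of_eq (congrArg Sylow.toSubgroup hg))
    refine false_of_unique_line hG hM hA hnu hyA hy1
      (allUnique hG _ (elementary_map_conj hB g) ((card_map_conj B g).trans hBc)) (hle.trans hPM) fun t ht => ?_
    exact Subgroup.centralizer_le_normalizer _ ((centralizer_zpowers y).ge
      (Subgroup.mem_centralizer_singleton_iff.2 (hyc t (hle ht))))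
  · have hel := NormalEl.elementary_sup hA (elementary_zpowers (p := p) (w := y) (hyo ▸ pow_orderOf_eq_one y))
      fun a ha b hb => by
        obtain ⟨i, rfl⟩ := Subgroup.mem_zpowers_iff.1 hb
        exact (Commute.zpow_right (hyc a (hAP ha)) i).eq
    have hlt : p ^ 2 < Nat.card ↥(A ⊔ Subgroup.zpowers y) := hAc ▸ card_lt_of_lt (lt_of_le_of_ne le_sup_left
      fun h => hyA (h.ge (Subgroup.mem_sup_right (Subgroup.mem_zpowers y))))
    obtain ⟨a, haA, ha1⟩ := (Subgroup.bot_or_exists_ne_one A).resolve_left hA1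
    refine false_of_unique_line hG hM hA hnu haA ha1
      (unique_of_prank (allUnique hG) (pgroup_ne_top hG (isPGroup_of_elementary hel)) (not_prank_of_elem le_rfl hel hlt))
      (sup_le hAM (Subgroup.zpowers_le.2 (hPM hyP))) fun t ht => ?_
    exact Subgroup.centralizer_le_normalizer _ ((centralizer_zpowers a).ge
      (Subgroup.mem_centralizer_singleton_iff.2 (NormalEl.commute_of_elementary hel ht (Subgroup.mem_sup_left haA))))

end facts

/-- The largest prime of a maximal subgroup with `M_α = 1`. -/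
theorem exists_top_prime (hG : Cfsg.IsMinSimpleOddOrder G) (hM : IsCoatom M) (hα : Cfsg.alphaCore M = ⊥) :
    ∃ l : ℕ, l.Prime ∧ l ∈ Cfsg.sigma M ∧ (∀ t : ℕ, t.Prime → t ∣ Nat.card M → t ≤ l) ∧
      ∃ Q : Sylow l G, (Q : Subgroup G) ≤ M ∧ (Q : Subgroup G) ≠ ⊥ ∧
        Subgroup.normalizer ((Q : Subgroup G) : Set G) = M := by
  haveI := isSolvable_of_ne_top hG hM.1
  have hne := coatom_ne_bot hG hM
  obtain ⟨l, hlF, hmax⟩ := Finset.exists_max_image (Nat.card M).primeFactors id (by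
    obtain ⟨t, ht, hd⟩ := Nat.exists_prime_and_dvd (fun e => hne (Subgroup.card_eq_one.1 e))
    exact ⟨t, Nat.mem_primeFactors.2 ⟨ht, hd, Nat.card_pos.ne'⟩⟩)
  obtain ⟨hl, hld, -⟩ := Nat.mem_primeFactors.1 hlF
  haveI := Fact.mk hl
  have hr : Cfsg.RankLE 2 M := by
    intro t ht
    by_contra h
    haveI := Fact.mk ht
    obtain ⟨E, hEM, hE, hEc⟩ := exists_elem_of_not_prank h
    have := le_alphaCore hG hM ⟨ht, h⟩ (isPGroup_of_elementary hE) hEM
    rw [hα, le_bot_iff] at this
    rw [this, Subgroup.card_bot] at hEc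
    exact (Nat.one_lt_pow (by norm_num) ht.one_lt).ne hEc
  obtain ⟨N, hNc, hN1, hN2⟩ := (Cfsg.Agent.S1451.result (odd_card hG M) (Or.inl hr)).2.2 (l - 1)
  haveI := hNc
  have hNl : IsPGroup l N := by
    obtain ⟨k, hk⟩ : ∃ k, Nat.card N = l ^ k := by
      refine ⟨_, Nat.eq_prime_pow_of_unique_prime_dvd Nat.card_pos.ne' fun {t} ht hd => ?_⟩
      have h1 := hmax t (Nat.mem_primeFactors.2 ⟨ht, hd.trans (Subgroup.card_subgroup_dvd_card N), Nat.card_pos.ne'⟩)
      have h2 := (hN1 t ht hd).2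
      simp only [id] at h1
      omega
    exact IsPGroup.of_card hk
  have hi : ¬ l ∣ N.index := hN2 l hl ⟨hl, Nat.sub_lt hl.pos one_pos⟩
  set T := N.map M.subtype with hT
  obtain ⟨S, hTS⟩ := exists_max_ge (hNl.map M.subtype) (Subgroup.map_subtype_le N)
  have hTeq : (S : Subgroup M).map M.subtype = T := by
    refine (Subgroup.eq_of_le_of_card_ge hTS (Nat.le_of_dvd Nat.card_pos ?_)).symm
    rw [Subgroup.card_map_of_injective M.subtype_injective, Subgroup.card_map_of_injective M.subtype_injective]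
    obtain ⟨k, hk⟩ := S.isPGroup'.exists_card_eq
    have h1 : Nat.card (S : Subgroup M) ∣ Nat.card N * N.index := by
      rw [Subgroup.card_mul_index]; exact Subgroup.card_subgroup_dvd_card _
    rw [hk] at h1 ⊢
    exact ((PCore.coprime_of_not_dvd hi).symm.pow_left k).dvd_of_dvd_mul_right h1
  have hS1 : (S : Subgroup M).map M.subtype ≠ ⊥ := fun h => by
    have := S.dvd_card_of_dvd_card hld
    rw [← Subgroup.card_map_of_injective M.subtype_injective (K := (S : Subgroup M)), h, Subgroup.card_bot] at this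
    exact hl.one_lt.ne' (Nat.dvd_one.1 this)
  have hNM : Subgroup.normalizer (((S : Subgroup M).map M.subtype : Subgroup G) : Set G) = M := by
    refine (hM.le_iff.1 ?_).resolve_left (normalizer_ne_top hG hS1 (pgroup_ne_top hG (S.isPGroup'.map _)))
    rw [hTeq, hT, ← Subgroup.normal_subgroupOf_iff_le_normalizer (Subgroup.map_subtype_le _),
      Subgroup.subgroupOf, Subgroup.comap_map_eq_self_of_injective M.subtype_injective]
    infer_instance
  have hs : l ∈ Cfsg.sigma M := ⟨hl, hld, S, hNM.le⟩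
  exact ⟨l, hl, hs, fun t ht hd => hmax t (Nat.mem_primeFactors.2 ⟨ht, hd, Nat.card_pos.ne'⟩),
    { toSubgroup := (S : Subgroup M).map M.subtype
      isPGroup' := S.isPGroup'.map _
      is_maximal' := fun {U} hU hle => sylow_of_sigma hs S U hU hle }, Subgroup.map_subtype_le _, hS1, hNM⟩

theorem exists_omega_center {q : ℕ} (Q : Subgroup G) :
    ∃ W : Subgroup G, (∀ x, x ∈ W ↔ x ∈ Q ∧ x ∈ Subgroup.centralizer (Q : Set G) ∧ x ^ q = 1) ∧
      Subgroup.normalizer (Q : Set G) ≤ Subgroup.normalizer (W : Set G) := by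
  let W : Subgroup G :=
    { carrier := {x | x ∈ Q ∧ x ∈ Subgroup.centralizer (Q : Set G) ∧ x ^ q = 1}
      one_mem' := ⟨one_mem _, one_mem _, one_pow q⟩
      mul_mem' := fun {a b} ha hb => ⟨mul_mem ha.1 hb.1, mul_mem ha.2.1 hb.2.1, by
        rw [(show Commute a b from Subgroup.mem_centralizer_iff.1 hb.2.1 a ha.1).mul_pow, ha.2.2, hb.2.2, one_mul]⟩
      inv_mem' := fun {a} ha => ⟨inv_mem ha.1, inv_mem ha.2.1, by rw [inv_pow, ha.2.2, inv_one]⟩ }
  refine ⟨W, fun x => Iff.rfl, fun g hg => mem_normalizer_of_map_le ?_⟩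
  rintro _ ⟨x, ⟨h1, h2, h3⟩, rfl⟩
  exact ⟨(Subgroup.mem_normalizer_iff.1 hg x).1 h1,
    (Subgroup.mem_normalizer_iff.1 (Components.normalizer_le_normalizer_centralizer _ hg) x).1 h2,
    by rw [← map_pow, h3, map_one]⟩

theorem le_normalizer_inf_centralizer_elem (hA : Cfsg.IsElementaryAbelian p A) {Q : Subgroup G}
    (hAQ : A ≤ Subgroup.normalizer (Q : Set G)) {a : G} (ha : a ∈ A) :
    A ≤ Subgroup.normalizer ((Q ⊓ Subgroup.centralizer ({a} : Set G) : Subgroup G) : Set G) := fun b hb => by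
  refine mem_normalizer_of_map_le ?_
  rintro _ ⟨d, ⟨hdQ, hda⟩, rfl⟩
  refine ⟨(Subgroup.mem_normalizer_iff.1 (hAQ hb) d).1 hdQ, Subgroup.mem_centralizer_singleton_iff.2 ?_⟩
  show (MulAut.conj b) d * a = a * (MulAut.conj b) d
  rw [show a = (MulAut.conj b) a by
      rw [MulAut.conj_apply, show b * a = a * b from NormalEl.commute_of_elementary hA hb ha, mul_inv_cancel_right],
    ← map_mul, ← map_mul, Subgroup.mem_centralizer_singleton_iff.1 hda]

theorem commutator_eq_self_of_prime {K : Subgroup G} (hK : (Nat.card K).Prime)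
    (hn : A ≤ Subgroup.normalizer (K : Set G)) (hC : ¬ K ≤ Subgroup.centralizer (A : Set G)) : ⁅K, A⁆ = K := by
  have hle : ⁅K, A⁆ ≤ K := CoprimeAction.commutator_le_of_normalizer hn
  refine Subgroup.eq_of_le_of_card_ge hle ?_
  rcases (Nat.dvd_prime hK).1 (Subgroup.card_dvd_of_le hle) with h | h
  · exact absurd ((Subgroup.commutator_eq_bot_iff_le_centralizer).1 (Subgroup.card_eq_one.1 h)) hC
  · exact h.ge

theorem le_of_prime_subgroups {X U : Subgroup G}
    (h : ∀ t : ℕ, t.Prime → ∀ T : Subgroup G, IsPGroup t T → T ≤ X → T ≤ U) : X ≤ U := by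
  rw [← Subgroup.relIndex_eq_one]
  refine Nat.eq_one_iff_not_exists_prime_dvd.2 fun t ht hd => ?_
  haveI := Fact.mk ht
  obtain ⟨S⟩ : Nonempty (Sylow t X) := inferInstance
  refine S.not_dvd_index (hd.trans (Subgroup.index_dvd_of_le fun x hx => ?_))
  exact h t ht _ (S.isPGroup'.map X.subtype) (Subgroup.map_subtype_le _) ⟨x, hx, rfl⟩

/-- The step from `M` to another maximal subgroup through a kernel line. -/
theorem alphaCore_eq_bot_of_other (hG : Cfsg.IsMinSimpleOddOrder G) (hM : IsCoatom M)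
    (hA : Cfsg.IsElementaryAbelian p A) (hAc : Nat.card A = p ^ 2) {H : Subgroup G} (hH : IsCoatom H) (hne : H ≠ M)
    {a : G} (ha : a ∈ A) (ha1 : a ≠ 1) (hCa : Subgroup.centralizer ({a} : Set G) ≤ H) {q : ℕ} [Fact q.Prime]
    (hqp : q ≠ p) {K : Subgroup G} (hK : IsPGroup q K) (hK1 : K ≠ ⊥) (hKA : ⁅K, A⁆ = K)
    (hKa : K ≤ Subgroup.centralizer ({a} : Set G)) (hn : A ≤ Subgroup.normalizer (K : Set G))
    (hCK : Subgroup.centralizer (K : Set G) ≤ M) (hqs : q ∉ Cfsg.sigma H) :
    p ∉ Cfsg.sigma H ∧ Cfsg.alphaCore H = ⊥ := by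
  have hAH : A ≤ H := fun b hb => hCa (Subgroup.mem_centralizer_singleton_iff.2
    (NormalEl.commute_of_elementary hA hb ha))
  have hKH : K ≤ H := hKa.trans hCa
  have hps : p ∉ Cfsg.sigma H := fun h => by
    have hAs := le_sigmaCore hG hH h (isPGroup_of_elementary hA) hAH
    have h1 : K ≤ Cfsg.sigmaCore H := by
      rw [← hKA]
      refine (Subgroup.commutator_mono hKH hAs).trans ?_
      rw [Subgroup.commutator_comm]
      exact CoprimeAction.commutator_le_of_normalizer (le_normalizer_sigmaCore H)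
    exact hqs (mem_sigma_of_dvd H Fact.out ((dvd_card_of_ne_bot hK hK1).trans (Subgroup.card_dvd_of_le h1)))
  refine ⟨hps, ?_⟩
  by_contra h0
  obtain ⟨r, hr, hrd⟩ := Nat.exists_prime_and_dvd (fun e => h0 (Subgroup.card_eq_one.1 e))
  haveI := Fact.mk hr
  have hrα := mem_alpha_of_dvd H hr hrd
  have hcop : (Nat.card ↥(A ⊔ K)).Coprime (Nat.card ↥(Cfsg.alphaCore H)) := by
    have hcard := ZJ.card_sup_mul_card_inf_of_le_normalizer hn
    refine Nat.coprime_of_dvd fun t ht h1 h2 => ?_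
    have h3 : t ∣ Nat.card A * Nat.card K := h1.trans (hcard ▸ dvd_mul_right _ _)
    obtain ⟨n, hn'⟩ := hK.exists_card_eq
    rw [hAc, hn'] at h3
    have h4 := alpha_subset_sigma hG hH (mem_alpha_of_dvd H ht h2)
    rcases ht.dvd_mul.1 h3 with h | h
    · exact hps ((Nat.prime_dvd_prime_iff_eq ht hp.out).1 (ht.dvd_of_dvd_pow h) ▸ h4)
    · exact hqs ((Nat.prime_dvd_prime_iff_eq ht Fact.out).1 (ht.dvd_of_dvd_pow h) ▸ h4)
  obtain ⟨P, hP⟩ := CoprimeAction.exists_invariant_sylow (p := r)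
    ((sup_le hAH hKH).trans (le_normalizer_alphaCore H)) hcop
    (Or.inr (haveI := isSolvable_of_ne_top hG hH.1
      Group.isSolvable_of_isSolvable_injective
        (Subgroup.inclusion_injective (Subgroup.map_subtype_le _ : Cfsg.alphaCore H ≤ H))))
  set R := (P : Subgroup ↥(Cfsg.alphaCore H)).map (Cfsg.alphaCore H).subtype with hR
  have hRα : R ≤ Cfsg.alphaCore H := Subgroup.map_subtype_le _
  have hRp : IsPGroup r R := P.isPGroup'.map _
  have hRH : R ≤ H := hRα.trans (Subgroup.map_subtype_le _)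
  have hR3 : ¬ Cfsg.PRankLE r 2 ↥R := fun h => by
    obtain ⟨E, hEH, hE, hEc⟩ := exists_elem_of_not_prank hrα.2
    exact not_prank_of_elem (le_alphaCore hG hH hrα (isPGroup_of_elementary hE) hEH) hE (pow_lt_card hEc)
      (prankLE_of_sylow hRp hRα (sylow_map_max P) h)
  have hc := centralizes_sylow_alpha hG hH hps hAH hA hAc (Y := Subgroup.zpowers a) (Subgroup.zpowers_le.2 ha)
    (by rw [Nat.card_zpowers, orderOf_eq_prime (hA.2 a ha) ha1]) (by rwa [centralizer_zpowers]) hqp hqs hK hKH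
    (by rwa [centralizer_zpowers]) hn hrα hRp hRH (le_sup_right.trans hP) (le_sup_left.trans hP)
  rw [hKA, Subgroup.le_centralizer_iff] at hc
  exact hne (eq_of_unique (unique_of_prank (allUnique hG) (pgroup_ne_top hG hRp) hR3) hM (hc.trans hCK) hH hRH)

/-- The Sylow subgroup for the largest prime of `H` centralizes the `q`-subgroups of `H'`. -/
theorem exists_top_centralizing (hG : Cfsg.IsMinSimpleOddOrder G) {H : Subgroup G} (hH : IsCoatom H)
    (hα : Cfsg.alphaCore H = ⊥) {q : ℕ} [Fact q.Prime] (hqs : q ∉ Cfsg.sigma H) :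
    ∃ l : ℕ, l.Prime ∧ l ∈ Cfsg.sigma H ∧ (∀ t : ℕ, t.Prime → t ∣ Nat.card H → t ≤ l) ∧
      ∃ R : Sylow l G, (R : Subgroup G) ≤ H ∧ (R : Subgroup G) ≠ ⊥ ∧
        Subgroup.normalizer ((R : Subgroup G) : Set G) = H ∧
        ∀ K : Subgroup G, IsPGroup q K → K ≤ ⁅H, H⁆ → (R : Subgroup G) ≤ Subgroup.centralizer (K : Set G) := by
  obtain ⟨l, hl, hls, hmax, R, hRH, hR1, hNR⟩ := exists_top_prime hG hH hα
  haveI := Fact.mk hl
  refine ⟨l, hl, hls, hmax, R, hRH, hR1, hNR, fun K hK hKd r hr => Subgroup.mem_centralizer_iff.2 fun k hk => ?_⟩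
  haveI := isNilpotent_derived hG hH hα
  have hRd : (R : Subgroup G) ≤ ⁅H, H⁆ := by
    rw [← Subgroup.map_subtype_commutator, ← Subgroup.map_subgroupOf_eq_of_le hRH]
    exact Subgroup.map_mono ((Sylow.coe_subtype R hRH).ge.trans (sylow_le_commutator hG hH hls (R.subtype hRH)))
  exact (Hall.commute_of_nilpotent_le ⁅H, H⁆ (fun e : q = l => hqs (e.symm ▸ hls)) hKd hRd hK R.isPGroup' k hk r hr).eq

theorem eq_of_mem_pgroup_of_card {q : ℕ} [Fact q.Prime] {Q E : Subgroup G} (hQr : Cfsg.PRankLE q 2 ↥Q)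
    (hE : Cfsg.IsElementaryAbelian q E) (hEQ : E ≤ Q) (hEc : q ^ 2 ≤ Nat.card E) {x : G} (hxQ : x ∈ Q)
    (hxE : x ∈ Subgroup.centralizer (E : Set G)) (hxq : x ^ q = 1) : x ∈ E := by
  have hel := NormalEl.elementary_sup hE (elementary_zpowers hxq) fun a ha b hb => by
    obtain ⟨i, rfl⟩ := Subgroup.mem_zpowers_iff.1 hb
    exact (Commute.zpow_right (Subgroup.mem_centralizer_iff.1 hxE a ha) i).eq
  by_contra hx
  have hlt := card_lt_of_lt (lt_of_le_of_ne (le_sup_left : E ≤ E ⊔ Subgroup.zpowers x) fun h =>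
    hx (h.ge (Subgroup.mem_sup_right (Subgroup.mem_zpowers x))))
  exact not_prank_of_elem (sup_le hEQ (Subgroup.zpowers_le.2 hxQ)) hel (hEc.trans_lt hlt) hQr

section main

variable (hG : Cfsg.IsMinSimpleOddOrder G) (hM : IsCoatom M) (hAM : A ≤ M)
  (hA : Cfsg.IsElementaryAbelian p A) (hAc : Nat.card A = p ^ 2) (hnu : NoUniqueLine p M A)

include hG hM hAM hA hAc hnu

theorem alphaCore_eq_bot : Cfsg.alphaCore M = ⊥ := by
  by_contra h0
  obtain ⟨q, hq, hqd⟩ := Nat.exists_prime_and_dvd (fun e => h0 (Subgroup.card_eq_one.1 e))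
  haveI := Fact.mk hq
  haveI := hA.1
  have hqα := mem_alpha_of_dvd M hq hqd
  have hpα := not_mem_alpha hG hM hA hnu hAM hAc
  have hqp : q ≠ p := fun e => hpα (e ▸ hqα)
  have hAne : ¬ IsCyclic A := not_isCyclic_of_elementary hA (hAc ▸ lt_self_pow₀ hp.out.one_lt one_lt_two)
  have hcop : (Nat.card A).Coprime (Nat.card ↥(Cfsg.alphaCore M)) := by
    refine Nat.coprime_of_dvd fun t ht h1 h2 => hpα ?_
    rw [hAc] at h1
    exact (Nat.prime_dvd_prime_iff_eq ht hp.out).1 (ht.dvd_of_dvd_pow h1) ▸ mem_alpha_of_dvd M ht h2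
  obtain ⟨P, hP⟩ := CoprimeAction.exists_invariant_sylow (p := q) (hAM.trans (le_normalizer_alphaCore M)) hcop
    (Or.inl (Group.isSolvable_of_comm mul_comm'))
  set Q := (P : Subgroup ↥(Cfsg.alphaCore M)).map (Cfsg.alphaCore M).subtype with hQ
  have hQα : Q ≤ Cfsg.alphaCore M := Subgroup.map_subtype_le _
  have hQM : Q ≤ M := hQα.trans (Subgroup.map_subtype_le _)
  have hQp : IsPGroup q Q := P.isPGroup'.map _
  have hQ3 : ¬ Cfsg.PRankLE q 2 ↥Q := fun h => by
    obtain ⟨E, hEM, hE, hEc⟩ := exists_elem_of_not_prank hqα.2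
    exact not_prank_of_elem (le_alphaCore hG hM hqα (isPGroup_of_elementary hE) hEM) hE (pow_lt_card hEc)
      (prankLE_of_sylow hQp hQα (sylow_map_max P) h)
  have hQ1 : Q ≠ ⊥ := fun h => by
    obtain ⟨E, hE, -, hEc⟩ := exists_elem_of_not_prank hQ3
    rw [le_bot_iff.1 (hE.trans h.le), Subgroup.card_bot] at hEc
    exact (Nat.one_lt_pow (by norm_num) hq.one_lt).ne hEc
  have hq2 : q ≠ 2 := ne_two hG ((dvd_card_of_ne_bot hQp hQ1).trans (Subgroup.card_subgroup_dvd_card Q))
  have hQU := unique_of_prank (allUnique hG) (pgroup_ne_top hG hQp) hQ3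
  -- centralizers of lines meet `Q` in cyclic subgroups
  have hcyc : ∀ a ∈ A, a ≠ 1 → IsCyclic ↥(Q ⊓ Subgroup.centralizer ({a} : Set G)) := by
    intro a ha ha1
    by_contra hc
    obtain ⟨E, hEQ, hE, hEc⟩ := exists_elem_sq hq2 (hQp.to_le inf_le_left) hc
    have hU := centralizer_unique hG (X := Subgroup.zpowers a) hM (Subgroup.zpowers_le.2 (hAM ha))
      (fun t ht hd => by
        rw [card_zpowers_elem hG hM hA hnu ha ha1] at hd
        exact (Nat.prime_dvd_prime_iff_eq ht hp.out).1 hd ▸ hpα)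
      (not_rankLE_of_elem (hEQ.trans (inf_le_inf hQα (centralizer_zpowers a).ge)) hE (pow_lt_card hEc))
    exact false_of_unique_line hG hM hA hnu ha ha1 hU inf_le_left
      (inf_le_right.trans (Subgroup.centralizer_le_normalizer _))
  obtain ⟨W, hWdef, hNW⟩ := exists_omega_center (q := q) Q
  have hWQ : W ≤ Q := fun x hx => ((hWdef x).1 hx).1
  have hAW : A ≤ Subgroup.normalizer (W : Set G) := hP.trans hNW
  have hcopQ : (Nat.card A).Coprime (Nat.card Q) := hcop.coprime_dvd_right (Subgroup.card_dvd_of_le hQα)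
  obtain ⟨a, ha, ha1, x, hxW, hxa, hxA⟩ : ∃ a ∈ A, a ≠ 1 ∧ ∃ x ∈ W, x ∈ Subgroup.centralizer ({a} : Set G) ∧
      x ∉ Subgroup.centralizer (A : Set G) := by
    by_contra hno
    push Not at hno
    have hW : W ≤ Subgroup.centralizer (A : Set G) := CoprimeAction.le_of_centralizers_le hAne hAW
      (hcopQ.coprime_dvd_right (Subgroup.card_dvd_of_le hWQ)) fun a ha ha1 x hx => hno a ha ha1 x hx.1 hx.2
    obtain ⟨w, hwQ, hwo, hwc⟩ := exists_elem_pow hQp hQ1
    have hwW : w ∈ W := (hWdef w).2 ⟨hwQ, Subgroup.mem_centralizer_iff.2 hwc, hwo ▸ pow_orderOf_eq_one w⟩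
    have hQC : Q ≤ Subgroup.centralizer (A : Set G) := by
      refine CoprimeAction.le_of_centralizers_le hAne hP hcopQ fun a ha ha1 => ?_
      haveI := hcyc a ha ha1
      rw [Subgroup.le_centralizer_iff]
      refine CoprimeAction.le_centralizer_of_fixes_prime_order (le_normalizer_inf_centralizer_elem hA hP ha)
        (hcopQ.coprime_dvd_right (Subgroup.card_dvd_of_le inf_le_left)) fun v hv hvo b hb => ?_
      have hvq : orderOf v = q := by
        obtain ⟨n, hn⟩ := IsPGroup.iff_orderOf.1 hQp ⟨v, hv.1⟩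
        rw [Subgroup.orderOf_mk] at hn
        exact (Nat.prime_dvd_prime_iff_eq hvo hq).1 (hvo.dvd_of_dvd_pow (dvd_of_eq hn))
      have he : Subgroup.zpowers v = Subgroup.zpowers w := Chev.Ree.GL0.eq_of_card_eq
        (A := Q ⊓ Subgroup.centralizer ({a} : Set G)) (Subgroup.zpowers_le.2 hv)
        (Subgroup.zpowers_le.2 (Subgroup.mem_inf.2 ⟨hwQ, le_centralizer_singleton_of (hW hwW) ha⟩))
        (by rw [Nat.card_zpowers, Nat.card_zpowers, hvq, hwo])
      exact Subgroup.mem_centralizer_iff.1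
        ((Subgroup.zpowers_le.2 (hW hwW) : Subgroup.zpowers w ≤ _) (he ▸ Subgroup.mem_zpowers v)) b hb
    obtain ⟨a, ha, ha1⟩ := (Subgroup.bot_or_exists_ne_one A).resolve_left fun h => hAne (by
      rw [h]; exact isCyclic_of_subsingleton)
    haveI := hcyc a ha ha1
    have hle : Q ≤ Q ⊓ Subgroup.centralizer ({a} : Set G) :=
      le_inf le_rfl fun t ht => le_centralizer_singleton_of (hQC ht) ha
    haveI : IsCyclic Q := isCyclic_of_injective (Subgroup.inclusion hle) (Subgroup.inclusion_injective hle)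
    obtain ⟨E, hEQ, hE, hEc⟩ := exists_elem_of_not_prank hQ3
    haveI : IsCyclic E := isCyclic_of_injective (Subgroup.inclusion hEQ) (Subgroup.inclusion_injective hEQ)
    exact not_isCyclic_of_elementary hE (hEc ▸ lt_self_pow₀ hq.one_lt (by norm_num)) inferInstance
  obtain ⟨hxQ, hxC, hxq⟩ := (hWdef x).1 hxW
  have hx1 : x ≠ 1 := fun h => hxA (h ▸ one_mem _)
  have hxo : orderOf x = q := orderOf_eq_prime hxq hx1
  set K := Subgroup.zpowers x with hK
  have hKc : Nat.card K = q := by rw [hK, Nat.card_zpowers, hxo]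
  have hKp : IsPGroup q K := IsPGroup.of_card (n := 1) (by rw [hKc, pow_one])
  have hKQ : K ≤ Q ⊓ Subgroup.centralizer ({a} : Set G) := Subgroup.zpowers_le.2 (Subgroup.mem_inf.2 ⟨hxQ, hxa⟩)
  have hAK : A ≤ Subgroup.normalizer (K : Set G) := fun b hb => by
    haveI := hcyc a ha ha1
    rw [Subgroup.mem_normalizer_iff_map_conj_eq]
    exact Chev.Ree.GL0.eq_of_card_eq (A := Q ⊓ Subgroup.centralizer ({a} : Set G))
      ((Subgroup.map_mono hKQ).trans
        (Subgroup.mem_normalizer_iff_map_conj_eq.1 (le_normalizer_inf_centralizer_elem hA hP ha hb)).le)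
      hKQ (Subgroup.card_map_of_injective (MulAut.conj b).injective)
  have hKA : ⁅K, A⁆ = K := commutator_eq_self_of_prime (hKc.symm ▸ hq) hAK fun h => hxA (h (Subgroup.mem_zpowers x))
  have hQC : Q ≤ Subgroup.centralizer ({x} : Set G) := fun t ht =>
    Subgroup.mem_centralizer_singleton_iff.2 (Subgroup.mem_centralizer_iff.1 hxC t ht)
  have hCx : Subgroup.centralizer ({x} : Set G) ≤ M :=
    le_of_unique hQU hM hQM (centralizer_singleton_ne_top hG hx1) hQC
  have hNK : Subgroup.normalizer (K : Set G) ≤ M := le_of_unique hQU hM hQM (normalizer_zpowers_ne_top hG hx1)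
    (hQC.trans ((centralizer_zpowers x).ge.trans (Subgroup.centralizer_le_normalizer _)))
  obtain ⟨H, hH, hne, hNH⟩ := exists_other_max hG hM hA hnu ha ha1
  have hCa : Subgroup.centralizer ({a} : Set G) ≤ H :=
    (centralizer_zpowers a).ge.trans ((Subgroup.centralizer_le_normalizer _).trans hNH)
  have hxH : x ∈ H := hCa hxa
  have hqs : q ∉ Cfsg.sigma H := fun h => by
    obtain ⟨E, -, hE, hEc⟩ := exists_elem_of_not_prank hqα.2
    obtain ⟨g, rfl⟩ := exists_conj_eq_of_alpha hG hM hH hqα (mem_alpha_of_elementary h hE hEc)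
    refine hne (map_eq_of_mem_normalizer (inv_mem_iff.1 (mem_of_conj_mem_of_elem hG hM
      (mem_sigma_of_alpha hG hM hqα) hxo (hQM hxQ) hCx ?_)))
    obtain ⟨y, hy, hye⟩ := hxH
    rw [← hye]
    simpa [mul_assoc] using hy
  obtain ⟨hps, hHα⟩ := alphaCore_eq_bot_of_other hG hM hA hAc hH hne ha ha1 hCa hqp hKp
    (by rw [Ne, Subgroup.zpowers_eq_bot]; exact hx1) hKA (Subgroup.zpowers_le.2 hxa) hAK
    (by rwa [centralizer_zpowers]) hqs
  obtain ⟨r, hr, hrs, -, R, hRH, hR1, hNR, hRC⟩ := exists_top_centralizing hG hH hHα hqs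
  haveI := Fact.mk hr
  haveI := isNilpotent_derived hG hH hHα
  have hAH : A ≤ H := fun b hb => hCa (Subgroup.mem_centralizer_singleton_iff.2
    (NormalEl.commute_of_elementary hA hb ha))
  have hKd : K ≤ ⁅H, H⁆ := hKA ▸ Subgroup.commutator_mono (Subgroup.zpowers_le.2 hxH) hAH
  have hRM : (R : Subgroup G) ≤ M := (hRC K hKp hKd).trans ((centralizer_zpowers x).le.trans hCx)
  have hrM : r ∉ Cfsg.sigma M := fun h => by
    have := normalizer_sylow_le h (R.subtype hRM)
    rw [Sylow.coe_subtype, Subgroup.map_subgroupOf_eq_of_le hRM, hNR] at this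
    exact hne (eq_of_coatom_le hM hH this)
  -- the Sylow `q`-subgroup of `H'`
  obtain ⟨T, hT⟩ := IsPGroup.exists_le_sylow (hKp.of_equiv (Subgroup.subgroupOfEquivOfLe hKd).symm)
  have hiff := (Group.isNilpotent_of_finite_tfae (G := ↥⁅H, H⁆)).out 0 3
  haveI hTn : (T : Subgroup ↥⁅H, H⁆).Normal := hiff.1 (isNilpotent_derived hG hH hHα) q inferInstance T
  haveI := Sylow.characteristic_of_normal T hTn
  set T' := (T : Subgroup ↥⁅H, H⁆).map ⁅H, H⁆.subtype with hT'
  have hT'd : T' ≤ ⁅H, H⁆ := Subgroup.map_subtype_le _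
  have hT'p : IsPGroup q T' := T.isPGroup'.map _
  have hKT : K ≤ T' := by
    rw [← Subgroup.map_subgroupOf_eq_of_le hKd]
    exact Subgroup.map_mono hT
  have hHT : H ≤ Subgroup.normalizer (T' : Set G) := by
    refine le_trans ?_ (le_normalizer_map_subtype_of_char (T : Subgroup ↥⁅H, H⁆))
    rw [← Subgroup.map_subtype_commutator, ← Subgroup.normal_subgroupOf_iff_le_normalizer
      (Subgroup.map_subtype_le _), Subgroup.subgroupOf, Subgroup.comap_map_eq_self_of_injective H.subtype_injective]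
    infer_instance
  have hTnc : ¬ IsCyclic T' := fun hc => by
    refine hne (eq_of_coatom_le hM hH (le_trans ?_ hNK))
    intro g hg
    rw [Subgroup.mem_normalizer_iff_map_conj_eq]
    exact Chev.Ree.GL0.eq_of_card_eq (A := T')
      ((Subgroup.map_mono hKT).trans (Subgroup.mem_normalizer_iff_map_conj_eq.1 (hHT hg)).le) hKT
      (Subgroup.card_map_of_injective (MulAut.conj g).injective)
  obtain ⟨E, hET, hE, hEc, hEx⟩ : ∃ E : Subgroup G, E ≤ T' ∧ Cfsg.IsElementaryAbelian q E ∧ q < Nat.card E ∧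
      E ≤ Subgroup.centralizer ({x} : Set G) := by
    have hT1 : T' ≠ ⊥ := fun h => hTnc (by rw [h]; exact isCyclic_of_subsingleton)
    obtain ⟨z, hzT, hzo, hzc⟩ := exists_elem_pow hT'p hT1
    by_cases hxz : x ∈ Subgroup.zpowers z
    · obtain ⟨E, hET, hE, hEc⟩ := exists_elem_sq hq2 hT'p hTnc
      refine ⟨E, hET, hE, hEc ▸ lt_self_pow₀ hq.one_lt one_lt_two, fun t ht => ?_⟩
      obtain ⟨i, rfl⟩ := Subgroup.mem_zpowers_iff.1 hxz
      exact Subgroup.mem_centralizer_singleton_iff.2 (Commute.zpow_right (hzc t (hET ht)) i).eq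
    · have hel := NormalEl.elementary_sup (elementary_zpowers hxq)
        (elementary_zpowers (p := q) (w := z) (hzo ▸ pow_orderOf_eq_one z)) fun a ha b hb => by
          obtain ⟨i, rfl⟩ := Subgroup.mem_zpowers_iff.1 hb
          exact (Commute.zpow_right (hzc a (hKT ha)) i).eq
      refine ⟨_, sup_le hKT (Subgroup.zpowers_le.2 hzT), hel, ?_, fun t ht =>
        Subgroup.mem_centralizer_singleton_iff.2
          (NormalEl.commute_of_elementary hel ht (Subgroup.mem_sup_left (Subgroup.mem_zpowers x)))⟩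
      have hlt := card_lt_of_lt (lt_of_le_of_ne (le_sup_right : Subgroup.zpowers z ≤ Subgroup.zpowers x ⊔ _)
        fun h => hxz (h.ge (Subgroup.mem_sup_left (Subgroup.mem_zpowers x))))
      rwa [Nat.card_zpowers, hzo] at hlt
  have hEα : E ≤ Cfsg.alphaCore M := le_alphaCore hG hM hqα (isPGroup_of_elementary hE) (hEx.trans hCx)
  have hER : E ≤ Subgroup.centralizer ((R : Subgroup G) : Set G) :=
    Subgroup.le_centralizer_iff.1 (hRC E (isPGroup_of_elementary hE) (hET.trans hT'd))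
  have hU := centralizer_unique hG hM hRM (fun t ht hd hta => by
      obtain ⟨n, hn⟩ := R.isPGroup'.exists_card_eq
      rw [hn] at hd
      exact hrM ((Nat.prime_dvd_prime_iff_eq ht hr).1 (ht.dvd_of_dvd_pow hd) ▸ alpha_subset_sigma hG hM hta))
    (not_rankLE_of_elem (k := 1) (le_inf hEα hER) hE (by rwa [pow_one]))
  exact hne (eq_of_unique hU hM inf_le_left hH
    (inf_le_right.trans ((Subgroup.centralizer_le_normalizer _).trans hNR.le)))

theorem mem_sigma_of_no_unique_line : p ∈ Cfsg.sigma M := by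
  by_contra hps
  haveI := hA.1
  have hα := alphaCore_eq_bot hG hM hAM hA hAc hnu
  have hAne : ¬ IsCyclic A := not_isCyclic_of_elementary hA (hAc ▸ lt_self_pow₀ hp.out.one_lt one_lt_two)
  have hA1 : A ≠ ⊥ := fun h => hAne (by rw [h]; exact isCyclic_of_subsingleton)
  have hpG : p ∣ Nat.card G := (dvd_card_of_ne_bot (isPGroup_of_elementary hA) hA1).trans
    (Subgroup.card_subgroup_dvd_card A)
  have hadj : ∀ x ∈ Subgroup.centralizer (A : Set G), x ^ p = 1 → x ∈ A := fun x hx hxp => by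
    have h := eq_of_elementary_ge hG hM hps hAM hA hAc
      (NormalEl.elementary_sup hA (elementary_zpowers hxp) fun a ha b hb => by
        obtain ⟨i, rfl⟩ := Subgroup.mem_zpowers_iff.1 hb
        exact (Commute.zpow_right (Subgroup.mem_centralizer_iff.1 hx a ha) i).eq) le_sup_left
    exact h.le (Subgroup.mem_sup_right (Subgroup.mem_zpowers x))
  obtain ⟨l, hl, hls, hlmax, Q, hQM, hQ1, hNQ⟩ := exists_top_prime hG hM hα
  haveI := Fact.mk hl
  have hlp : l ≠ p := fun e => hps (e ▸ hls)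
  have hl2 : l ≠ 2 := ne_two hG ((dvd_card_of_ne_bot Q.isPGroup' hQ1).trans (Subgroup.card_subgroup_dvd_card _))
  have hQr : Cfsg.PRankLE l 2 ↥(Q : Subgroup G) := by
    by_contra h
    obtain ⟨E, hEQ, hE, hEc⟩ := exists_elem_of_not_prank h
    have h1 := le_alphaCore hG hM ⟨hl, not_prank_of_elem (hEQ.trans hQM) hE (pow_lt_card hEc)⟩
      (isPGroup_of_elementary hE) (hEQ.trans hQM)
    rw [hα, le_bot_iff] at h1
    rw [h1, Subgroup.card_bot] at hEc
    exact (Nat.one_lt_pow (by norm_num) hl.one_lt).ne hEc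
  haveI := isNilpotent_derived hG hM hα
  have hMdM : ⁅M, M⁆ ≤ M := Subgroup.commutator_le_self M
  have hQd : (Q : Subgroup G) ≤ ⁅M, M⁆ := by
    rw [← Subgroup.map_subtype_commutator, ← Subgroup.map_subgroupOf_eq_of_le hQM]
    exact Subgroup.map_mono ((Sylow.coe_subtype Q hQM).ge.trans (sylow_le_commutator hG hM hls (Q.subtype hQM)))
  -- `M'` centralizes what a normal `t`-subgroup of `M'` has in its centre
  have hMdC : ∀ {t : ℕ} [Fact t.Prime] (T : Subgroup G), IsPGroup t T → T ≤ ⁅M, M⁆ →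
      (∀ U : Subgroup G, IsPGroup t U → U ≤ ⁅M, M⁆ → U ≤ T) → ∀ W : Subgroup G, W ≤ T →
      W ≤ Subgroup.centralizer (T : Set G) → ⁅M, M⁆ ≤ Subgroup.centralizer (W : Set G) := by
    intro t _ T hT hTd hTmax W hWT hWC
    refine le_of_prime_subgroups fun s hs U hU hUd => ?_
    haveI := Fact.mk hs
    by_cases hst : s = t
    · subst hst
      exact (hTmax U hU hUd).trans (Subgroup.le_centralizer_iff.1 hWC)
    · intro u hu
      exact Subgroup.mem_centralizer_iff.2 fun w hw =>
        (Hall.commute_of_nilpotent_le ⁅M, M⁆ hst hUd hTd hU hT u hu w (hWT hw)).eq.symm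
  have hconjA : ∀ g ∈ M, ∀ u : G, u ∈ M → g * u * g⁻¹ * u⁻¹ ∈ ⁅M, M⁆ := fun g hg u hu => by
    have := Subgroup.commutator_mem_commutator hg hu
    rwa [commutatorElement_def] at this
  by_cases hAQ : A ≤ Subgroup.centralizer ((Q : Subgroup G) : Set G)
  · -- `A` centralizes `Q`: transfer
    have hcap : A ⊓ ⁅M, M⁆ = ⊥ := by
      by_contra hne
      obtain ⟨c, hc, hc1⟩ := (Subgroup.bot_or_exists_ne_one _).resolve_left hne
      obtain ⟨S, hS⟩ := exists_max_ge (isPGroup_of_elementary hA) hAM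
      set P := (S : Subgroup M).map M.subtype with hP
      have hPp : IsPGroup p P := S.isPGroup'.map _
      have hPM : P ≤ M := Subgroup.map_subtype_le _
      obtain ⟨T₀⟩ : Nonempty (Sylow p ↥⁅M, M⁆) := inferInstance
      have hiff := (Group.isNilpotent_of_finite_tfae (G := ↥⁅M, M⁆)).out 0 3
      haveI hTn : (T₀ : Subgroup ↥⁅M, M⁆).Normal := hiff.1 (isNilpotent_derived hG hM hα) p inferInstance T₀
      haveI := Sylow.characteristic_of_normal T₀ hTn
      set T := (T₀ : Subgroup ↥⁅M, M⁆).map ⁅M, M⁆.subtype with hT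
      have hTp : IsPGroup p T := T₀.isPGroup'.map _
      have hTd : T ≤ ⁅M, M⁆ := Subgroup.map_subtype_le _
      have hTmax : ∀ U : Subgroup G, IsPGroup p U → U ≤ ⁅M, M⁆ → U ≤ T := fun U hU hUd => by
        letI := Sylow.unique_of_normal T₀ hTn
        obtain ⟨V, hV⟩ := IsPGroup.exists_le_sylow (hU.of_equiv (Subgroup.subgroupOfEquivOfLe hUd).symm)
        rw [← Subgroup.map_subgroupOf_eq_of_le hUd]
        exact Subgroup.map_mono (hV.trans (le_of_eq (by rw [Subsingleton.elim V T₀])))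
      have hMT : M ≤ Subgroup.normalizer (T : Set G) := by
        refine le_trans ?_ (le_normalizer_map_subtype_of_char (T₀ : Subgroup ↥⁅M, M⁆))
        rw [← Subgroup.map_subtype_commutator, ← Subgroup.normal_subgroupOf_iff_le_normalizer
          (Subgroup.map_subtype_le _), Subgroup.subgroupOf, Subgroup.comap_map_eq_self_of_injective M.subtype_injective]
        infer_instance
      have hT1 : T ≠ ⊥ := fun h => hc1 (Subgroup.mem_bot.1 (h ▸ hTmax _
        (IsPGroup.of_card (n := 1) (by rw [card_zpowers_elem hG hM hA hnu hc.1 hc1, pow_one]))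
        (Subgroup.zpowers_le.2 hc.2) (Subgroup.mem_zpowers c)))
      obtain ⟨W, hWdef, hNW⟩ := exists_omega_center (q := p) T
      have hWT : W ≤ T := fun x hx => ((hWdef x).1 hx).1
      have hMW := hMT.trans hNW
      have hTP : T ≤ P := by
        have h := sylow_map_max S (P ⊔ T) (hPp.to_sup_of_normal_right' hTp (hPM.trans hMT))
          (sup_le hPM (hTd.trans hMdM)) le_sup_left
        exact le_sup_right.trans h.le
      have hWn : W ≠ ⊥ := by
        obtain ⟨w, hwT, hwo, hwc⟩ := exists_elem_pow hTp hT1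
        intro h
        have : w ∈ W := (hWdef w).2 ⟨hwT, Subgroup.mem_centralizer_iff.2 hwc, hwo ▸ pow_orderOf_eq_one w⟩
        rw [h, Subgroup.mem_bot] at this
        exact hp.out.one_lt.ne (by rw [← hwo, this, orderOf_one])
      set Z := W ⊓ Subgroup.centralizer (P : Set G) with hZ
      have hZ1 : Z ≠ ⊥ := by
        haveI : (W.subgroupOf P).Normal :=
          Subgroup.normal_subgroupOf_of_le_normalizer (hPM.trans hMW)
        have hne' : W.subgroupOf P ≠ ⊥ := fun h => hWn (by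
          rw [← Subgroup.map_subgroupOf_eq_of_le (hWT.trans hTP), h, Subgroup.map_bot])
        obtain ⟨z, hz, hz1⟩ := (Subgroup.bot_or_exists_ne_one _).resolve_left (PReduced.inf_center_ne_bot hPp hne')
        intro h
        have hzZ : (z : G) ∈ Z := ⟨Subgroup.mem_subgroupOf.1 hz.1, Subgroup.mem_centralizer_iff.2 fun t ht =>
          congrArg Subtype.val (Subgroup.mem_center_iff.1 hz.2 ⟨t, ht⟩)⟩
        rw [h, Subgroup.mem_bot] at hzZ
        exact hz1 (Subtype.ext hzZ)
      have hZA : Z ≤ A := fun z hz =>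
        hadj z (Subgroup.centralizer_le hS hz.2) ((hWdef z).1 hz.1).2.2
      have hMd := hMdC T hTp hTd hTmax W hWT fun x hx => ((hWdef x).1 hx).2.1
      have hMZ : M ≤ Subgroup.normalizer (Z : Set G) := fun g hg => by
        refine mem_normalizer_of_map_le ?_
        rintro _ ⟨z, ⟨hzW, hzP⟩, rfl⟩
        refine ⟨(Subgroup.mem_normalizer_iff.1 (hMW hg) z).1 hzW, Subgroup.mem_centralizer_iff.2 fun u hu => ?_⟩
        have hm : g⁻¹ * u * g * u⁻¹ ∈ Subgroup.centralizer (W : Set G) := by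
          have h := hconjA g⁻¹ (inv_mem hg) u (hPM hu)
          rw [inv_inv] at h
          exact hMd h
        have hc : z * (g⁻¹ * u * g) = (g⁻¹ * u * g) * z := by
          calc z * (g⁻¹ * u * g) = (z * (g⁻¹ * u * g * u⁻¹)) * u := by group
            _ = (g⁻¹ * u * g * u⁻¹) * (z * u) := by
              rw [Subgroup.mem_centralizer_iff.1 hm z hzW, mul_assoc]
            _ = (g⁻¹ * u * g * u⁻¹) * (u * z) := by rw [Subgroup.mem_centralizer_iff.1 hzP u hu]
            _ = (g⁻¹ * u * g) * z := by group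
        show u * (g * z * g⁻¹) = g * z * g⁻¹ * u
        calc u * (g * z * g⁻¹) = g * ((g⁻¹ * u * g) * z) * g⁻¹ := by group
          _ = g * (z * (g⁻¹ * u * g)) * g⁻¹ := by rw [hc]
          _ = g * z * g⁻¹ * u := by group
      have hNZ : Subgroup.normalizer (Z : Set G) = M := (hM.le_iff.1 hMZ).resolve_left
        (normalizer_ne_top hG hZ1 (pgroup_ne_top hG ((isPGroup_of_elementary hA).to_le hZA)))
      obtain ⟨n, hn⟩ := ((isPGroup_of_elementary hA).to_le hZA).exists_card_eq
      have hd : p ^ n ∣ p ^ 2 := hn ▸ hAc ▸ Subgroup.card_dvd_of_le hZA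
      have hn2 : n ≤ 2 := (Nat.pow_dvd_pow_iff_le_right hp.out.one_lt).1 hd
      interval_cases n
      · exact hZ1 (Subgroup.card_eq_one.1 (by rw [hn, pow_zero]))
      · exact hnu Z hZA (by rw [hn, pow_one])
          ⟨hNZ.le, fun L hL hle => (eq_of_coatom_le hL hM (hNZ ▸ hle)).symm⟩
      · have hZeq : Z = A := Subgroup.eq_of_le_of_card_ge hZA (by rw [hn, hAc])
        refine hps ⟨hp.out, (dvd_card_of_ne_bot (isPGroup_of_elementary hA) hA1).trans
          (Subgroup.card_dvd_of_le hAM), S, le_trans (fun g hg => ?_) hNZ.le⟩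
        rw [hZeq]
        refine mem_normalizer_of_map_le ?_
        rintro _ ⟨b, hb, rfl⟩
        have h1 : g * b * g⁻¹ ∈ P := (Subgroup.mem_normalizer_iff.1 hg b).1 (hS hb)
        refine hadj _ (Subgroup.mem_centralizer_iff.2 fun a ha => ?_) (by rw [← map_pow, hA.2 b hb, map_one])
        exact (Subgroup.mem_centralizer_iff.1 ((hZeq.ge ha : a ∈ Z).2) _ h1).symm
    have hNA : Subgroup.normalizer (A : Set G) ≤ Subgroup.centralizer (A : Set G) := by
      intro g hg
      have hQC : (Q : Subgroup G) ≤ Subgroup.centralizer (A : Set G) := Subgroup.le_centralizer_iff.1 hAQ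
      set C := Subgroup.centralizer (A : Set G)
      have hgQ : ((g • Q : Sylow l G) : Subgroup G) ≤ C := by
        rintro _ ⟨x, hx, rfl⟩
        exact (Subgroup.mem_normalizer_iff.1 (Components.normalizer_le_normalizer_centralizer _ hg) x).1 (hQC hx)
      obtain ⟨k, hk, hkQ⟩ := exists_conj_sylow (Q.subtype hQC) ((g • Q).subtype hgQ)
      rw [Sylow.coe_subtype, Sylow.coe_subtype, Subgroup.map_subgroupOf_eq_of_le hQC,
        Subgroup.map_subgroupOf_eq_of_le hgQ] at hkQ
      have hkN : k⁻¹ * g ∈ Subgroup.normalizer ((Q : Subgroup G) : Set G) := by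
        rw [Subgroup.mem_normalizer_iff_map_conj_eq]
        show (Q : Subgroup G).map (MulAut.conj (k⁻¹ * g)).toMonoidHom = Q
        rw [← map_conj_map, show (Q : Subgroup G).map (MulAut.conj g).toMonoidHom = ((g • Q : Sylow l G) : Subgroup G)
          from rfl, ← hkQ, map_conj_map, inv_mul_cancel, map_conj_one]
      rw [hNQ] at hkN
      have hkA : k ∈ Subgroup.normalizer (A : Set G) := Subgroup.centralizer_le_normalizer _ hk
      have hc : k⁻¹ * g ∈ C := by
        refine Subgroup.mem_centralizer_iff.2 fun b hb => ?_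
        have h1 : (k⁻¹ * g) * b * (k⁻¹ * g)⁻¹ ∈ A :=
          (Subgroup.mem_normalizer_iff.1 (mul_mem (inv_mem hkA) hg) b).1 hb
        have h2 : (k⁻¹ * g) * b * (k⁻¹ * g)⁻¹ * b⁻¹ ∈ A ⊓ ⁅M, M⁆ :=
          ⟨mul_mem h1 (A.inv_mem hb), hconjA _ hkN b (hAM hb)⟩
        rw [hcap, Subgroup.mem_bot, mul_inv_eq_one, mul_inv_eq_iff_eq_mul] at h2
        exact h2.symm
      simpa [mul_assoc] using C.mul_mem hk hc
    obtain ⟨S, hS⟩ := IsPGroup.exists_le_sylow (isPGroup_of_elementary hA)
    have hNCS : ∀ x, x ∈ Subgroup.normalizer ((((S : Subgroup G) ⊓ Subgroup.centralizer (A : Set G)) : Subgroup G) : Set G) →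
        x ∈ Subgroup.normalizer (A : Set G) := fun x hx => by
      refine mem_normalizer_of_map_le ?_
      rintro _ ⟨b, hb, rfl⟩
      have h1 := (Subgroup.mem_normalizer_iff.1 hx b).1 ⟨hS hb, elementary_le_centralizer hA hb⟩
      exact hadj _ h1.2 (by rw [← map_pow, hA.2 b hb, map_one])
    have hSC : (S : Subgroup G) ≤ Subgroup.centralizer (A : Set G) := by
      by_contra hle
      have hlt : (S : Subgroup G) ⊓ Subgroup.centralizer (A : Set G) < S :=
        lt_of_le_of_ne inf_le_left fun h => hle (h.ge.trans inf_le_right)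
      obtain ⟨x, hx, hxn⟩ := SetLike.exists_of_lt (exists_lt_mem_normalizer S.isPGroup' hlt)
      exact hxn ⟨hx.1, hNA (hNCS x hx.2)⟩
    have hNS : Subgroup.normalizer ((S : Subgroup G) : Set G) ≤ Subgroup.centralizer (A : Set G) := fun g hg =>
      hNA (hNCS g (by rwa [inf_eq_left.2 hSC]))
    set N := Subgroup.normalizer ((S : Subgroup G) : Set G) with hN
    haveI : ((S : Subgroup G).subgroupOf N).Normal := Subgroup.normal_in_normalizer
    have hcopS : (Nat.card ((S : Subgroup G).subgroupOf N)).Coprime ((S : Subgroup G).subgroupOf N).index := by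
      obtain ⟨k, hk⟩ := S.isPGroup'.exists_card_eq
      rw [Nat.card_congr (Subgroup.subgroupOfEquivOfLe Subgroup.le_normalizer).toEquiv, hk]
      exact (PCore.coprime_of_not_dvd fun hd => S.not_dvd_index
        (hd.trans (Subgroup.relIndex_dvd_index_of_le Subgroup.le_normalizer))).symm.pow_left k
    obtain ⟨V₀, hV₀⟩ := Subgroup.exists_right_complement'_of_coprime hcopS
    set V := V₀.map N.subtype with hV
    have hVN : V ≤ N := Subgroup.map_subtype_le _
    have hcompl : Cfsg.IsComplIn (S : Subgroup G) V N := by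
      refine ⟨Subgroup.le_normalizer, hVN, ?_, fun m hm => ?_⟩
      · rw [eq_bot_iff]
        rintro _ ⟨hx, v, hv, rfl⟩
        have := hV₀.disjoint.le_bot (Subgroup.mem_inf.2 ⟨Subgroup.mem_subgroupOf.2 hx, hv⟩)
        rw [Subgroup.mem_bot] at this
        rw [this]; exact one_mem _
      · obtain ⟨⟨a, b⟩, hab⟩ := hV₀.2 ⟨m, hm⟩
        exact ⟨_, Subgroup.mem_subgroupOf.1 a.2, _, ⟨b, b.2, rfl⟩, (congrArg Subtype.val hab).symm⟩
    have hVp : (Nat.card V).Coprime p := by
      rw [hV, Subgroup.card_map_of_injective N.subtype_injective, ← hV₀.symm.index_eq_card]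
      exact PCore.coprime_of_not_dvd fun hd => S.not_dvd_index
        (hd.trans (Subgroup.relIndex_dvd_index_of_le Subgroup.le_normalizer))
    have hVS := Cfsg.Agent.S1443.result p (ne_two hG hpG) (S : Subgroup G) A V S.isPGroup' hS hA hVN hVp
      fun x hx hxo v hv => Subgroup.mem_centralizer_singleton_iff.2 (Subgroup.mem_centralizer_iff.1
        (hNS (hVN hv)) x (hadj x hx.2 (hxo ▸ pow_orderOf_eq_one x))).symm
    have hS1 := sylow_eq_commutator hG S V hcompl
    rw [Subgroup.commutator_eq_bot_iff_le_centralizer.2 (Subgroup.le_centralizer_iff.1 hVS)] at hS1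
    exact hA1 (le_bot_iff.1 (hS.trans hS1.le))
  -- `A` acts nontrivially on `Q`
  have hAQn : A ≤ Subgroup.normalizer ((Q : Subgroup G) : Set G) := hAM.trans hNQ.ge
  have hcopQ : (Nat.card A).Coprime (Nat.card (Q : Subgroup G)) := by
    obtain ⟨k, hk⟩ := Q.isPGroup'.exists_card_eq
    rw [hAc, hk]
    exact Nat.Coprime.pow 2 k ((Nat.coprime_primes hp.out hl).2 hlp.symm)
  obtain ⟨W, hWdef, hNW⟩ := exists_omega_center (q := l) (Q : Subgroup G)
  have hMW : M ≤ Subgroup.normalizer (W : Set G) := hNQ.ge.trans hNW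
  have hWQ : W ≤ (Q : Subgroup G) := fun x hx => ((hWdef x).1 hx).1
  have hWl : IsPGroup l W := Q.isPGroup'.to_le hWQ
  have hWne : W ≠ ⊥ := by
    obtain ⟨w, hwQ, hwo, hwc⟩ := exists_elem_pow Q.isPGroup' hQ1
    intro h
    have : w ∈ W := (hWdef w).2 ⟨hwQ, Subgroup.mem_centralizer_iff.2 hwc, hwo ▸ pow_orderOf_eq_one w⟩
    rw [h, Subgroup.mem_bot] at this
    exact hl.one_lt.ne (by rw [← hwo, this, orderOf_one])
  obtain ⟨a, ha, ha1, K, hKQ, hK1, hKA, hAK, hKa, hCK⟩ : ∃ a ∈ A, a ≠ 1 ∧ ∃ K : Subgroup G,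
      K ≤ (Q : Subgroup G) ∧ K ≠ ⊥ ∧ ⁅K, A⁆ = K ∧ A ≤ Subgroup.normalizer (K : Set G) ∧
      K ≤ Subgroup.centralizer ({a} : Set G) ∧ Subgroup.centralizer (K : Set G) ≤ M := by
    by_cases hWA : W ≤ Subgroup.centralizer (A : Set G)
    · have hfix : ∀ E : Subgroup G, Cfsg.IsElementaryAbelian l E → E ≤ (Q : Subgroup G) → l ^ 2 ≤ Nat.card E →
          ∀ B : Subgroup G, B ≤ A → B ≤ Subgroup.centralizer (E : Set G) →
            B ≤ Subgroup.centralizer ((Q : Subgroup G) : Set G) := by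
        intro E hE hEQ hEc B hBA hBE
        refine Cfsg.Agent.S1443.result l hl2 (Q : Subgroup G) E B Q.isPGroup' hEQ hE (hBA.trans hAQn) ?_
          fun x hx hxo b hb => ?_
        · obtain ⟨k, hk⟩ := ((isPGroup_of_elementary hA).to_le hBA).exists_card_eq
          rw [hk]
          exact ((Nat.coprime_primes hp.out hl).2 hlp.symm).pow_left k
        · have hxE := eq_of_mem_pgroup_of_card hQr hE hEQ hEc hx.1 hx.2 (hxo ▸ pow_orderOf_eq_one x)
          exact Subgroup.mem_centralizer_singleton_iff.2 (Subgroup.mem_centralizer_iff.1 (hBE hb) x hxE).symm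
      have hWel : Cfsg.IsElementaryAbelian l W :=
        ⟨⟨⟨fun x y => Subtype.ext (Subgroup.mem_centralizer_iff.1 ((hWdef y).1 y.2).2.1 x (hWQ x.2))⟩⟩,
          fun x hx => ((hWdef x).1 hx).2.2⟩
      have hWc : Nat.card W = l := by
        obtain ⟨n, hn⟩ := hWl.exists_card_eq
        rcases Nat.lt_or_ge n 2 with h | h
        · interval_cases n
          · exact absurd (Subgroup.card_eq_one.1 (by rw [hn, pow_zero])) hWne
          · rw [hn, pow_one]
        · exact absurd (hfix W hWel hWQ (hn ▸ Nat.pow_le_pow_right hl.pos h) A le_rfl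
            (Subgroup.le_centralizer_iff.1 hWA)) hAQ
      obtain ⟨a, ha, ha1, hax⟩ : ∃ a ∈ A, a ≠ 1 ∧
          ¬ (Q : Subgroup G) ⊓ Subgroup.centralizer ({a} : Set G) ≤ Subgroup.centralizer (A : Set G) := by
        by_contra hno
        push Not at hno
        exact hAQ (Subgroup.le_centralizer_iff.1 (CoprimeAction.le_of_centralizers_le hAne hAQn hcopQ hno))
      have hWa : W ≤ (Q : Subgroup G) ⊓ Subgroup.centralizer ({a} : Set G) :=
        le_inf hWQ fun w hw => le_centralizer_singleton_of (hWA hw) ha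
      have hnc : ¬ IsCyclic ↥((Q : Subgroup G) ⊓ Subgroup.centralizer ({a} : Set G)) := fun hc => hax (by
        rw [Subgroup.le_centralizer_iff]
        refine CoprimeAction.le_centralizer_of_fixes_prime_order (le_normalizer_inf_centralizer_elem hA hAQn ha)
          (hcopQ.coprime_dvd_right (Subgroup.card_dvd_of_le inf_le_left)) fun v hv hvo b hb => ?_
        have hvl : orderOf v = l := by
          obtain ⟨n, hn⟩ := IsPGroup.iff_orderOf.1 Q.isPGroup' ⟨v, hv.1⟩
          rw [Subgroup.orderOf_mk] at hn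
          exact (Nat.prime_dvd_prime_iff_eq hvo hl).1 (hvo.dvd_of_dvd_pow (dvd_of_eq hn))
        have he : Subgroup.zpowers v = W := Chev.Ree.GL0.eq_of_card_eq
          (A := (Q : Subgroup G) ⊓ Subgroup.centralizer ({a} : Set G)) (Subgroup.zpowers_le.2 hv) hWa
          (by rw [Nat.card_zpowers, hvl, hWc])
        exact Subgroup.mem_centralizer_iff.1 (hWA (he ▸ Subgroup.mem_zpowers v)) b hb)
      obtain ⟨E, hEQ, hE, hEc⟩ := exists_elem_sq hl2 (Q.isPGroup'.to_le inf_le_left) hnc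
      have haQ : Subgroup.zpowers a ≤ Subgroup.centralizer ((Q : Subgroup G) : Set G) :=
        hfix E hE (hEQ.trans inf_le_left) hEc.ge _ (Subgroup.zpowers_le.2 ha) (Subgroup.zpowers_le.2
          (Subgroup.mem_centralizer_iff.2 fun e he => Subgroup.mem_centralizer_singleton_iff.1 (hEQ he).2))
      refine ⟨a, ha, ha1, ⁅(Q : Subgroup G), A⁆, CoprimeAction.commutator_le_of_normalizer hAQn,
        fun h => hAQ (Subgroup.le_centralizer_iff.1 (Subgroup.commutator_eq_bot_iff_le_centralizer.1 h)),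
        CoprimeAction.commutator_commutator_eq hAQn hcopQ (Or.inl (Group.isSolvable_of_comm mul_comm')),
        CoprimeAction.le_normalizer_commutator hAQn,
        fun x hx => Subgroup.mem_centralizer_singleton_iff.2 (Subgroup.mem_centralizer_iff.1
          (Subgroup.zpowers_le.1 haQ) x (CoprimeAction.commutator_le_of_normalizer hAQn hx)), ?_⟩
      set K := ⁅(Q : Subgroup G), A⁆ with hK
      have hKQ : K ≤ (Q : Subgroup G) := CoprimeAction.commutator_le_of_normalizer hAQn
      haveI : (K.subgroupOf (Q : Subgroup G)).Normal :=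
        Subgroup.normal_subgroupOf_of_le_normalizer CoprimeAction.self_le_normalizer_commutator
      have hne' : K.subgroupOf (Q : Subgroup G) ≠ ⊥ := fun h => by
        have : K = ⊥ := by rw [← Subgroup.map_subgroupOf_eq_of_le hKQ, h, Subgroup.map_bot]
        exact hAQ (Subgroup.le_centralizer_iff.1 (Subgroup.commutator_eq_bot_iff_le_centralizer.1 this))
      obtain ⟨z, hz, hz1⟩ := (Subgroup.bot_or_exists_ne_one _).resolve_left
        (PReduced.inf_center_ne_bot Q.isPGroup' hne')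
      obtain ⟨n, hn⟩ := IsPGroup.iff_orderOf.1 Q.isPGroup' z
      rcases n with _ | n
      · exact absurd (orderOf_eq_one_iff.1 (by rw [hn, pow_zero])) hz1
      have hwo : orderOf (z ^ l ^ n) = l := by
        rw [orderOf_pow' _ (pow_ne_zero n hl.ne_zero), hn, Nat.gcd_eq_right (pow_dvd_pow l n.le_succ),
          pow_succ, Nat.mul_div_cancel_left _ (pow_pos hl.pos n)]
      set w : G := ((z ^ l ^ n : (Q : Subgroup G)) : G) with hw
      have hwl : orderOf w = l := by rw [hw, Subgroup.orderOf_coe, hwo]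
      have hwK : w ∈ K := Subgroup.mem_subgroupOf.1 ((Subgroup.pow_mem _ hz.1 _) : z ^ l ^ n ∈ K.subgroupOf _)
      have hwW : w ∈ W := (hWdef w).2 ⟨(z ^ l ^ n).2, Subgroup.mem_centralizer_iff.2 fun t ht =>
        congrArg Subtype.val (Subgroup.mem_center_iff.1 (Subgroup.pow_mem _ hz.2 _) ⟨t, ht⟩),
        hwl ▸ pow_orderOf_eq_one w⟩
      have hWw : Subgroup.zpowers w = W := Subgroup.eq_of_le_of_card_ge (Subgroup.zpowers_le.2 hwW)
        (by rw [Nat.card_zpowers, hwl, hWc])
      refine (Subgroup.centralizer_le (Subgroup.zpowers_le.2 hwK)).trans ?_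
      rw [hWw]
      exact (Subgroup.centralizer_le_normalizer _).trans
        ((hM.le_iff.1 hMW).resolve_left (normalizer_ne_top hG hWne (pgroup_ne_top hG hWl))).le
    · obtain ⟨a, ha, ha1, hax⟩ : ∃ a ∈ A, a ≠ 1 ∧
          ¬ W ⊓ Subgroup.centralizer ({a} : Set G) ≤ Subgroup.centralizer (A : Set G) := by
        by_contra hno
        push Not at hno
        exact hWA (CoprimeAction.le_of_centralizers_le hAne (hAM.trans hMW)
          (hcopQ.coprime_dvd_right (Subgroup.card_dvd_of_le hWQ)) hno)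
      set W₀ := W ⊓ Subgroup.centralizer ({a} : Set G) with hW₀
      have hQmax : ∀ U : Subgroup G, IsPGroup l U → U ≤ ⁅M, M⁆ → U ≤ (Q : Subgroup G) := fun U hU hUd => by
        have h := Q.3 (hU.to_sup_of_normal_right' Q.isPGroup' ((hUd.trans hMdM).trans hNQ.ge)) le_sup_right
        exact le_sup_left.trans h.le
      have hMd := hMdC (Q : Subgroup G) Q.isPGroup' hQd hQmax W hWQ fun x hx => ((hWdef x).1 hx).2.1
      have hfixg : ∀ g ∈ M, ∀ b ∈ A, ∀ w ∈ W, ⁅w, g * b * g⁻¹⁆ = ⁅w, b⁆ := by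
        intro g hg b hb w hw
        have hm : g * b * g⁻¹ * b⁻¹ ∈ Subgroup.centralizer (W : Set G) := hMd (hconjA g hg b (hAM hb))
        have hw' : b * w⁻¹ * b⁻¹ ∈ W :=
          (Subgroup.mem_normalizer_iff.1 (hMW (hAM hb)) w⁻¹).1 (inv_mem hw)
        calc ⁅w, g * b * g⁻¹⁆ = w * ((g * b * g⁻¹ * b⁻¹) * (b * w⁻¹ * b⁻¹)) * (g * b * g⁻¹ * b⁻¹)⁻¹ := by
              rw [commutatorElement_def]; group
          _ = w * ((b * w⁻¹ * b⁻¹) * (g * b * g⁻¹ * b⁻¹)) * (g * b * g⁻¹ * b⁻¹)⁻¹ := by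
              rw [Subgroup.mem_centralizer_iff.1 hm _ hw']
          _ = ⁅w, b⁆ := by rw [commutatorElement_def]; group
      have hMW₀ : M ≤ Subgroup.normalizer (W₀ : Set G) := fun g hg => by
        refine mem_normalizer_of_map_le ?_
        rintro _ ⟨w, ⟨hwW, hwa⟩, rfl⟩
        have hgw : g * w * g⁻¹ ∈ W := (Subgroup.mem_normalizer_iff.1 (hMW hg) w).1 hwW
        refine ⟨hgw, Subgroup.mem_centralizer_singleton_iff.2 (commutatorElement_eq_one_iff_mul_comm.1 ?_)⟩
        have h := hfixg g hg a ha _ hgw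
        show ⁅g * w * g⁻¹, a⁆ = 1
        rw [← h, show ⁅g * w * g⁻¹, g * a * g⁻¹⁆ = g * ⁅w, a⁆ * g⁻¹ by
            rw [commutatorElement_def, commutatorElement_def]; group,
          commutatorElement_eq_one_iff_mul_comm.2 (Subgroup.mem_centralizer_singleton_iff.1 hwa), mul_one,
          mul_inv_cancel]
      have hW₀Q : W₀ ≤ (Q : Subgroup G) := inf_le_left.trans hWQ
      have hAW₀ := hAM.trans hMW₀
      have hcop0 := hcopQ.coprime_dvd_right (Subgroup.card_dvd_of_le hW₀Q)
      have hle : ⁅W₀, A⁆ ≤ W₀ := CoprimeAction.commutator_le_of_normalizer hAW₀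
      have hK1 : ⁅W₀, A⁆ ≠ ⊥ := fun h => hax (Subgroup.commutator_eq_bot_iff_le_centralizer.1 h)
      refine ⟨a, ha, ha1, ⁅W₀, A⁆, hle.trans hW₀Q, hK1,
        CoprimeAction.commutator_commutator_eq hAW₀ hcop0 (Or.inl (Group.isSolvable_of_comm mul_comm')),
        CoprimeAction.le_normalizer_commutator hAW₀, hle.trans inf_le_right, ?_⟩
      have hMK : M ≤ Subgroup.normalizer ((⁅W₀, A⁆ : Subgroup G) : Set G) := fun g hg => by
        refine mem_normalizer_of_map_le ?_
        rw [Subgroup.map_commutator, Subgroup.commutator_le]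
        rintro _ ⟨w, hw, rfl⟩ _ ⟨b, hb, rfl⟩
        have hgw : g * w * g⁻¹ ∈ W₀ := (Subgroup.mem_normalizer_iff.1 (hMW₀ hg) w).1 hw
        show ⁅g * w * g⁻¹, g * b * g⁻¹⁆ ∈ ⁅W₀, A⁆
        rw [hfixg g hg b hb _ hgw.1]
        exact Subgroup.commutator_mem_commutator hgw hb
      exact (Subgroup.centralizer_le_normalizer _).trans ((hM.le_iff.1 hMK).resolve_left
        (normalizer_ne_top hG hK1 (pgroup_ne_top hG (hWl.to_le (hle.trans inf_le_left))))).le
  obtain ⟨H, hH, hne, hNH⟩ := exists_other_max hG hM hA hnu ha ha1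
  have hCa : Subgroup.centralizer ({a} : Set G) ≤ H :=
    (centralizer_zpowers a).ge.trans ((Subgroup.centralizer_le_normalizer _).trans hNH)
  have hKH : K ≤ H := hKa.trans hCa
  have hKp : IsPGroup l K := Q.isPGroup'.to_le hKQ
  have hqs : l ∉ Cfsg.sigma H := fun h => by
    obtain ⟨Q', -, hQ'H, hNQ'⟩ := exists_sylow h (IsPGroup.of_bot (p := l) (G := G)) bot_le
    obtain ⟨g, hg⟩ := MulAction.exists_smul_eq G Q Q'
    have hMg : M.map (MulAut.conj g).toMonoidHom ≤ H := by
      rw [← hNQ]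
      refine (Subgroup.le_normalizer_map _).trans (le_trans (le_of_eq ?_) hNQ')
      rw [show (Q : Subgroup G).map (MulAut.conj g).toMonoidHom = (Q' : Subgroup G) from congrArg Sylow.toSubgroup hg]
    have heq : M.map (MulAut.conj g).toMonoidHom = H := eq_of_coatom_le hH (isCoatom_map _ hM) hMg
    have hgM : g⁻¹ ∈ M := mem_of_conj_mem hG hM hls hKp hK1 (hKQ.trans hQM) hCK (by
      have h := (Subgroup.map_mono hKH : K.map (MulAut.conj g⁻¹).toMonoidHom ≤ _)
      rwa [← heq, map_conj_map, inv_mul_cancel, map_conj_one] at h)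
    exact hne (heq ▸ map_eq_of_mem_normalizer (inv_mem_iff.1 hgM))
  obtain ⟨-, hHα⟩ := alphaCore_eq_bot_of_other hG hM hA hAc hH hne ha ha1 hCa hlp hKp hK1 hKA hKa hAK hCK hqs
  obtain ⟨r, hr, hrs, hrmax, R, hRH, hR1, -, hRC⟩ := exists_top_centralizing hG hH hHα hqs
  haveI := Fact.mk hr
  have hAH : A ≤ H := fun b hb => hCa (Subgroup.mem_centralizer_singleton_iff.2
    (NormalEl.commute_of_elementary hA hb ha))
  have hRM := (hRC K hKp (hKA.ge.trans (Subgroup.commutator_mono hKH hAH))).trans hCK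
  have h1 := hlmax r hr ((dvd_card_of_ne_bot R.isPGroup' hR1).trans (Subgroup.card_dvd_of_le hRM))
  have h2 := hrmax l hl ((dvd_card_of_ne_bot hKp hK1).trans (Subgroup.card_dvd_of_le hKH))
  exact hqs (le_antisymm h2 h1 ▸ hrs)

/-- B&G 12.4(b). -/
theorem sigma_alpha_nilpotent :
    p ∈ Cfsg.sigma M ∧ Cfsg.alphaCore M = ⊥ ∧ Group.IsNilpotent (Cfsg.sigmaCore M) := by
  have hα := alphaCore_eq_bot hG hM hAM hA hAc hnu
  haveI := isNilpotent_derived hG hM hα
  refine ⟨mem_sigma_of_no_unique_line hG hM hAM hA hAc hnu, hα, ?_⟩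
  have hle : Cfsg.sigmaCore M ≤ ⁅M, M⁆ := by
    rw [← Subgroup.map_subtype_commutator]
    exact Subgroup.map_mono (piCore_le_commutator hG hM (subset_refl (Cfsg.sigma M)))
  exact Group.nilpotent_of_surjective (Subgroup.subgroupOfEquivOfLe hle).toMonoidHom
    (Subgroup.subgroupOfEquivOfLe hle).surjective

/-- B&G 12.4(a) when no line is unique. -/
theorem centralizer_le_of_no_unique_line : Subgroup.centralizer (A : Set G) ≤ M := by
  obtain ⟨hs, hα, hnil⟩ := sigma_alpha_nilpotent hG hM hAM hA hAc hnu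
  haveI := hnil
  have hA1 : A ≠ ⊥ := fun h => by
    rw [h, Subgroup.card_bot] at hAc
    exact (Nat.one_lt_pow two_ne_zero hp.out.one_lt).ne hAc
  obtain ⟨P, hAP, hPM, -⟩ := exists_sylow hs (isPGroup_of_elementary hA) hAM
  have hPσ : (P : Subgroup G) ≤ Cfsg.sigmaCore M := le_sigmaCore hG hM hs P.isPGroup' hPM
  have hiff := (Group.isNilpotent_of_finite_tfae (G := ↥(Cfsg.sigmaCore M))).out 0 3
  haveI hPn : ((P.subtype hPσ : Sylow p ↥(Cfsg.sigmaCore M)) : Subgroup ↥(Cfsg.sigmaCore M)).Normal :=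
    hiff.1 hnil p inferInstance _
  haveI := Sylow.characteristic_of_normal (P.subtype hPσ) hPn
  have hMP : M ≤ Subgroup.normalizer ((P : Subgroup G) : Set G) := by
    refine (le_normalizer_sigmaCore M).trans ?_
    have h := le_normalizer_map_subtype_of_char
      ((P.subtype hPσ : Sylow p ↥(Cfsg.sigmaCore M)) : Subgroup ↥(Cfsg.sigmaCore M))
    rwa [Sylow.coe_subtype, Subgroup.map_subgroupOf_eq_of_le hPσ] at h
  have hPr : Cfsg.PRankLE p 2 ↥(P : Subgroup G) := by
    by_contra h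
    obtain ⟨E, hEP, hE, hEc⟩ := exists_elem_of_not_prank h
    exact not_mem_alpha hG hM hA hnu hAM hAc ⟨hp.out, not_prank_of_elem (hEP.trans hPM) hE (pow_lt_card hEc)⟩
  obtain ⟨W, hWdef, hNW⟩ := exists_omega_center (q := p) (P : Subgroup G)
  have hWA : W ≤ A := fun w hw => eq_of_mem_pgroup_of_card hPr hA hAP hAc.ge ((hWdef w).1 hw).1
    (Subgroup.centralizer_le hAP ((hWdef w).1 hw).2.1) ((hWdef w).1 hw).2.2
  have hW1 : W ≠ ⊥ := by
    obtain ⟨w, hwP, hwo, hwc⟩ := exists_elem_pow P.isPGroup' fun h => hA1 (le_bot_iff.1 (hAP.trans h.le))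
    intro h
    have : w ∈ W := (hWdef w).2 ⟨hwP, Subgroup.mem_centralizer_iff.2 hwc, hwo ▸ pow_orderOf_eq_one w⟩
    rw [h, Subgroup.mem_bot] at this
    exact hp.out.one_lt.ne (by rw [← hwo, this, orderOf_one])
  have hNWM : Subgroup.normalizer (W : Set G) = M := (hM.le_iff.1 (hMP.trans hNW)).resolve_left
    (normalizer_ne_top hG hW1 (pgroup_ne_top hG ((isPGroup_of_elementary hA).to_le hWA)))
  obtain ⟨n, hn⟩ := ((isPGroup_of_elementary hA).to_le hWA).exists_card_eq
  have hd : p ^ n ∣ p ^ 2 := hn ▸ hAc ▸ Subgroup.card_dvd_of_le hWA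
  have hn2 : n ≤ 2 := (Nat.pow_dvd_pow_iff_le_right hp.out.one_lt).1 hd
  interval_cases n
  · exact absurd (Subgroup.card_eq_one.1 (by rw [hn, pow_zero])) hW1
  · exact absurd ⟨hNWM.le, fun L hL hle => (eq_of_coatom_le hL hM (hNWM ▸ hle)).symm⟩
      (hnu W hWA (by rw [hn, pow_one]))
  · rw [← Subgroup.eq_of_le_of_card_ge hWA (by rw [hn, hAc])]
    exact (Subgroup.centralizer_le_normalizer _).trans hNWM.le

end main

end CfsgLib.SigmaGroups
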