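import Cfsg.Agent.Sigma.Beta

/-!
Uniqueness and fusion facts attached to the primes in `σ`, `α` and `β` of a maximal subgroup.
-/

set_option autoImplicit false
set_option linter.unusedSectionVars false
set_option linter.style.haveILetI false

namespace CfsgLib.SigmaGroups

open CfsgLib.BenderUnique CfsgLib.Uniq
open scoped commutatorElement

universe u

variable {G : Type u} [Group G] [Finite G] {p : ℕ} [hp : Fact p.Prime]

theorem elementary_map_conj {B : Subgroup G} (hB : Cfsg.IsElementaryAbelian p B) (g : G) :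
    Cfsg.IsElementaryAbelian p (B.map (MulAut.conj g).toMonoidHom) := by
  haveI := hB.1
  refine ⟨inferInstance, ?_⟩
  rintro _ ⟨b, hb, rfl⟩
  rw [← map_pow, hB.2 b hb, map_one]

theorem sigma_of_normalizer_le {H : Subgroup G} (P : Sylow p G) (h1 : (P : Subgroup G) ≠ ⊥)
    (hN : Subgroup.normalizer ((P : Subgroup G) : Set G) ≤ H) : p ∈ Cfsg.sigma H := by
  have hPH : (P : Subgroup G) ≤ H := Subgroup.le_normalizer.trans hN
  refine ⟨hp.out, (dvd_card_of_ne_bot P.isPGroup' h1).trans (Subgroup.card_dvd_of_le hPH), P.subtype hPH, ?_⟩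
  rwa [Sylow.coe_subtype, Subgroup.map_subgroupOf_eq_of_le hPH]

theorem mem_alpha_of_elementary {L B : Subgroup G} (hs : p ∈ Cfsg.sigma L)
    (hB : Cfsg.IsElementaryAbelian p B) (hBc : Nat.card B = p ^ 3) : p ∈ Cfsg.alpha L := by
  obtain ⟨P, -, hPL, -⟩ := exists_sylow hs (IsPGroup.of_bot (p := p) (G := G)) bot_le
  obtain ⟨P', hP'⟩ := IsPGroup.exists_le_sylow (isPGroup_of_elementary hB)
  obtain ⟨g, hg⟩ := MulAction.exists_smul_eq G P' P
  refine ⟨hp.out, not_prank_of_elem (le_trans ?_ hPL) (elementary_map_conj hB g)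
    (pow_lt_card ((card_map_conj B g).trans hBc))⟩
  exact (Subgroup.map_mono hP').trans (le_of_eq (congrArg Sylow.toSubgroup hg))

theorem exists_conj_eq_of_alpha (hG : Cfsg.IsMinSimpleOddOrder G) {M L : Subgroup G} (hM : IsCoatom M)
    (hL : IsCoatom L) (ha : p ∈ Cfsg.alpha M) (haL : p ∈ Cfsg.alpha L) :
    ∃ g : G, L = M.map (MulAut.conj g).toMonoidHom := by
  obtain ⟨B, hBM, hB, hBc⟩ := exists_elem_of_not_prank ha.2
  obtain ⟨P, hBP, hPM, -⟩ := exists_sylow (mem_sigma_of_alpha hG hM ha) (isPGroup_of_elementary hB) hBM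
  obtain ⟨P', -, hPL, -⟩ := exists_sylow (mem_sigma_of_alpha hG hL haL) (IsPGroup.of_bot (p := p) (G := G)) bot_le
  obtain ⟨g, hg⟩ := MulAction.exists_smul_eq G P P'
  have hU := unique_conj (unique_mono (allUnique hG B hB hBc) hBP (pgroup_ne_top hG P.isPGroup')) g
  have hPg : (P : Subgroup G).map (MulAut.conj g).toMonoidHom ≤ L :=
    (le_of_eq (congrArg Sylow.toSubgroup hg)).trans hPL
  exact ⟨g, eq_of_unique hU (isCoatom_map _ hM) (Subgroup.map_mono hPM) hL hPg⟩

theorem mem_of_conj_mem (hG : Cfsg.IsMinSimpleOddOrder G) {H : Subgroup G} (hH : IsCoatom H)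
    (hs : p ∈ Cfsg.sigma H) {X : Subgroup G} (hX : IsPGroup p X) (hX1 : X ≠ ⊥) (hXH : X ≤ H)
    (hC : Subgroup.centralizer (X : Set G) ≤ H) {g : G} (hg : X.map (MulAut.conj g).toMonoidHom ≤ H) :
    g ∈ H := by
  obtain ⟨m, hm, c, hc, rfl⟩ := (sigma_group_trans hG hH hs hX hX1 hXH).2 g hg
  exact H.mul_mem hm (hC hc)

theorem mem_of_conj_mem_of_elem (hG : Cfsg.IsMinSimpleOddOrder G) {H : Subgroup G} (hH : IsCoatom H)
    (hs : p ∈ Cfsg.sigma H) {z : G} (hzo : orderOf z = p) (hzH : z ∈ H)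
    (hC : Subgroup.centralizer ({z} : Set G) ≤ H) {g : G} (hg : g * z * g⁻¹ ∈ H) : g ∈ H := by
  refine mem_of_conj_mem hG hH hs (X := Subgroup.zpowers z)
    (IsPGroup.of_card (n := 1) (by rw [Nat.card_zpowers, hzo, pow_one]))
    (fun h => hp.out.one_lt.ne (by rw [← hzo, Subgroup.zpowers_eq_bot.1 h, orderOf_one]))
    (Subgroup.zpowers_le.2 hzH) (by rwa [Subgroup.zpowers_eq_closure, Subgroup.centralizer_closure]) ?_
  rw [MonoidHom.map_zpowers]
  exact Subgroup.zpowers_le.2 hg

theorem map_eq_of_mem_normalizer {g : G} {M : Subgroup G} (hg : g ∈ M) :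
    M.map (MulAut.conj g).toMonoidHom = M :=
  Subgroup.mem_normalizer_iff_map_conj_eq.1 (Subgroup.le_normalizer hg)

/-- The centralizer of an element of order `p` for an ideal prime. -/
theorem unique_centralizer_of_beta (hG : Cfsg.IsMinSimpleOddOrder G) {M : Subgroup G} (hM : IsCoatom M)
    (hb : p ∈ Cfsg.beta M) {w : G} (hw : w ∈ M) (hwo : orderOf w = p) :
    Cfsg.InUniqueMaximal (Subgroup.centralizer ({w} : Set G)) ∧ Subgroup.centralizer ({w} : Set G) ≤ M := by
  have hwp : w ^ p = 1 := hwo ▸ pow_orderOf_eq_one w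
  have hw1 : w ≠ 1 := fun h => hp.out.one_lt.ne (by rw [← hwo, h, orderOf_one])
  obtain ⟨P, hwP, hPM, -⟩ := exists_sylow (mem_sigma_of_alpha hG hM hb.1) (X := Subgroup.zpowers w)
    (IsPGroup.of_card (n := 1) (by rw [Nat.card_zpowers, hwo, pow_one])) (Subgroup.zpowers_le.2 hw)
  obtain ⟨B₀, hB₀M, hB₀, hB₀c⟩ := exists_elem_of_not_prank hb.1.2
  haveI : Nontrivial (P : Subgroup G) :=
    (Subgroup.nontrivial_iff_ne_bot _).2 fun h => hw1 (Subgroup.mem_bot.1 (h ▸ hwP (Subgroup.mem_zpowers w)))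
  haveI := P.isPGroup'.center_nontrivial
  obtain ⟨n, hn, hc⟩ := (P.isPGroup'.to_subgroup (Subgroup.center ↥(P : Subgroup G))).nontrivial_iff_card.1 inferInstance
  obtain ⟨z, hz⟩ := exists_prime_orderOf_dvd_card' p (hc ▸ dvd_pow_self p hn.ne' : p ∣ Nat.card (Subgroup.center ↥(P : Subgroup G)))
  set y : G := ((z : (P : Subgroup G)) : G) with hy
  have hyo : orderOf y = p := by rw [hy, Subgroup.orderOf_coe, Subgroup.orderOf_coe, hz]
  have hyc : ∀ t ∈ (P : Subgroup G), t * y = y * t := fun t ht =>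
    congrArg Subtype.val (Subgroup.mem_center_iff.1 z.2 ⟨t, ht⟩)
  obtain ⟨B, hBP, hB, hBc, hBw⟩ : ∃ B : Subgroup G, B ≤ (P : Subgroup G) ∧ Cfsg.IsElementaryAbelian p B ∧
      p ^ 2 < Nat.card B ∧ B ≤ Subgroup.centralizer ({w} : Set G) := by
    by_cases hwy : w ∈ Subgroup.zpowers y
    · obtain ⟨P', hP'⟩ := IsPGroup.exists_le_sylow (isPGroup_of_elementary hB₀)
      obtain ⟨g, hg⟩ := MulAction.exists_smul_eq G P' P
      have hle : B₀.map (MulAut.conj g).toMonoidHom ≤ (P : Subgroup G) :=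
        (Subgroup.map_mono hP').trans (le_of_eq (congrArg Sylow.toSubgroup hg))
      refine ⟨_, hle, elementary_map_conj hB₀ g, pow_lt_card ((card_map_conj B₀ g).trans hB₀c),
        fun t ht => ?_⟩
      obtain ⟨i, rfl⟩ := Subgroup.mem_zpowers_iff.1 hwy
      exact Subgroup.mem_centralizer_singleton_iff.2 (Commute.zpow_right (hyc t (hle ht)) i).eq
    · have hyP : y ∈ (P : Subgroup G) := (z : (P : Subgroup G)).2
      have hE := NormalEl.elementary_sup (elementary_zpowers hwp)
        (elementary_zpowers (p := p) (w := y) (hyo ▸ pow_orderOf_eq_one y)) fun a ha b hb' => by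
          obtain ⟨i, rfl⟩ := Subgroup.mem_zpowers_iff.1 hb'
          exact (Commute.zpow_right (hyc a (hwP ha)) i).eq
      set E := Subgroup.zpowers w ⊔ Subgroup.zpowers y with hEdef
      have hEP : E ≤ (P : Subgroup G) := sup_le hwP (Subgroup.zpowers_le.2 hyP)
      have hgt : p < Nat.card E := by
        have hlt : Subgroup.zpowers y < E := lt_of_le_of_ne le_sup_right fun h =>
          hwy (h.ge (Subgroup.mem_sup_left (Subgroup.mem_zpowers w)))
        have := card_lt_of_lt hlt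
        rwa [Nat.card_zpowers, hyo] at this
      obtain ⟨k, hk⟩ := (isPGroup_of_elementary hE).exists_card_eq
      have hk2 : 2 ≤ k := by
        rw [hk] at hgt
        exact (Nat.pow_lt_pow_iff_right hp.out.one_lt).1 (by rwa [pow_one])
      rcases hk2.eq_or_lt with h | h
      · obtain ⟨B, hBP, hB, hEB⟩ := hb.2.2.2 P E hEP hE (by rw [hk, ← h])
        refine ⟨B, hBP, hB, ?_, fun t ht => Subgroup.mem_centralizer_singleton_iff.2
          (NormalEl.commute_of_elementary hB ht (hEB.le (Subgroup.mem_sup_left (Subgroup.mem_zpowers w))))⟩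
        calc p ^ 2 = Nat.card E := by rw [hk, ← h]
          _ < Nat.card B := card_lt_of_lt hEB
      · exact ⟨E, hEP, hE, hk ▸ Nat.pow_lt_pow_right hp.out.one_lt h, fun t ht =>
          Subgroup.mem_centralizer_singleton_iff.2
            (NormalEl.commute_of_elementary hE ht (Subgroup.mem_sup_left (Subgroup.mem_zpowers w)))⟩
  have hBU : Cfsg.InUniqueMaximal B :=
    unique_of_prank (allUnique hG) (pgroup_ne_top hG (isPGroup_of_elementary hB)) (not_prank_of_elem le_rfl hB hBc)
  have htop := centralizer_singleton_ne_top hG hw1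
  exact ⟨unique_mono hBU hBw htop, le_of_unique hBU hM (hBP.trans hPM) htop hBw⟩

theorem centralizer_le_of_beta (hG : Cfsg.IsMinSimpleOddOrder G) {M : Subgroup G} (hM : IsCoatom M)
    (hb : p ∈ Cfsg.beta M) {R : Subgroup G} (hR : IsPGroup p R) (hRM : R ≤ M) {z : G} (hz : z ∈ R) (hz1 : z ≠ 1) :
    Subgroup.centralizer ({z} : Set G) ≤ M := by
  obtain ⟨n, hn⟩ := IsPGroup.iff_orderOf.1 hR ⟨z, hz⟩
  rw [Subgroup.orderOf_mk] at hn
  rcases n with _ | n
  · exact absurd (orderOf_eq_one_iff.1 (by rw [hn, pow_zero])) hz1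
  have hwo : orderOf (z ^ p ^ n) = p := by
    rw [orderOf_pow' _ (pow_ne_zero n hp.out.ne_zero), hn, Nat.gcd_eq_right (pow_dvd_pow p n.le_succ),
      pow_succ, Nat.mul_div_cancel_left _ (pow_pos hp.out.pos n)]
  refine fun t ht => (unique_centralizer_of_beta hG hM hb (M.pow_mem (hRM hz) _) hwo).2
    (Subgroup.mem_centralizer_singleton_iff.2 ?_)
  exact (Commute.pow_right (Subgroup.mem_centralizer_singleton_iff.1 ht) _).eq

theorem isCyclic_of_ideal (hG : Cfsg.IsMinSimpleOddOrder G) {L : Subgroup G} (hL : IsCoatom L)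
    (hi : Cfsg.IsIdealPrime p G) (hs : p ∉ Cfsg.sigma L) {D : Subgroup G} (hD : IsPGroup p D) (hDL : D ≤ L) :
    IsCyclic D := by
  by_contra hc
  have hd : p ∣ Nat.card G :=
    (dvd_card_of_ne_bot hD fun h => hc (by rw [h]; exact isCyclic_of_subsingleton)).trans
      (Subgroup.card_subgroup_dvd_card D)
  obtain ⟨E, hED, hE, hEc⟩ := exists_elem_sq (ne_two hG hd) hD hc
  exact not_ideal hG hL hs (not_prank_of_elem (hED.trans hDL) hE (pow_lt_card hEc)) hi

/-- A `p'`-subgroup of `M'` normalizing a `p`-subgroup centralizes it when `p ∉ β(M)`. -/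
theorem le_centralizer_of_not_beta (hG : Cfsg.IsMinSimpleOddOrder G) {M : Subgroup G} (hM : IsCoatom M)
    (hs : p ∈ Cfsg.sigma M) (hb : p ∉ Cfsg.beta M) {R Y : Subgroup G} (hR : IsPGroup p R) (hRM : R ≤ M)
    (hY : Y ≤ ⁅M, M⁆) (hYp : (Nat.card Y).Coprime p) (hYR : Y ≤ Subgroup.normalizer (R : Set G)) :
    Y ≤ Subgroup.centralizer (R : Set G) := by
  haveI := PCore.pPrimeCore_characteristic p ↥(commutator M)
  set N : Subgroup M := (Cfsg.pPrimeCore p ↥(commutator M)).map (commutator M).subtype with hN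
  haveI : N.Normal := inferInstance
  set NG := N.map M.subtype with hNG
  have hYM : Y ≤ M := hY.trans (Subgroup.commutator_le_self M)
  have hY' : Y.subgroupOf M ≤ commutator M := by
    rw [← Subgroup.map_le_map_iff_of_injective M.subtype_injective, Subgroup.map_subgroupOf_eq_of_le hYM,
      Subgroup.map_subtype_commutator]
    exact hY
  have hYN : Y ≤ NG := by
    rw [← Subgroup.map_subgroupOf_eq_of_le hYM, ← Subgroup.map_subgroupOf_eq_of_le hY']
    refine Subgroup.map_mono (Subgroup.map_mono ((structure_of_not_beta hG hM hs.2.1 hb).2.2 _ ?_))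
    rwa [Nat.card_congr (Subgroup.subgroupOfEquivOfLe hY').toEquiv,
      Nat.card_congr (Subgroup.subgroupOfEquivOfLe hYM).toEquiv]
  have hNn : M ≤ Subgroup.normalizer (NG : Set G) := by
    rw [← Subgroup.normal_subgroupOf_iff_le_normalizer (Subgroup.map_subtype_le _), Subgroup.subgroupOf,
      Subgroup.comap_map_eq_self_of_injective M.subtype_injective]
    infer_instance
  have h1 : ⁅R, Y⁆ ≤ R ⊓ NG := le_inf (CoprimeAction.commutator_le_of_normalizer hYR) (by
    refine (Subgroup.commutator_mono hRM hYN).trans ?_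
    rw [Subgroup.commutator_comm]
    exact CoprimeAction.commutator_le_of_normalizer hNn)
  have h2 : R ⊓ NG = ⊥ := by
    refine CoprimeAction.inf_eq_bot_of_coprime ?_
    obtain ⟨n, hn⟩ := hR.exists_card_eq
    rw [hn, hNG, Subgroup.card_map_of_injective M.subtype_injective, hN,
      Subgroup.card_map_of_injective (commutator M).subtype_injective]
    exact ((PCore.coprime_of_not_dvd (PCore.not_dvd_card_pPrimeCore p _)).pow_right n).symm
  rw [h2, le_bot_iff, Subgroup.commutator_eq_bot_iff_le_centralizer] at h1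
  exact Subgroup.le_centralizer_iff.1 h1

theorem isNilpotent_derived (hG : Cfsg.IsMinSimpleOddOrder G) {M : Subgroup G} (hM : IsCoatom M)
    (hα : Cfsg.alphaCore M = ⊥) : Group.IsNilpotent ↥⁅M, M⁆ := by
  haveI := nilpotent_map_commutator hG hM
  rw [Cfsg.alphaCore, Subgroup.map_eq_bot_iff_of_injective _ M.subtype_injective] at hα
  have hinj : Function.Injective (QuotientGroup.mk' (Cfsg.piCore (Cfsg.alpha M) M)) := by
    rw [← MonoidHom.ker_eq_bot_iff, QuotientGroup.ker_mk', hα]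
  have e := ((Subgroup.equivMapOfInjective (commutator M) _ hinj).symm.trans
    (Subgroup.equivMapOfInjective (commutator M) _ M.subtype_injective)).trans
      (MulEquiv.subgroupCongr (Subgroup.map_subtype_commutator M))
  exact Group.nilpotent_of_surjective e.toMonoidHom e.surjective

theorem le_sigmaCore (hG : Cfsg.IsMinSimpleOddOrder G) {M : Subgroup G} (hM : IsCoatom M)
    (hs : p ∈ Cfsg.sigma M) {Y : Subgroup G} (hY : IsPGroup p Y) (hYM : Y ≤ M) : Y ≤ Cfsg.sigmaCore M := by
  intro y hy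
  refine ⟨⟨y, hYM hy⟩, ?_, rfl⟩
  have hnd := (sigmaCore_hallOf hG hM).2.2 p hp.out hs
  rw [Cfsg.sigmaCore, Subgroup.relIndex, Subgroup.subgroupOf,
    Subgroup.comap_map_eq_self_of_injective M.subtype_injective] at hnd
  obtain ⟨n, hn⟩ := IsPGroup.iff_orderOf.1 hY ⟨y, hy⟩
  rw [Subgroup.orderOf_mk] at hn
  refine OddFitting.mem_of_coprime_pow (H := Cfsg.piCore (Cfsg.sigma M) M)
    ((PCore.coprime_of_not_dvd hnd).pow_right n).symm (Subtype.ext ?_) (Subgroup.pow_index_mem _ _)
  rw [Subgroup.coe_pow, ← hn]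
  exact pow_orderOf_eq_one y

theorem le_normalizer_sigmaCore (M : Subgroup G) : M ≤ Subgroup.normalizer (Cfsg.sigmaCore M : Set G) := by
  unfold Cfsg.sigmaCore
  rw [← Subgroup.normal_subgroupOf_iff_le_normalizer (Subgroup.map_subtype_le _),
    Subgroup.subgroupOf, Subgroup.comap_map_eq_self_of_injective M.subtype_injective]
  infer_instance

theorem mem_sigma_of_dvd (M : Subgroup G) {q : ℕ} (hq : q.Prime) (h : q ∣ Nat.card ↥(Cfsg.sigmaCore M)) :
    q ∈ Cfsg.sigma M :=
  Hall.isPiSubgroup_piCore q hq (by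
    rwa [Cfsg.sigmaCore, Subgroup.card_map_of_injective M.subtype_injective] at h)

end CfsgLib.SigmaGroups
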