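import Cfsg.Agent.Sigma.BetaElement
import Cfsg.Agent.Sigma.FixedPoints
import Cfsg.Agent.S1398
import Cfsg.Agent.S1443
import Cfsg.Agent.CoprimeAction.Factorization

/-!
An elementary abelian subgroup `A` of order `p ^ 2` in a maximal subgroup `H` with `p ∉ σ(H)`: the `A`-invariant
`σ(H)'`-subgroups of `C_H(Y)`, for a line `Y` with `C_G(Y) ≤ H`, act trivially on the Sylow subgroups for `α(H)`
after taking commutators with `A`.
-/

set_option autoImplicit false
set_option linter.unusedSectionVars false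
set_option linter.style.haveILetI false

namespace CfsgLib.SigmaGroups

open CfsgLib.BenderUnique CfsgLib.Uniq
open scoped commutatorElement

universe u

variable {G : Type u} [Group G] [Finite G] {p : ℕ} [hp : Fact p.Prime] {H A : Subgroup G}

/-- No element of order `r ∈ β(H)` of `H` centralizes `A`. -/
theorem false_of_centralizer_elem (hG : Cfsg.IsMinSimpleOddOrder G) (hH : IsCoatom H) (hp' : p ∉ Cfsg.sigma H)
    (hAH : A ≤ H) (hA : Cfsg.IsElementaryAbelian p A) (hAc : Nat.card A = p ^ 2)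
    (hCA : Subgroup.centralizer (A : Set G) ≤ H) {r : ℕ} [Fact r.Prime] (hr : r ∈ Cfsg.alpha H)
    {z : G} (hzH : z ∈ H) (hzo : orderOf z = r) (hzA : z ∈ Subgroup.centralizer (A : Set G))
    (hCz : Subgroup.centralizer ({z} : Set G) ≤ H) : False := by
  have hrp : r ≠ p := fun e => hp' (e ▸ alpha_subset_sigma hG hH hr)
  have hrs := mem_sigma_of_alpha hG hH hr
  have hmax : ∀ B : Subgroup G, Cfsg.IsElementaryAbelian p B → A ≤ B → B = A := fun B hB hle =>
    eq_of_elementary_ge hG hH hp' hAH hA hAc hB hle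
  have hA1 : A ≠ ⊥ := fun h => by
    rw [h, Subgroup.card_bot] at hAc
    exact (Nat.one_lt_pow two_ne_zero hp.out.one_lt).ne hAc
  have hadj : ∀ x ∈ Subgroup.centralizer (A : Set G), x ^ p = 1 → x ∈ A := fun x hx hxp => by
    have h := hmax _ (NormalEl.elementary_sup hA (elementary_zpowers hxp) fun a ha b hb => by
      obtain ⟨i, rfl⟩ := Subgroup.mem_zpowers_iff.1 hb
      exact (Commute.zpow_right (Subgroup.mem_centralizer_iff.1 hx a ha) i).eq) le_sup_left
    exact h.le (Subgroup.mem_sup_right (Subgroup.mem_zpowers x))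
  obtain ⟨S, hS⟩ := IsPGroup.exists_le_sylow (isPGroup_of_elementary hA)
  have hS1 : (S : Subgroup G) ≠ ⊥ := fun h => hA1 (le_bot_iff.1 (h ▸ hS))
  set Z := A ⊓ Subgroup.centralizer ((S : Subgroup G) : Set G) with hZ
  have hNZ : Subgroup.normalizer ((S : Subgroup G) : Set G) ≤ Subgroup.normalizer (Z : Set G) := by
    intro g hg
    refine mem_normalizer_of_map_le ?_
    rintro _ ⟨x, ⟨hxA, hxS⟩, rfl⟩
    have h1 : g * x * g⁻¹ ∈ (S : Subgroup G) := (Subgroup.mem_normalizer_iff.1 hg x).1 (hS hxA)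
    have h2 : g * x * g⁻¹ ∈ Subgroup.centralizer ((S : Subgroup G) : Set G) :=
      (Subgroup.mem_normalizer_iff.1 (Components.normalizer_le_normalizer_centralizer _ hg) x).1 hxS
    exact ⟨hadj _ (Subgroup.centralizer_le hS h2) (by rw [← map_pow, hA.2 x hxA, map_one]), h2⟩
  have hZ1 : Z ≠ ⊥ := by
    haveI : Nontrivial (S : Subgroup G) := (Subgroup.nontrivial_iff_ne_bot _).2 hS1
    haveI := S.isPGroup'.center_nontrivial
    obtain ⟨n, hn, hc⟩ := (S.isPGroup'.to_subgroup (Subgroup.center ↥(S : Subgroup G))).nontrivial_iff_card.1 inferInstance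
    obtain ⟨y, hy⟩ := exists_prime_orderOf_dvd_card' p (hc ▸ dvd_pow_self p hn.ne' : p ∣ Nat.card (Subgroup.center ↥(S : Subgroup G)))
    set x : G := ((y : (S : Subgroup G)) : G) with hx
    have hxo : orderOf x = p := by rw [hx, Subgroup.orderOf_coe, Subgroup.orderOf_coe, hy]
    have hxC : x ∈ Subgroup.centralizer ((S : Subgroup G) : Set G) := Subgroup.mem_centralizer_iff.2 fun t ht =>
      congrArg Subtype.val (Subgroup.mem_center_iff.1 y.2 ⟨t, ht⟩)
    intro h
    have hxZ : x ∈ Z := ⟨hadj x (Subgroup.centralizer_le hS hxC) (hxo ▸ pow_orderOf_eq_one x), hxC⟩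
    rw [h, Subgroup.mem_bot] at hxZ
    exact hp.out.one_lt.ne (by rw [← hxo, hxZ, orderOf_one])
  have hZtop : Z ≠ ⊤ := fun h => pgroup_ne_top hG (isPGroup_of_elementary hA) (top_le_iff.1 (h ▸ inf_le_left))
  obtain ⟨L, hL, hNL⟩ := exists_coatom_ge (normalizer_ne_top hG hZ1 hZtop)
  have hsL : p ∈ Cfsg.sigma L := sigma_of_normalizer_le S hS1 (hNZ.trans hNL)
  have hCL : Subgroup.centralizer (A : Set G) ≤ L :=
    (Subgroup.centralizer_le (inf_le_left : Z ≤ A)).trans ((Subgroup.centralizer_le_normalizer _).trans hNL)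
  have hrL : r ∉ Cfsg.sigma L := by
    intro h
    obtain ⟨B, -, hB, hBc⟩ := exists_elem_of_not_prank hr.2
    obtain ⟨g, rfl⟩ := exists_conj_eq_of_alpha hG hH hL hr (mem_alpha_of_elementary h hB hBc)
    have hgH : g⁻¹ ∈ H := mem_of_conj_mem_of_elem hG hH hrs hzo hzH hCz (by
      obtain ⟨x, hx, hxe⟩ := hCL hzA
      rw [← hxe]
      simpa [mul_assoc] using hx)
    rw [map_eq_of_mem_normalizer (inv_mem_iff.1 hgH)] at hsL
    exact hp' hsL
  set K := Cfsg.sigmaCore L with hK
  have hAK : A ≤ K := le_sigmaCore hG hL hsL (isPGroup_of_elementary hA)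
    (hS.trans ((Subgroup.le_normalizer.trans hNZ).trans hNL))
  have hzK : Subgroup.zpowers z ≤ Subgroup.normalizer (K : Set G) :=
    Subgroup.zpowers_le.2 (le_normalizer_sigmaCore L (hCL hzA))
  have hcop : (Nat.card (Subgroup.zpowers z)).Coprime (Nat.card K) := by
    rw [Nat.card_zpowers, hzo]
    exact ((Fact.out : r.Prime).coprime_iff_not_dvd).2 fun h => hrL (mem_sigma_of_dvd L (Fact.out : r.Prime) h)
  obtain ⟨P, hAP, hzP⟩ := CoprimeAction.exists_invariant_sylow_ge (p := p) hzK hcop
    (Or.inl inferInstance) hAK (isPGroup_of_elementary hA)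
    (Subgroup.zpowers_le.2 (Subgroup.centralizer_le_normalizer _ hzA))
  obtain ⟨P₀, hP₀⟩ := IsPGroup.exists_le_sylow (P.isPGroup'.map K.subtype)
  have hPP : (P : Subgroup K).map K.subtype = P₀ := by
    refine Subgroup.eq_of_le_of_card_ge hP₀ ?_
    rw [CoprimeAction.card_sylow_map, P₀.card_eq_multiplicity, ← S.card_eq_multiplicity]
    exact Factorization.card_le_of_le S.isPGroup'
      (le_sigmaCore hG hL hsL S.isPGroup' ((Subgroup.le_normalizer.trans hNZ).trans hNL))
  rw [hPP] at hAP hzP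
  have hzC : Subgroup.zpowers z ≤ Subgroup.centralizer ((P₀ : Subgroup G) : Set G) := by
    refine Cfsg.Agent.S1443.result p (ne_two hG ((hAc ▸ dvd_pow_self p two_ne_zero : p ∣ Nat.card A).trans
      (Subgroup.card_subgroup_dvd_card A))) (P₀ : Subgroup G) A (Subgroup.zpowers z) P₀.isPGroup' hAP hA hzP ?_
      fun x hx hxo => ?_
    · rw [Nat.card_zpowers, hzo]
      exact (Nat.coprime_primes Fact.out hp.out).2 hrp
    · exact Subgroup.zpowers_le.2 (Subgroup.mem_centralizer_singleton_iff.2
        (Subgroup.mem_centralizer_iff.1 hzA x (hadj x hx.2 (hxo ▸ pow_orderOf_eq_one x))).symm)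
  refine hp' (sigma_of_normalizer_le P₀ (fun h => hA1 (le_bot_iff.1 (h ▸ hAP))) fun g hg => ?_)
  exact mem_of_conj_mem_of_elem hG hH hrs hzo hzH hCz (hCA (Subgroup.centralizer_le hAP
    ((Subgroup.mem_normalizer_iff.1 (Components.normalizer_le_normalizer_centralizer _ hg) z).1
      (hzC (Subgroup.mem_zpowers z)))))

theorem le_normalizer_map_subtype_of_char {N : Subgroup G} (W : Subgroup N) [W.Characteristic] :
    Subgroup.normalizer (N : Set G) ≤ Subgroup.normalizer ((W.map N.subtype : Subgroup G) : Set G) := by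
  rw [Subgroup.le_normalizer_iff]
  rintro g hg _ ⟨w, hw, rfl⟩
  exact ⟨N.normalizerMonoidHom ⟨g, hg⟩ w,
    (Subgroup.characteristic_iff_map_le.1 (inferInstance : W.Characteristic) _) ⟨w, hw, rfl⟩, rfl⟩

/-- The key lemma behind B&G 12.3 and 12.4. -/
theorem centralizes_sylow_alpha (hG : Cfsg.IsMinSimpleOddOrder G) (hH : IsCoatom H) (hp' : p ∉ Cfsg.sigma H)
    (hAH : A ≤ H) (hA : Cfsg.IsElementaryAbelian p A) (hAc : Nat.card A = p ^ 2) {Y : Subgroup G} (hYA : Y ≤ A)
    (hYc : Nat.card Y = p) (hCY : Subgroup.centralizer (Y : Set G) ≤ H)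
    {q : ℕ} [Fact q.Prime] (hqp : q ≠ p) (hqs : q ∉ Cfsg.sigma H) {K : Subgroup G} (hK : IsPGroup q K)
    (hKH : K ≤ H) (hKY : K ≤ Subgroup.centralizer (Y : Set G)) (hAK : A ≤ Subgroup.normalizer (K : Set G))
    {r : ℕ} [Fact r.Prime] (hr : r ∈ Cfsg.alpha H) {R : Subgroup G} (hR : IsPGroup r R) (hRH : R ≤ H)
    (hKR : K ≤ Subgroup.normalizer (R : Set G)) (hAR : A ≤ Subgroup.normalizer (R : Set G)) :
    ⁅K, A⁆ ≤ Subgroup.centralizer (R : Set G) := by
  by_contra hcon
  have hrs := mem_sigma_of_alpha hG hH hr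
  have hrp : r ≠ p := fun e => hp' (e ▸ hrs)
  have hrq : r ≠ q := fun e => hqs (e ▸ hrs)
  have hK1 : K ≠ ⊥ := fun h => hcon (by rw [h, Subgroup.commutator_bot_left]; exact bot_le)
  have hq2 : q ≠ 2 := ne_two hG ((dvd_card_of_ne_bot hK hK1).trans (Subgroup.card_subgroup_dvd_card K))
  have hKA : ⁅K, A⁆ ≤ K := CoprimeAction.commutator_le_of_normalizer hAK
  have hb : r ∈ Cfsg.beta H := by
    by_contra hb
    refine hcon (le_centralizer_of_not_beta hG hH hrs hb hR hRH (Subgroup.commutator_mono hKH hAH) ?_ (hKA.trans hKR))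
    obtain ⟨n, hn⟩ := (hK.to_le hKA).exists_card_eq
    rw [hn]
    exact ((Nat.coprime_primes Fact.out Fact.out).2 (Ne.symm hrq)).pow_left n
  have hCA : Subgroup.centralizer (A : Set G) ≤ H := (Subgroup.centralizer_le hYA).trans hCY
  have hnofix : ∀ w ∈ R, orderOf w = r → w ∉ Subgroup.centralizer (A : Set G) := fun w hwR hwo hwA =>
    false_of_centralizer_elem hG hH hp' hAH hA hAc hCA hr (hRH hwR) hwo hwA
      (unique_centralizer_of_beta hG hH hb (hRH hwR) hwo).2
  -- every line has its centralizer in `H`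
  have hall : ∀ b ∈ A, b ≠ 1 → Subgroup.centralizer ({b} : Set G) ≤ H := by
    intro b hbA hb1
    have hbo : orderOf b = p := orderOf_eq_prime (hA.2 b hbA) hb1
    by_cases hbY : b ∈ Y
    · have : Subgroup.zpowers b = Y := Subgroup.eq_of_le_of_card_ge (Subgroup.zpowers_le.2 hbY)
        (by rw [Nat.card_zpowers, hbo, hYc])
      rwa [← this, Subgroup.zpowers_eq_closure, Subgroup.centralizer_closure] at hCY
    set B := Subgroup.zpowers b with hBdef
    have hBA : B ≤ A := Subgroup.zpowers_le.2 hbA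
    have hBc : Nat.card B = p := by rw [hBdef, Nat.card_zpowers, hbo]
    have hBR : B ≤ Subgroup.normalizer (R : Set G) := hBA.trans hAR
    have hYB : Y ⊔ B = A := by
      refine Subgroup.eq_of_le_of_card_ge (sup_le hYA hBA) ?_
      have hlt : Y < Y ⊔ B := lt_of_le_of_ne le_sup_left fun h =>
        hbY (h.ge (Subgroup.mem_sup_right (Subgroup.mem_zpowers b)))
      obtain ⟨k, hk⟩ := (isPGroup_of_elementary (elementary_of_le hA (sup_le hYA hBA))).exists_card_eq
      have h1 := card_lt_of_lt hlt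
      rw [hYc, hk] at h1
      rw [hAc, hk]
      exact Nat.pow_le_pow_right hp.out.pos ((Nat.pow_lt_pow_iff_right hp.out.one_lt).1 (by rwa [pow_one]))
    have hKB : ⁅K, A⁆ ≤ ⁅K, B⁆ := by
      rw [Subgroup.commutator_le]
      intro k hk a ha
      rw [← hYB, ← SetLike.mem_coe, Subgroup.coe_mul_of_left_le_normalizer_right] at ha
      swap
      · haveI := hA.1
        exact fun y hy => Subgroup.centralizer_le_normalizer _ (Subgroup.mem_centralizer_iff.2 fun x hx =>
          NormalEl.commute_of_elementary hA (hBA hx) (hYA hy))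
      obtain ⟨y, hy, c, hc, rfl⟩ := ha
      have hky : k * y = y * k := (Subgroup.mem_centralizer_iff.1 (hKY hk) y hy).symm
      have hkc : ⁅k, c⁆ ∈ ⁅K, B⁆ := Subgroup.commutator_mem_commutator hk hc
      have hkcK : ⁅k, c⁆ ∈ K := hKA (Subgroup.commutator_mem_commutator hk (hBA hc))
      have e : ⁅k, y * c⁆ = ⁅k, c⁆ := by
        calc ⁅k, y * c⁆ = (k * y) * (c * k⁻¹ * c⁻¹) * y⁻¹ := by rw [commutatorElement_def]; group
          _ = y * ⁅k, c⁆ * y⁻¹ := by rw [hky, commutatorElement_def]; group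
          _ = ⁅k, c⁆ := by
            rw [Subgroup.mem_centralizer_iff.1 (hKY hkcK) y hy, mul_inv_cancel_right]
      exact e ▸ hkc
    have hnot : ¬ R ⊓ Subgroup.centralizer (B : Set G) ≤ Subgroup.centralizer (K : Set G) := fun h =>
      hcon (hKB.trans (commutator_le_centralizer_of_fixed (Fact.out : r.Prime) (Fact.out : q.Prime) hp.out
        hrq hrp hqp hq2 hK hBc hR (hBA.trans hAK) hKR hBR h))
    set D := R ⊓ Subgroup.centralizer (B : Set G) with hD
    have hDp : IsPGroup r D := hR.to_le inf_le_left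
    by_contra hle
    obtain ⟨L, hL, hCL⟩ := exists_coatom_ge (centralizer_singleton_ne_top hG hb1)
    have hLH : L ≠ H := fun h => hle (h ▸ hCL)
    have hBC : Subgroup.centralizer (B : Set G) = Subgroup.centralizer ({b} : Set G) := by
      rw [hBdef, Subgroup.zpowers_eq_closure, Subgroup.centralizer_closure]
    have hDL : D ≤ L := (inf_le_right.trans hBC.le).trans hCL
    have hAL : A ≤ L := fun a ha => hCL (Subgroup.mem_centralizer_singleton_iff.2
      (NormalEl.commute_of_elementary hA ha hbA))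
    have hD1 : D ≠ ⊥ := fun h => hnot (by rw [h]; exact bot_le)
    obtain ⟨⟨w, hwD⟩, hwo⟩ := exists_prime_orderOf_dvd_card' r (dvd_card_of_ne_bot hDp hD1)
    rw [Subgroup.orderOf_mk] at hwo
    have hwR : w ∈ R := hwD.1
    have hw1 : w ≠ 1 := fun h => (Fact.out : r.Prime).one_lt.ne (by rw [← hwo, h, orderOf_one])
    obtain ⟨hwU, hwC⟩ := unique_centralizer_of_beta hG hH hb (hRH hwR) hwo
    -- `L` is not conjugate to `H`
    have hnoconj : ∀ g : G, L ≠ H.map (MulAut.conj g).toMonoidHom := by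
      rintro g rfl
      have hg : g⁻¹ ∈ H := mem_of_conj_mem_of_elem hG hH hrs hwo (hRH hwR) hwC (by
        obtain ⟨x, hx, hxe⟩ := hDL hwD
        rw [← hxe]
        simpa [mul_assoc] using hx)
      exact hLH (map_eq_of_mem_normalizer (inv_mem_iff.1 hg))
    have hrL : r ∉ Cfsg.sigma L := fun h => by
      obtain ⟨E, -, hE, hEc⟩ := exists_elem_of_not_prank hr.2
      obtain ⟨g, hg⟩ := exists_conj_eq_of_alpha hG hH hL hr (mem_alpha_of_elementary h hE hEc)
      exact hnoconj g hg
    haveI hDc : IsCyclic D := isCyclic_of_ideal hG hL hb.2 hrL hDp hDL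
    set W := Subgroup.zpowers w with hW
    have hWD : W ≤ D := Subgroup.zpowers_le.2 hwD
    have hAD : A ≤ Subgroup.normalizer (D : Set G) := fun a ha => by
      refine mem_normalizer_of_map_le ?_
      rintro _ ⟨d, ⟨hdR, hdB⟩, rfl⟩
      refine ⟨(Subgroup.mem_normalizer_iff.1 (hAR ha) d).1 hdR, Subgroup.mem_centralizer_iff.2 fun c hc => ?_⟩
      have hca : c * a = a * c := NormalEl.commute_of_elementary hA (hBA hc) ha
      have hdc : c * d = d * c := Subgroup.mem_centralizer_iff.1 hdB c hc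
      show c * (a * d * a⁻¹) = a * d * a⁻¹ * c
      calc c * (a * d * a⁻¹) = (c * a) * d * a⁻¹ := by group
        _ = a * (d * c) * a⁻¹ := by rw [hca, mul_assoc a c d, hdc]
        _ = a * d * (c * a⁻¹) := by group
        _ = a * d * (a⁻¹ * c) := by rw [show c * a⁻¹ = a⁻¹ * c from (Commute.inv_right hca).eq]
        _ = a * d * a⁻¹ * c := by group
    have hWc : Nat.card W = r := by rw [hW, Nat.card_zpowers, hwo]
    have hAW : A ≤ Subgroup.normalizer (W : Set G) := fun a ha => by
      rw [Subgroup.mem_normalizer_iff_map_conj_eq]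
      exact Chev.Ree.GL0.eq_of_card_eq (A := D)
        ((Subgroup.map_mono hWD).trans (Subgroup.mem_normalizer_iff_map_conj_eq.1 (hAD ha)).le) hWD
        (Subgroup.card_map_of_injective (MulAut.conj a).injective)
    have hWp : IsPGroup r W := IsPGroup.of_card (n := 1) (by rw [hWc, pow_one])
    -- `Y` moves `w`
    have hWY : W ≤ ⁅W, Y⁆ := by
      obtain ⟨y, hy, hwy⟩ : ∃ y ∈ Y, ⁅w, y⁆ ≠ 1 := by
        by_contra hno
        push Not at hno
        refine hnofix w hwR hwo (Subgroup.mem_centralizer_iff.2 fun a ha => ?_)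
        have hle : A ≤ Subgroup.centralizer ({w} : Set G) := by
          rw [← hYB]
          refine sup_le (fun y hy => Subgroup.mem_centralizer_singleton_iff.2
            (commutatorElement_eq_one_iff_mul_comm.1 (hno y hy)).symm) (fun c hc =>
            Subgroup.mem_centralizer_singleton_iff.2 (Subgroup.mem_centralizer_iff.1 hwD.2 c hc))
        exact Subgroup.mem_centralizer_singleton_iff.1 (hle ha)
      have hc : ⁅w, y⁆ ∈ ⁅W, Y⁆ := Subgroup.commutator_mem_commutator (Subgroup.mem_zpowers w) hy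
      have hle : ⁅W, Y⁆ ≤ W := CoprimeAction.commutator_le_of_normalizer (hYA.trans hAW)
      refine (Subgroup.eq_of_le_of_card_ge hle ?_).ge
      rw [hWc]
      rcases (Nat.dvd_prime (Fact.out : r.Prime)).1 (hWc ▸ Subgroup.card_dvd_of_le hle) with h | h
      · exact absurd (Subgroup.mem_bot.1 (Subgroup.card_eq_one.1 h ▸ hc)) hwy
      · exact h.ge
    have hWL : W ≤ L := hWD.trans hDL
    have hWd : W ≤ ⁅L, L⁆ := hWY.trans (Subgroup.commutator_mono hWL (hYA.trans hAL))
    have hpL : p ∉ Cfsg.sigma L := by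
      intro h
      have hAs := le_sigmaCore hG hL h (isPGroup_of_elementary hA) hAL
      have h1 : W ≤ Cfsg.sigmaCore L := by
        refine hWY.trans ((Subgroup.commutator_mono hWL (hYA.trans hAs)).trans ?_)
        rw [Subgroup.commutator_comm]
        exact CoprimeAction.commutator_le_of_normalizer (le_normalizer_sigmaCore L)
      exact hrL (mem_sigma_of_dvd L Fact.out (hWc ▸ Subgroup.card_dvd_of_le h1))
    have hLα : Cfsg.alphaCore L ≠ ⊥ := by
      intro h0
      haveI := isNilpotent_derived hG hL h0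
      obtain ⟨P, hP⟩ := IsPGroup.exists_le_sylow (hWp.of_equiv (Subgroup.subgroupOfEquivOfLe hWd).symm)
      have hiff := (Group.isNilpotent_of_finite_tfae (G := ↥⁅L, L⁆)).out 0 3
      haveI hPn : (P : Subgroup ↥⁅L, L⁆).Normal :=
        hiff.1 (isNilpotent_derived hG hL h0) r inferInstance P
      haveI := Sylow.characteristic_of_normal P hPn
      set T := (P : Subgroup ↥⁅L, L⁆).map ⁅L, L⁆.subtype with hT
      have hWT : W ≤ T := by
        rw [← Subgroup.map_subgroupOf_eq_of_le hWd]
        exact Subgroup.map_mono hP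
      have hTL : T ≤ L := (Subgroup.map_subtype_le _).trans (Subgroup.commutator_le_self L)
      haveI := isCyclic_of_ideal hG hL hb.2 hrL (P.isPGroup'.map ⁅L, L⁆.subtype) hTL
      have hLT : L ≤ Subgroup.normalizer (T : Set G) := by
        refine le_trans ?_ (le_normalizer_map_subtype_of_char (P : Subgroup ↥⁅L, L⁆))
        rw [← Subgroup.map_subtype_commutator, ← Subgroup.normal_subgroupOf_iff_le_normalizer
          (Subgroup.map_subtype_le _), Subgroup.subgroupOf, Subgroup.comap_map_eq_self_of_injective L.subtype_injective]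
        infer_instance
      have hLW : L ≤ Subgroup.normalizer (W : Set G) := fun g hg => by
        rw [Subgroup.mem_normalizer_iff_map_conj_eq]
        exact Chev.Ree.GL0.eq_of_card_eq (A := T)
          ((Subgroup.map_mono hWT).trans (Subgroup.mem_normalizer_iff_map_conj_eq.1 (hLT hg)).le) hWT
          (Subgroup.card_map_of_injective (MulAut.conj g).injective)
      have hNW : Subgroup.normalizer (W : Set G) ≤ H := by
        refine le_of_unique hwU hH hwC (normalizer_ne_top hG (fun h => hw1 ?_) (pgroup_ne_top hG hWp)) ?_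
        · exact Subgroup.mem_bot.1 (h ▸ Subgroup.mem_zpowers w)
        · refine le_trans ?_ (Subgroup.centralizer_le_normalizer _)
          rw [hW, Subgroup.zpowers_eq_closure, Subgroup.centralizer_closure]
      exact hLH (eq_of_coatom_le hH hL (hLW.trans hNW))
    obtain ⟨s, hs, hsd⟩ := Nat.exists_prime_and_dvd (fun e => hLα (Subgroup.card_eq_one.1 e))
    haveI := Fact.mk hs
    have hsα := mem_alpha_of_dvd L hs hsd
    have hsr : s ≠ r := fun e => hrL (e ▸ alpha_subset_sigma hG hL hsα)
    have hsp : s ≠ p := fun e => hpL (e ▸ alpha_subset_sigma hG hL hsα)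
    haveI := hA.1
    have hUN : A ⊔ W ≤ Subgroup.normalizer (Cfsg.alphaCore L : Set G) :=
      (sup_le hAL hWL).trans (le_normalizer_alphaCore L)
    have hcop : (Nat.card ↥(A ⊔ W)).Coprime (Nat.card ↥(Cfsg.alphaCore L)) := by
      have hcard := ZJ.card_sup_mul_card_inf_of_le_normalizer hAW
      refine Nat.coprime_of_dvd fun t ht h1 h2 => ?_
      have h3 : t ∣ Nat.card A * Nat.card W := h1.trans (hcard ▸ dvd_mul_right _ _)
      rw [hAc, hWc] at h3
      have h4 := alpha_subset_sigma hG hL (mem_alpha_of_dvd L ht h2)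
      rcases ht.dvd_mul.1 h3 with h | h
      · exact hpL ((Nat.prime_dvd_prime_iff_eq ht hp.out).1 (ht.dvd_of_dvd_pow h) ▸ h4)
      · exact hrL ((Nat.prime_dvd_prime_iff_eq ht Fact.out).1 h ▸ h4)
    obtain ⟨P, hPU⟩ := CoprimeAction.exists_invariant_sylow (p := s) hUN hcop
      (Or.inr (haveI := isSolvable_of_ne_top hG hL.1
        Group.isSolvable_of_isSolvable_injective
          (Subgroup.inclusion_injective (Subgroup.map_subtype_le _ : Cfsg.alphaCore L ≤ L))))
    set T := (P : Subgroup ↥(Cfsg.alphaCore L)).map (Cfsg.alphaCore L).subtype with hT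
    have hTα : T ≤ Cfsg.alphaCore L := Subgroup.map_subtype_le _
    have hTp : IsPGroup s T := P.isPGroup'.map _
    have hTL : T ≤ L := hTα.trans (Subgroup.map_subtype_le _)
    have hT3 : ¬ Cfsg.PRankLE s 2 ↥T := fun h => by
      obtain ⟨E, hEL, hE, hEc⟩ := exists_elem_of_not_prank hsα.2
      exact not_prank_of_elem (le_alphaCore hG hL hsα (isPGroup_of_elementary hE) hEL) hE (pow_lt_card hEc)
        (prankLE_of_sylow hTp hTα (sylow_map_max P) h)
    have hTU := unique_of_prank (allUnique hG) (pgroup_ne_top hG hTp) hT3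
    have hfix : T ⊓ Subgroup.centralizer (Y : Set G) ≤ Subgroup.centralizer (W : Set G) := by
      rintro u ⟨huT, huY⟩
      have huH : u ∈ H := hCY huY
      rw [hW, Subgroup.zpowers_eq_closure, Subgroup.centralizer_closure, Subgroup.mem_centralizer_singleton_iff]
      have hwα : W ≤ Cfsg.alphaCore H := le_alphaCore hG hH hr hWp (Subgroup.zpowers_le.2 (hRH hwR))
      have h1 : ⁅u, w⁆ ∈ Cfsg.alphaCore L := by
        rw [show ⁅u, w⁆ = u * (w * u⁻¹ * w⁻¹) by rw [commutatorElement_def]; group]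
        exact mul_mem (hTα huT) ((Subgroup.mem_normalizer_iff.1
          (le_normalizer_alphaCore L (hWL (Subgroup.mem_zpowers w))) u⁻¹).1 (inv_mem (hTα huT)))
      have h2 : ⁅u, w⁆ ∈ Cfsg.alphaCore H := by
        rw [commutatorElement_def]
        exact mul_mem ((Subgroup.mem_normalizer_iff.1 (le_normalizer_alphaCore H huH) w).1
          (hwα (Subgroup.mem_zpowers w))) (inv_mem (hwα (Subgroup.mem_zpowers w)))
      have h3 : Cfsg.alphaCore L ⊓ Cfsg.alphaCore H = ⊥ := by
        refine CoprimeAction.inf_eq_bot_of_coprime (Nat.coprime_of_dvd fun t ht e1 e2 => ?_)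
        haveI := Fact.mk ht
        obtain ⟨g, hg⟩ := exists_conj_eq_of_alpha hG hH hL (mem_alpha_of_dvd H ht e2) (mem_alpha_of_dvd L ht e1)
        exact hnoconj g hg
      exact commutatorElement_eq_one_iff_mul_comm.1 (Subgroup.mem_bot.1 (h3.le ⟨h1, h2⟩))
    have hWT : W ≤ Subgroup.centralizer (T : Set G) :=
      hWY.trans (commutator_le_centralizer_of_fixed hs Fact.out hp.out hsr hsp hrp
        (ne_two hG ((dvd_card_of_ne_bot hR (fun h => hw1 (Subgroup.mem_bot.1 (h ▸ hwR)))).trans
          (Subgroup.card_subgroup_dvd_card R))) hWp hYc hTp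
        (hYA.trans hAW) (le_sup_right.trans hPU) (hYA.trans (le_sup_left.trans hPU)) hfix)
    have hTC : T ≤ Subgroup.centralizer ({w} : Set G) := fun t ht => Subgroup.mem_centralizer_singleton_iff.2
      (Subgroup.mem_centralizer_iff.1 (hWT (Subgroup.mem_zpowers w)) t ht)
    exact hLH.symm (eq_of_unique hTU hL hTL hH (hTC.trans hwC))
  have hAne : ¬ IsCyclic A := not_isCyclic_of_elementary hA (hAc ▸ lt_self_pow₀ hp.out.one_lt one_lt_two)
  have hU := Cfsg.Agent.S1398.result hG H hH p A hAH hA hAne (Or.inl hall)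
  obtain ⟨S, hS⟩ := exists_max_ge (isPGroup_of_elementary hA) hAH
  have hSA : (S : Subgroup H).map H.subtype ≠ ⊥ := fun h => hAne (by
    rw [le_bot_iff.1 (hS.trans h.le)]; exact isCyclic_of_subsingleton)
  refine hp' ⟨hp.out, (hAc ▸ dvd_pow_self p two_ne_zero : p ∣ Nat.card A).trans (Subgroup.card_dvd_of_le hAH), S, ?_⟩
  exact le_of_unique hU hH hAH (normalizer_ne_top hG hSA (pgroup_ne_top hG (S.isPGroup'.map _)))
    (hS.trans Subgroup.le_normalizer)

end CfsgLib.SigmaGroups
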