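import Cfsg.Agent.Sigma.RankTwoElem
import Cfsg.Agent.S1453
import Cfsg.Agent.S1412
import Cfsg.Agent.S1416

/-!
B&G 12.5 (b): the Sylow `p`-subgroups of a maximal subgroup `M` for `p ∉ σ(M)` of rank two.
-/

set_option autoImplicit false
set_option linter.unusedSectionVars false
set_option linter.style.haveILetI false

namespace CfsgLib.SigmaGroups

open CfsgLib.BenderUnique CfsgLib.Uniq
open scoped commutatorElement

universe u

variable {G : Type u} [Group G] [Finite G] {p : ℕ} [hp : Fact p.Prime] {M A : Subgroup G}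

/-- A `p`-element normalizing a group of order `p` centralizes it. -/
theorem mem_centralizer_of_normalizes_line {K : Subgroup G} (hK : Nat.card K = p) {x : G}
    (hx : x ∈ Subgroup.normalizer (K : Set G)) {n : ℕ} (hn : x ^ p ^ n = 1) :
    x ∈ Subgroup.centralizer (K : Set G) := by
  haveI : IsCyclic K := isCyclic_of_prime_card hK
  set φ := K.normalizerMonoidHom with hφ
  have h1 : orderOf (φ ⟨x, hx⟩) ∣ p ^ n := orderOf_dvd_of_pow_eq_one (by
    rw [← map_pow, show (⟨x, hx⟩ : Subgroup.normalizer (K : Set G)) ^ p ^ n = 1 from Subtype.ext hn, map_one])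
  have h2 : orderOf (φ ⟨x, hx⟩) ∣ p - 1 := by
    have h := orderOf_dvd_natCard (φ ⟨x, hx⟩)
    rwa [IsCyclic.card_mulAut, hK, Nat.totient_prime hp.out] at h
  have h3 : φ ⟨x, hx⟩ = 1 := by
    rw [← orderOf_eq_one_iff]
    refine Nat.eq_one_of_dvd_coprimes (Nat.Coprime.pow_left n ?_) h1 h2
    exact hp.out.coprime_iff_not_dvd.2
      (Nat.not_dvd_of_pos_of_lt (Nat.sub_pos_of_lt hp.out.one_lt) (Nat.sub_lt hp.out.pos one_pos))
  have h4 : (⟨x, hx⟩ : Subgroup.normalizer (K : Set G)) ∈ φ.ker := h3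
  rwa [hφ, Subgroup.normalizerMonoidHom_ker, Subgroup.mem_subgroupOf] at h4

theorem mem_sigma_conj {M : Subgroup G} (h : p ∈ Cfsg.sigma M) (g : G) :
    p ∈ Cfsg.sigma (M.map (MulAut.conj g).toMonoidHom) := by
  obtain ⟨S, hS⟩ := IsPGroup.exists_le_sylow (IsPGroup.of_bot (p := p) (G := G))
  obtain ⟨P, -, hPM, hNP⟩ := exists_sylow h (IsPGroup.of_bot (p := p) (G := G)) bot_le
  have hP1 : (P : Subgroup G) ≠ ⊥ := fun e => by
    have hd := h.2.1.trans (Subgroup.card_subgroup_dvd_card M)
    have := P.dvd_card_of_dvd_card hd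
    rw [e, Subgroup.card_bot] at this
    exact hp.out.one_lt.ne' (Nat.dvd_one.1 this)
  have he : ((g • P : Sylow p G) : Subgroup G) = (P : Subgroup G).map (MulAut.conj g).toMonoidHom := rfl
  refine sigma_of_normalizer_le (g • P) (fun e => hP1 ?_) ?_
  · rw [he, Subgroup.map_eq_bot_iff_of_injective _ (MulAut.conj g).injective] at e
    exact e
  · intro y hy
    refine ⟨g⁻¹ * y * g, hNP ?_, by simp [mul_assoc]⟩
    rw [he] at hy
    rw [Subgroup.mem_normalizer_iff_map_conj_eq, show (P : Subgroup G).map (MulAut.conj (g⁻¹ * y * g) : G ≃* G) =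
      (P : Subgroup G).map (MulAut.conj (g⁻¹ * y * g)).toMonoidHom from rfl, mul_assoc, ← map_conj_map, ← map_conj_map,
      show ((P : Subgroup G).map (MulAut.conj g).toMonoidHom).map (MulAut.conj y).toMonoidHom =
        (P : Subgroup G).map (MulAut.conj g).toMonoidHom from Subgroup.mem_normalizer_iff_map_conj_eq.1 hy,
      map_conj_map, inv_mul_cancel, map_conj_one]

theorem mem_sigma_conj_iff {M : Subgroup G} (g : G) :
    p ∈ Cfsg.sigma (M.map (MulAut.conj g).toMonoidHom) ↔ p ∈ Cfsg.sigma M :=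
  ⟨fun h => by
    have h' := mem_sigma_conj h g⁻¹
    rwa [map_conj_map, inv_mul_cancel, map_conj_one] at h', fun h => mem_sigma_conj h g⟩

theorem prankLE_two_of_not_sigma (hG : Cfsg.IsMinSimpleOddOrder G) (hM : IsCoatom M) (hps : p ∉ Cfsg.sigma M) :
    Cfsg.PRankLE p 2 ↥M := by
  by_contra h
  exact hps (mem_sigma_of_alpha hG hM ⟨hp.out, h⟩)

theorem mem_of_centralizer_pow (hG : Cfsg.IsMinSimpleOddOrder G) (hM : IsCoatom M) (hps : p ∉ Cfsg.sigma M)
    (hAM : A ≤ M) (hA : Cfsg.IsElementaryAbelian p A) (hAc : Nat.card A = p ^ 2) {x : G}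
    (hx : x ∈ Subgroup.centralizer (A : Set G)) (hxp : x ^ p = 1) : x ∈ A := by
  have h := eq_of_elementary_ge hG hM hps hAM hA hAc
    (NormalEl.elementary_sup hA (elementary_zpowers hxp) fun a ha b hb => by
      obtain ⟨i, rfl⟩ := Subgroup.mem_zpowers_iff.1 hb
      exact (Commute.zpow_right (Subgroup.mem_centralizer_iff.1 hx a ha) i).eq) le_sup_left
  exact h.le (Subgroup.mem_sup_right (Subgroup.mem_zpowers x))

theorem centralizer_le_maximal (hG : Cfsg.IsMinSimpleOddOrder G) (hM : IsCoatom M)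
    (hAM : A ≤ M) (hA : Cfsg.IsElementaryAbelian p A) (hAc : Nat.card A = p ^ 2) :
    Subgroup.centralizer (A : Set G) ≤ M :=
  (Cfsg.Agent.S1416.result hG M hM p A ⟨hAM, hA, hAc⟩).1

/-- Some line of `A` has its normalizer only in `M`. -/
theorem exists_unique_line (hG : Cfsg.IsMinSimpleOddOrder G) (hM : IsCoatom M) (hps : p ∉ Cfsg.sigma M)
    (hAM : A ≤ M) (hA : Cfsg.IsElementaryAbelian p A) (hAc : Nat.card A = p ^ 2) :
    ∃ A₀ : Subgroup G, A₀ ≤ A ∧ Nat.card A₀ = p ∧ Subgroup.normalizer (A₀ : Set G) ≤ M ∧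
      ∀ L : Subgroup G, IsCoatom L → Subgroup.normalizer (A₀ : Set G) ≤ L → L = M := by
  by_contra h
  exact hps (sigma_alpha_nilpotent hG hM hAM hA hAc fun A₀ h1 h2 h3 => h ⟨A₀, h1, h2, h3⟩).1

/-- `A` is central in the Sylow subgroup of `M` containing it. -/
theorem le_centralizer_sylow (hG : Cfsg.IsMinSimpleOddOrder G) (hM : IsCoatom M) (hps : p ∉ Cfsg.sigma M)
    (hA : Cfsg.IsElementaryAbelian p A) (hAc : Nat.card A = p ^ 2) (S : Sylow p M)
    (hAS : A ≤ (S : Subgroup M).map M.subtype) :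
    A ≤ Subgroup.centralizer ((S : Subgroup M).map M.subtype : Set G) := by
  set P := (S : Subgroup M).map M.subtype with hP
  have hPp : IsPGroup p P := S.isPGroup'.map _
  have hPM : P ≤ M := Subgroup.map_subtype_le _
  have hAM := hAS.trans hPM
  have hA1 : A ≠ ⊥ := fun h => by
    rw [h, Subgroup.card_bot] at hAc
    exact (Nat.one_lt_pow two_ne_zero hp.out.one_lt).ne hAc
  have hpM : p ∣ Nat.card M := (dvd_card_of_ne_bot (isPGroup_of_elementary hA) hA1).trans (Subgroup.card_dvd_of_le hAM)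
  by_contra hcon
  obtain ⟨z, hzP, hzo, hzc⟩ := exists_elem_pow hPp fun h => hA1 (le_bot_iff.1 (hAS.trans h.le))
  have hzp : z ^ p = 1 := hzo ▸ pow_orderOf_eq_one z
  have hzC : ∀ {E : Subgroup G}, E ≤ P → z ∈ Subgroup.centralizer (E : Set G) := fun hE =>
    Subgroup.mem_centralizer_iff.2 fun t ht => hzc t (hE ht)
  set Z := Subgroup.zpowers z with hZdef
  have hZc : Nat.card Z = p := by rw [hZdef, Nat.card_zpowers, hzo]
  have hzA : z ∈ A := mem_of_centralizer_pow hG hM hps hAM hA hAc (hzC hAS) hzp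
  have hA2 : ∀ x ∈ P, x ∈ Subgroup.centralizer (P : Set G) → x ^ p = 1 → x ∈ Z := by
    intro x hxP hxC hxp
    by_contra hxZ
    have hxA : x ∈ A := mem_of_centralizer_pow hG hM hps hAM hA hAc (Subgroup.centralizer_le hAS hxC) hxp
    refine hcon ?_
    have hle : Z ⊔ Subgroup.zpowers x = A := by
      have hsup : Z ⊔ Subgroup.zpowers x ≤ A := sup_le (Subgroup.zpowers_le.2 hzA) (Subgroup.zpowers_le.2 hxA)
      refine Subgroup.eq_of_le_of_card_ge hsup ?_
      have hlt : Z < Z ⊔ Subgroup.zpowers x := lt_of_le_of_ne le_sup_left fun h =>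
        hxZ (h.ge (Subgroup.mem_sup_right (Subgroup.mem_zpowers x)))
      obtain ⟨k, hk⟩ := (isPGroup_of_elementary (elementary_of_le hA hsup)).exists_card_eq
      have h1 := card_lt_of_lt hlt
      rw [hZc, hk] at h1
      rw [hAc, hk]
      exact Nat.pow_le_pow_right hp.out.pos ((Nat.pow_lt_pow_iff_right hp.out.one_lt).1 (by rwa [pow_one]))
    rw [← hle]
    exact sup_le (Subgroup.zpowers_le.2 (hzC le_rfl)) (Subgroup.zpowers_le.2 hxC)
  have hNPZ : Subgroup.normalizer (P : Set G) ≤ Subgroup.normalizer (Z : Set G) := fun g hg => by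
    refine mem_normalizer_of_map_le ?_
    rw [hZdef, MonoidHom.map_zpowers, Subgroup.zpowers_le]
    exact hA2 _ ((Subgroup.mem_normalizer_iff.1 hg z).1 hzP)
      ((Subgroup.mem_normalizer_iff.1 (Components.normalizer_le_normalizer_centralizer _ hg) z).1 (hzC le_rfl))
      (by rw [← map_pow, hzp, map_one])
  have hZU : ¬ Subgroup.normalizer (Z : Set G) ≤ M := fun h => hps ⟨hp.out, hpM, S, hNPZ.trans h⟩
  -- every line of `P` other than `Z` has its normalizer only in `M`
  have hline : ∀ x ∈ P, x ∉ Z → x ^ p = 1 → Subgroup.normalizer (Subgroup.zpowers x : Set G) ≤ M ∧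
      ∀ L : Subgroup G, IsCoatom L → Subgroup.normalizer (Subgroup.zpowers x : Set G) ≤ L → L = M := by
    intro x hxP hxZ hxp
    set E := Z ⊔ Subgroup.zpowers x with hEdef
    have hEP : E ≤ P := sup_le (Subgroup.zpowers_le.2 hzP) (Subgroup.zpowers_le.2 hxP)
    have hEel : Cfsg.IsElementaryAbelian p E := NormalEl.elementary_sup (elementary_zpowers hzp)
      (elementary_zpowers hxp) fun a ha b hb => by
        obtain ⟨i, rfl⟩ := Subgroup.mem_zpowers_iff.1 ha
        exact (Commute.zpow_left (hzc b ((Subgroup.zpowers_le.2 hxP) hb)).symm i).eq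
    have hEM := hEP.trans hPM
    have hEc : Nat.card E = p ^ 2 := by
      have hlt : Z < E := lt_of_le_of_ne le_sup_left fun h =>
        hxZ (h.ge (Subgroup.mem_sup_right (Subgroup.mem_zpowers x)))
      obtain ⟨k, hk⟩ := (isPGroup_of_elementary hEel).exists_card_eq
      have h1 := card_lt_of_lt hlt
      rw [hZc, hk] at h1
      have h2 : 2 ≤ k := (Nat.pow_lt_pow_iff_right hp.out.one_lt).1 (by rwa [pow_one])
      rw [hk]
      congr 1
      by_contra hne
      exact not_prank_of_elem hEM hEel (hk ▸ Nat.pow_lt_pow_right hp.out.one_lt (by omega))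
        (prankLE_two_of_not_sigma hG hM hps)
    obtain ⟨X, hXE, hXc, hXN, hXU⟩ := exists_unique_line hG hM hps hEM hEel hEc
    have hXZ : X ≠ Z := fun h => hZU (h ▸ hXN)
    obtain ⟨e, heX, he1⟩ := (Subgroup.bot_or_exists_ne_one X).resolve_left fun h => by
      rw [h, Subgroup.card_bot] at hXc
      exact hp.out.one_lt.ne hXc
    have heo : orderOf e = p := orderOf_eq_prime (hEel.2 e (hXE heX)) he1
    have hXe : X = Subgroup.zpowers e := (Subgroup.eq_of_le_of_card_ge (Subgroup.zpowers_le.2 heX)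
      (by rw [Nat.card_zpowers, heo, hXc])).symm
    have heZ : e ∉ Z := fun h => hXZ (by
      rw [hXe]
      exact Subgroup.eq_of_le_of_card_ge (Subgroup.zpowers_le.2 h)
        (hZc.trans_le (le_of_eq (by rw [Nat.card_zpowers, heo]))))
    have hEe : Z ⊔ Subgroup.zpowers e = E := by
      have hle : Z ⊔ Subgroup.zpowers e ≤ E := sup_le le_sup_left (Subgroup.zpowers_le.2 (hXE heX))
      refine Subgroup.eq_of_le_of_card_ge hle ?_
      have hlt : Z < Z ⊔ Subgroup.zpowers e := lt_of_le_of_ne le_sup_left fun h =>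
        heZ (h.ge (Subgroup.mem_sup_right (Subgroup.mem_zpowers e)))
      obtain ⟨k, hk⟩ := (isPGroup_of_elementary (elementary_of_le hEel hle)).exists_card_eq
      have h1 := card_lt_of_lt hlt
      rw [hZc, hk] at h1
      rw [hEc, hk]
      exact Nat.pow_le_pow_right hp.out.pos ((Nat.pow_lt_pow_iff_right hp.out.one_lt).1 (by rwa [pow_one]))
    have hEmem : ∀ t ∈ E, ∃ i j : ℤ, t = z ^ i * e ^ j := by
      intro t ht
      rw [← hEe, ← SetLike.mem_coe, Subgroup.coe_mul_of_left_le_normalizer_right] at ht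
      · obtain ⟨a, ha, b, hb, rfl⟩ := ht
        obtain ⟨i, rfl⟩ := Subgroup.mem_zpowers_iff.1 ha
        obtain ⟨j, rfl⟩ := Subgroup.mem_zpowers_iff.1 hb
        exact ⟨i, j, rfl⟩
      · refine (Subgroup.le_centralizer_iff.1 ?_).trans (Subgroup.centralizer_le_normalizer _)
        exact fun b hb => Subgroup.mem_centralizer_iff.2 fun a ha =>
          NormalEl.commute_of_elementary hEel (hEe.le (Subgroup.mem_sup_left ha))
            (hEe.le (Subgroup.mem_sup_right hb))
    -- an element of `P` moving `E` only along `Z`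
    have hEnc : ¬ E ≤ Subgroup.centralizer (P : Set G) := fun h => hXZ (by
      rw [hXe]
      refine Subgroup.eq_of_le_of_card_ge (Subgroup.zpowers_le.2 (hA2 e (hEP (hXE heX)) (h (hXE heX))
        (hEel.2 e (hXE heX)))) ?_
      exact hZc.trans_le (le_of_eq (by rw [Nat.card_zpowers, heo])))
    have hlt : P ⊓ Subgroup.centralizer (E : Set G) < P := lt_of_le_of_ne inf_le_left fun h =>
      hEnc (Subgroup.le_centralizer_iff.1 (h.ge.trans inf_le_right))
    obtain ⟨w, hw, hwn⟩ := SetLike.exists_of_lt (exists_lt_mem_normalizer hPp hlt)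
    have hwP : w ∈ P := hw.1
    have hwE : ∀ t ∈ E, w * t * w⁻¹ ∈ E := fun t ht => by
      have h1 := (Subgroup.mem_normalizer_iff.1 hw.2 t).1 ⟨hEP ht, elementary_le_centralizer hEel ht⟩
      exact mem_of_centralizer_pow hG hM hps hEM hEel hEc h1.2
        (by rw [← MulAut.conj_apply, ← map_pow, hEel.2 t ht, map_one])
    obtain ⟨n, hn⟩ := hPp ⟨w, hwP⟩
    have hn' : w ^ p ^ n = 1 := congrArg Subtype.val hn
    have hwc : w * z = z * w := hzc w hwP
    have hwne : w * e * w⁻¹ ≠ e := fun h => hwn ⟨hwP, Subgroup.mem_centralizer_iff.2 fun t ht => by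
      have hwe : Commute w e := mul_inv_eq_iff_eq_mul.1 h
      obtain ⟨i, j, rfl⟩ := hEmem t ht
      exact ((Commute.zpow_right (show Commute w z from hwc) i).mul_right (hwe.zpow_right j)).eq.symm⟩
    set c := w * e * w⁻¹ * e⁻¹ with hc
    have hcE : c ∈ E := mul_mem (hwE e (hXE heX)) (inv_mem (hXE heX))
    have hcZ : c ∈ Z := by
      obtain ⟨i, j, hij⟩ := hEmem c hcE
      by_contra hcZ
      have hwz : w * z ^ i * w⁻¹ = z ^ i := by
        rw [(Commute.zpow_right (show Commute w z from hwc) i).eq, mul_inv_cancel_right]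
      have hwej : w * e ^ j * w⁻¹ = c ^ j * e ^ j := by
        rw [← (show Commute c e from NormalEl.commute_of_elementary hEel hcE (hXE heX)).mul_zpow j,
          show c * e = w * e * w⁻¹ by rw [hc]; group, conj_zpow]
      have hwcc : w * c * w⁻¹ = c ^ (j + 1) := by
        calc w * c * w⁻¹ = w * z ^ i * w⁻¹ * (w * e ^ j * w⁻¹) := by rw [hij]; group
          _ = z ^ i * (c ^ j * e ^ j) := by rw [hwz, hwej]
          _ = c ^ j * (z ^ i * e ^ j) := by
            rw [← mul_assoc, ← mul_assoc, show z ^ i * c ^ j = c ^ j * z ^ i from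
              NormalEl.commute_of_elementary hEel (zpow_mem (Subgroup.mem_sup_left (Subgroup.mem_zpowers z)) i)
                (zpow_mem hcE j)]
          _ = c ^ (j + 1) := by rw [← hij, zpow_add_one]
      have hc1 : c ≠ 1 := fun h => hcZ (h ▸ one_mem _)
      have hco : orderOf c = p := orderOf_eq_prime (hEel.2 c hcE) hc1
      have hwNc : w ∈ Subgroup.normalizer (Subgroup.zpowers c : Set G) := by
        refine mem_normalizer_of_map_le ?_
        rw [MonoidHom.map_zpowers, Subgroup.zpowers_le]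
        show w * c * w⁻¹ ∈ Subgroup.zpowers c
        rw [hwcc]
        exact zpow_mem (Subgroup.mem_zpowers c) _
      have hcc := Subgroup.mem_centralizer_iff.1
        (mem_centralizer_of_normalizes_line (by rw [Nat.card_zpowers, hco]) hwNc hn') c (Subgroup.mem_zpowers c)
      have hcj : c ^ j = 1 := by
        have h : c ^ (j + 1) = c := by rw [← hwcc, ← hcc, mul_inv_cancel_right]
        rw [zpow_add_one] at h
        exact mul_eq_right.1 h
      have hdvd : (p : ℤ) ∣ j := hco ▸ orderOf_dvd_iff_zpow_eq_one.2 hcj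
      obtain ⟨k, rfl⟩ := hdvd
      rw [zpow_mul, zpow_natCast, hEel.2 e (hXE heX), one_zpow, mul_one] at hij
      exact hcZ (hij ▸ zpow_mem (Subgroup.mem_zpowers z) i)
    have hc1 : c ≠ 1 := fun h => hwne (mul_inv_eq_one.1 h)
    have hZc' : Subgroup.zpowers c = Z := Subgroup.eq_of_le_of_card_ge (Subgroup.zpowers_le.2 hcZ)
      (hZc.trans_le (le_of_eq (by rw [Nat.card_zpowers, orderOf_eq_prime (hEel.2 c hcE) hc1])))
    have hwe : w * e * w⁻¹ = c * e := (inv_mul_cancel_right _ _).symm
    have hwk : ∀ k : ℕ, w ^ k * e * (w ^ k)⁻¹ = c ^ k * e := by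
      intro k
      induction k with
      | zero => simp
      | succ k ih =>
        have hck : w * c ^ k * w⁻¹ = c ^ k := by
          obtain ⟨l, hl⟩ := Subgroup.mem_zpowers_iff.1 (pow_mem hcZ k)
          rw [← hl, (Commute.zpow_right (show Commute w z from hwc) l).eq, mul_inv_cancel_right]
        calc w ^ (k + 1) * e * (w ^ (k + 1))⁻¹ = w * (w ^ k * e * (w ^ k)⁻¹) * w⁻¹ := by
              rw [pow_succ']; group
          _ = (w * c ^ k * w⁻¹) * (w * e * w⁻¹) := by rw [ih]; group
          _ = c ^ k * (c * e) := by rw [hck, hwe]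
          _ = c ^ (k + 1) * e := by rw [← mul_assoc, ← pow_succ]
    -- hence `x` is conjugate into the line of `e`
    obtain ⟨i, j, hij⟩ := hEmem x (Subgroup.mem_sup_right (Subgroup.mem_zpowers x))
    have hj : ¬ (p : ℤ) ∣ j := by
      rintro ⟨k, rfl⟩
      rw [zpow_mul, zpow_natCast, hEel.2 e (hXE heX), one_zpow, mul_one] at hij
      exact hxZ (hij ▸ zpow_mem (Subgroup.mem_zpowers z) i)
    obtain ⟨a, b, hab⟩ := (Nat.prime_iff_prime_int.1 hp.out).coprime_iff_not_dvd.2 hj
    have hxb : x ^ b = (z ^ i) ^ b * e := by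
      have hze : Commute (z ^ i) (e ^ j) := (Commute.zpow_zpow (hzc e (hEP (hXE heX))).symm i j)
      rw [hij, hze.mul_zpow, ← zpow_mul e, show j * b = 1 + (p : ℤ) * (-a) by linarith [hab],
        zpow_add, zpow_one, zpow_mul e, zpow_natCast, hEel.2 e (hXE heX), one_zpow, mul_one]
    obtain ⟨k, hk : c ^ k = (z ^ i) ^ b⟩ := (isOfFinOrder_of_finite c).mem_powers_iff_mem_zpowers.2
      (hZc'.symm ▸ zpow_mem (zpow_mem (Subgroup.mem_zpowers z) i) b : (z ^ i) ^ b ∈ Subgroup.zpowers c)
    set m := w ^ k with hm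
    have hmX : X.map (MulAut.conj m).toMonoidHom = Subgroup.zpowers x := by
      have hle : X.map (MulAut.conj m).toMonoidHom ≤ Subgroup.zpowers x := by
        rw [hXe, MonoidHom.map_zpowers, Subgroup.zpowers_le]
        show m * e * m⁻¹ ∈ Subgroup.zpowers x
        rw [hwk, hk, ← hxb]
        exact zpow_mem (Subgroup.mem_zpowers x) b
      refine Subgroup.eq_of_le_of_card_ge hle ?_
      have hx1 : x ≠ 1 := fun h => hxZ (h ▸ one_mem _)
      rw [card_map_conj, hXc, Nat.card_zpowers, orderOf_eq_prime hxp hx1]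
    have hmM : m ∈ M := pow_mem (hPM hwP) k
    rw [← hmX]
    have hN : Subgroup.normalizer ((X.map (MulAut.conj m).toMonoidHom : Subgroup G) : Set G) =
        (Subgroup.normalizer (X : Set G)).map (MulAut.conj m).toMonoidHom :=
      (Subgroup.map_equiv_normalizer_eq X (MulAut.conj m)).symm
    rw [hN]
    refine ⟨(Subgroup.map_mono hXN).trans (map_conj_le_of_mem hmM), fun L hL hle => ?_⟩
    have h := hXU (L.map (MulAut.conj m⁻¹).toMonoidHom) (isCoatom_map _ hL) (by
      have h := (Subgroup.map_mono hle : ((Subgroup.normalizer (X : Set G)).map (MulAut.conj m).toMonoidHom).map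
        (MulAut.conj m⁻¹).toMonoidHom ≤ _)
      rwa [map_conj_map, inv_mul_cancel, map_conj_one] at h)
    rw [← map_eq_of_mem_normalizer hmM, ← h, map_conj_map, mul_inv_cancel, map_conj_one]
  -- so `N(P) ≤ M`
  obtain ⟨a, haA, haZ⟩ : ∃ a ∈ A, a ∉ Z := by
    by_contra hno
    push Not at hno
    have := Nat.le_of_dvd Nat.card_pos (Subgroup.card_dvd_of_le (show A ≤ Z from hno))
    rw [hAc, hZc] at this
    exact absurd this (not_le.2 (lt_self_pow₀ hp.out.one_lt one_lt_two))
  refine hps ⟨hp.out, hpM, S, fun g hg => ?_⟩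
  have hgZ := hNPZ hg
  have hga : g * a * g⁻¹ ∈ P := (Subgroup.mem_normalizer_iff.1 hg a).1 (hAS haA)
  have hgaZ : g * a * g⁻¹ ∉ Z := fun h => haZ ((Subgroup.mem_normalizer_iff.1 hgZ a).2 h)
  have hgap : (g * a * g⁻¹) ^ p = 1 := by rw [← MulAut.conj_apply, ← map_pow, hA.2 a haA, map_one]
  obtain ⟨hN1, hU1⟩ := hline a (hAS haA) haZ (hA.2 a haA)
  obtain ⟨hN2, hU2⟩ := hline _ hga hgaZ hgap
  have h := hU2 (M.map (MulAut.conj g).toMonoidHom) (isCoatom_map _ hM) (by
    have h := (Subgroup.map_mono hN1 : (Subgroup.normalizer (Subgroup.zpowers a : Set G)).map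
      (MulAut.conj g).toMonoidHom ≤ _)
    rwa [show (Subgroup.normalizer (Subgroup.zpowers a : Set G)).map (MulAut.conj g).toMonoidHom =
      Subgroup.normalizer ((Subgroup.zpowers a).map (MulAut.conj g).toMonoidHom : Set G) from
        Subgroup.map_equiv_normalizer_eq _ (MulAut.conj g), MonoidHom.map_zpowers] at h)
  rw [← normalizer_coatom hG hM (coatom_ne_bot hG hM)]
  exact Subgroup.mem_normalizer_iff_map_conj_eq.2 h

/-- The elements of order dividing `p` of a Sylow subgroup of `M` containing `A`. -/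
theorem mem_iff_pow_eq_one (hG : Cfsg.IsMinSimpleOddOrder G) (hM : IsCoatom M) (hps : p ∉ Cfsg.sigma M)
    (hA : Cfsg.IsElementaryAbelian p A) (hAc : Nat.card A = p ^ 2) (S : Sylow p M)
    (hAS : A ≤ (S : Subgroup M).map M.subtype) :
    ∀ x ∈ (S : Subgroup M).map M.subtype, x ^ p = 1 ↔ x ∈ A := fun x hx =>
  ⟨mem_of_centralizer_pow hG hM hps (hAS.trans (Subgroup.map_subtype_le _)) hA hAc
    (Subgroup.le_centralizer_iff.1 (le_centralizer_sylow hG hM hps hA hAc S hAS) hx), hA.2 x⟩

/-- B&G 12.5 (b). -/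
theorem sylow_commute_of_elementary (hG : Cfsg.IsMinSimpleOddOrder G) (hM : IsCoatom M) (hps : p ∉ Cfsg.sigma M)
    (hA : Cfsg.IsElementaryAbelian p A) (hAc : Nat.card A = p ^ 2) (S : Sylow p M)
    (hAS : A ≤ (S : Subgroup M).map M.subtype) :
    ∀ x ∈ (S : Subgroup M).map M.subtype, ∀ y ∈ (S : Subgroup M).map M.subtype, x * y = y * x := by
  set P := (S : Subgroup M).map M.subtype with hP
  have hPp : IsPGroup p P := S.isPGroup'.map _
  have hPM : P ≤ M := Subgroup.map_subtype_le _
  have hAM := hAS.trans hPM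
  have hPA : P ≤ Subgroup.centralizer (A : Set G) :=
    Subgroup.le_centralizer_iff.1 (le_centralizer_sylow hG hM hps hA hAc S hAS)
  have hO := mem_iff_pow_eq_one hG hM hps hA hAc S hAS
  have hp2 : p ≠ 2 := ne_two hG ((hAc ▸ dvd_pow_self p two_ne_zero : p ∣ Nat.card A).trans
    (Subgroup.card_subgroup_dvd_card A))
  obtain ⟨T, hPT⟩ := IsPGroup.exists_le_sylow hPp
  have hAT : A ≤ (T : Subgroup G) := hAS.trans hPT
  by_cases hr : Cfsg.PRankLE p 2 ↥(T : Subgroup G)
  · rcases Cfsg.Agent.S1412.result hG p T hr with hc | ⟨P₁, P₂, hsup, hcomm, hnc, hcard, hexp, hcyc, -⟩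
    · intro x hx y hy
      haveI := hc
      exact congrArg Subtype.val (mul_comm' (⟨x, hPT hx⟩ : (T : Subgroup G)) ⟨y, hPT hy⟩)
    · have hP₂c : P₂ ≤ Subgroup.centralizer ((T : Subgroup G) : Set G) := by
        haveI := hcyc
        rw [← hsup, Subgroup.le_centralizer_iff]
        refine sup_le (fun a ha => Subgroup.mem_centralizer_iff.2 fun b hb => (hcomm a ha b hb).symm) ?_
        haveI : IsMulCommutative P₂ := IsCyclic.isMulCommutative
        exact Subgroup.le_centralizer P₂
      have hP₂T : P₂ ≤ (T : Subgroup G) := hsup ▸ le_sup_right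
      have hP₂P : P₂ ≤ P := by
        have hle : P₂ ≤ M := ((hP₂c.trans (Subgroup.centralizer_le hAT))).trans
          (centralizer_le_maximal hG hM hAM hA hAc)
        have h := sylow_map_max S (P ⊔ P₂) (T.isPGroup'.to_le (sup_le hPT hP₂T)) (sup_le hPM hle) le_sup_left
        exact le_sup_right.trans h.le
      have hlt : P₁ ⊓ P < P₁ := lt_of_le_of_ne inf_le_left fun h => by
        have hle : P₁ ≤ A := fun x hx => by
          refine (hO x ((h.ge.trans inf_le_right) hx)).1 ?_
          have := Monoid.pow_exponent_eq_one (⟨x, hx⟩ : P₁)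
          rw [hexp] at this
          exact congrArg Subtype.val this
        have := Nat.le_of_dvd Nat.card_pos (Subgroup.card_dvd_of_le hle)
        rw [hcard, hAc] at this
        exact absurd this (not_le.2 (Nat.pow_lt_pow_right hp.out.one_lt (by norm_num)))
      obtain ⟨k, hk⟩ := ((T.isPGroup'.to_le (hsup ▸ le_sup_left : P₁ ≤ _)).to_le
        (inf_le_left : P₁ ⊓ P ≤ P₁)).exists_card_eq
      have hk2 : k ≤ 2 := by
        have h := card_lt_of_lt hlt
        rw [hk, hcard] at h
        have := (Nat.pow_lt_pow_iff_right hp.out.one_lt).1 h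
        omega
      have hQ : IsMulCommutative ↥(P₁ ⊓ P) := by
        interval_cases k
        · haveI : Subsingleton ↥(P₁ ⊓ P) := (Nat.card_eq_one_iff_unique.1 (by rw [hk, pow_zero])).1
          exact ⟨⟨fun a b => Subsingleton.elim _ _⟩⟩
        · haveI : IsCyclic ↥(P₁ ⊓ P) := isCyclic_of_prime_card (by rw [hk, pow_one])
          exact IsCyclic.isMulCommutative
        · exact IsPGroup.isMulCommutative_of_card_eq_prime_sq hk
      have hle : P ≤ (P₁ ⊓ P) ⊔ P₂ := by
        intro x hx
        have hx' : x ∈ P₁ ⊔ P₂ := hsup.symm ▸ hPT hx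
        rw [← SetLike.mem_coe, Subgroup.coe_mul_of_left_le_normalizer_right] at hx'
        · obtain ⟨a, ha, b, hb, rfl⟩ := hx'
          refine mul_mem (Subgroup.mem_sup_left ⟨ha, ?_⟩) (Subgroup.mem_sup_right hb)
          simpa using P.mul_mem hx (inv_mem (hP₂P hb))
        · exact fun a ha => Subgroup.centralizer_le_normalizer _ (Subgroup.mem_centralizer_iff.2 fun b hb =>
            (hcomm a ha b hb).symm)
      haveI := hQ
      have hself : P ≤ Subgroup.centralizer (P : Set G) := by
        have h1 : P₂ ≤ Subgroup.centralizer (P : Set G) := hP₂c.trans (Subgroup.centralizer_le hPT)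
        have h2 : P₁ ⊓ P ≤ Subgroup.centralizer (P : Set G) := by
          rw [Subgroup.le_centralizer_iff]
          refine hle.trans (sup_le (Subgroup.le_centralizer _) ?_)
          exact h1.trans (Subgroup.centralizer_le inf_le_right)
        exact hle.trans (sup_le h2 h1)
      exact fun x hx y hy => (Subgroup.mem_centralizer_iff.1 (hself hx) y hy).symm
  · have hEmap : (A.subgroupOf (T : Subgroup G)).map (T : Subgroup G).subtype = A :=
      Subgroup.map_subgroupOf_eq_of_le hAT
    haveI := hA.1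
    have hel : Cfsg.IsElementaryAbelian p (A.subgroupOf (T : Subgroup G)) :=
      ⟨⟨⟨fun a b => Subtype.ext (Subtype.ext (NormalEl.commute_of_elementary hA
        (Subgroup.mem_subgroupOf.1 a.2) (Subgroup.mem_subgroupOf.1 b.2)))⟩⟩,
        fun x hx => Subtype.ext (hA.2 _ hx)⟩
    obtain ⟨hnot, -, -, hchar, hidx⟩ := Cfsg.Agent.S1453.result p hp2 T.isPGroup' hr (A.subgroupOf (T : Subgroup G))
      hel ((Nat.card_congr (Subgroup.subgroupOfEquivOfLe hAT).toEquiv).trans hAc) fun B hB hle => by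
        haveI := hB.1
        have hBm : Cfsg.IsElementaryAbelian p (B.map (T : Subgroup G).subtype) := by
          refine ⟨inferInstance, ?_⟩
          rintro _ ⟨b, hb, rfl⟩
          rw [← map_pow, hB.2 b hb, map_one]
        have h := eq_of_elementary_ge hG hM hps hAM hA hAc hBm (hEmap.ge.trans (Subgroup.map_mono hle))
        exact Subgroup.map_injective (T : Subgroup G).subtype_injective (h.trans hEmap.symm)
    set T₀ := Subgroup.centralizer ((Subgroup.closure {x : ↥(T : Subgroup G) |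
      x ∈ Subgroup.upperCentralSeries ↥(T : Subgroup G) 2 ∧ x ^ p = 1} : Subgroup ↥(T : Subgroup G)) : Set ↥(T : Subgroup G))
    haveI := hchar
    obtain ⟨e, heA, he⟩ := SetLike.not_le_iff_exists.1 hnot
    set Pp := P.subgroupOf (T : Subgroup G) with hPp'
    have heP : e ∈ Pp := Subgroup.mem_subgroupOf.2 (hAS (Subgroup.mem_subgroupOf.1 heA))
    set C := (T₀ ⊓ Pp).map (T : Subgroup G).subtype with hC
    have hCP : C ≤ P := by
      rintro _ ⟨x, hx, rfl⟩
      exact Subgroup.mem_subgroupOf.1 hx.2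
    haveI hCc : IsCyclic C := by
      by_contra hcc
      obtain ⟨B, hBC, hB, hBc⟩ := exists_elem_sq hp2 (hPp.to_le hCP) hcc
      have hBA : B ≤ A := fun x hx => (hO x (hCP (hBC hx))).1 (hB.2 x hx)
      have hBA' : A = B := (Subgroup.eq_of_le_of_card_ge hBA (by rw [hBc, hAc])).symm
      obtain ⟨x, hx, hxe⟩ := hBC (hBA'.le (Subgroup.mem_subgroupOf.1 heA))
      exact he (Subtype.val_injective hxe ▸ hx.1)
    have hle : Pp ≤ (T₀ ⊓ Pp) ⊔ Subgroup.zpowers e := by
      set K := (T₀ ⊓ Pp) ⊔ Subgroup.zpowers e with hK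
      have hKP : K ≤ Pp := sup_le inf_le_right (Subgroup.zpowers_le.2 heP)
      rw [← Subgroup.relIndex_eq_one]
      have h1 : (T₀ ⊓ Pp).relIndex K * K.relIndex Pp = (T₀ ⊓ Pp).relIndex Pp :=
        Subgroup.relIndex_mul_relIndex _ _ _ le_sup_left hKP
      have h2 : (T₀ ⊓ Pp).relIndex Pp ∣ p := by
        rw [Subgroup.inf_relIndex_right]
        exact (Subgroup.relIndex_dvd_index_of_normal _ _).trans hidx.dvd
      have h3 : (T₀ ⊓ Pp).relIndex K ≠ 1 := fun h =>
        he ((Subgroup.relIndex_eq_one.1 h (Subgroup.mem_sup_right (Subgroup.mem_zpowers e))).1)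
      rw [← h1] at h2
      rcases (Nat.dvd_prime hp.out).1 ((dvd_mul_right _ _).trans h2) with h | h
      · exact absurd h h3
      · rw [h] at h2
        exact Nat.dvd_one.1 (Nat.dvd_of_mul_dvd_mul_left hp.out.pos (h2.trans (mul_one p).symm.dvd))
    have hle' : P ≤ C ⊔ Subgroup.zpowers (e : G) := by
      rw [← Subgroup.map_subgroupOf_eq_of_le hPT, hC]
      refine (Subgroup.map_mono hle).trans (le_of_eq ?_)
      rw [Subgroup.map_sup, MonoidHom.map_zpowers]
      rfl
    haveI : IsMulCommutative C := IsCyclic.isMulCommutative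
    have heC : Subgroup.zpowers (e : G) ≤ Subgroup.centralizer (P : Set G) :=
      Subgroup.zpowers_le.2 (le_centralizer_sylow hG hM hps hA hAc S hAS (Subgroup.mem_subgroupOf.1 heA))
    have hCC : C ≤ Subgroup.centralizer (P : Set G) := by
      rw [Subgroup.le_centralizer_iff]
      exact hle'.trans (sup_le (Subgroup.le_centralizer C) (heC.trans (Subgroup.centralizer_le hCP)))
    exact fun x hx y hy => (Subgroup.mem_centralizer_iff.1 (hle'.trans (sup_le hCC heC) hx) y hy).symm

end CfsgLib.SigmaGroups
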